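import Mathlib.GroupTheory.SpecificGroups.ZGroup
import Mathlib.GroupTheory.GroupAction.MultipleTransitivity
import Mathlib.GroupTheory.Perm.Sign
import Cfsg.Agent.ZStar.Theorem
import Cfsg.Agent.ZStar.Corollaries

/-!
Doubly transitive groups of even degree in which the point stabilisers are Z-groups and some
2-element acts semiregularly with orbits as large as possible: elementary facts.
-/

set_option autoImplicit false
set_option linter.unusedSectionVars false
set_option linter.style.haveILetI false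

namespace CfsgLib.CycZ75

open MulAction

universe u v

/-- The hypotheses. -/
structure Ctx (G : Type u) (Ω : Type v) [Group G] [MulAction G Ω] : Prop where
  faith : FaithfulSMul G Ω
  pair : ∀ x y z w : Ω, x ≠ y → z ≠ w → ∃ g : G, g • x = z ∧ g • y = w
  even : Even (Nat.card Ω)
  two_le : 2 ≤ Nat.card Ω
  zgrp : ∀ x : Ω, IsZGroup ↥(stabilizer G x)
  semi : ∃ a : G, orderOf a = 2 ^ (Nat.card Ω).factorization 2 ∧
    ∀ (i : ℕ) (x : Ω), a ^ i • x = x → a ^ i = 1

/-- An element with `z * z = 1` generates a subgroup of order dividing two. -/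
theorem orderOf_dvd_two {G : Type*} [Group G] {z : G} (h : z * z = 1) : orderOf z ∣ 2 :=
  orderOf_dvd_of_pow_eq_one (by rw [pow_two, h])

theorem orderOf_eq_two {G : Type*} [Group G] {z : G} (h : z * z = 1) (h1 : z ≠ 1) : orderOf z = 2 :=
  orderOf_eq_prime (by rw [pow_two, h]) h1

/-- A cyclic group has at most one element of order two. -/
theorem involution_unique_of_isCyclic {G : Type*} [Group G] [Finite G] [IsCyclic G] :
    TwoGroup.AtMostOneInvolution G := by
  intro s t hs ht
  haveI := Fintype.ofFinite G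
  classical
  have hd : 2 ∣ Fintype.card G := by
    rw [← Nat.card_eq_fintype_card, ← hs]
    exact orderOf_dvd_natCard s
  have h := IsCyclic.card_orderOf_eq_totient hd
  rw [Nat.totient_two, Finset.card_eq_one] at h
  obtain ⟨z, hz⟩ := h
  have key : ∀ x : G, orderOf x = 2 → x = z := fun x hx =>
    Finset.mem_singleton.1 (hz ▸ Finset.mem_filter.2 ⟨Finset.mem_univ x, hx⟩)
  rw [key s hs, key t ht]

/-- Two involutions of a finite Z-group are conjugate. -/
theorem exists_conj_of_isZGroup {G : Type*} [Group G] [Finite G] [IsZGroup G] {s t : G}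
    (hs : orderOf s = 2) (ht : orderOf t = 2) : ∃ g : G, g * s * g⁻¹ = t := by
  haveI : Fact (Nat.Prime 2) := ⟨Nat.prime_two⟩
  have hp : ∀ z : G, orderOf z = 2 → IsPGroup 2 ↥(Subgroup.zpowers z) := fun z hz =>
    IsPGroup.of_card (n := 1) (by rw [Nat.card_zpowers, hz, pow_one])
  obtain ⟨P, hP⟩ := (hp s hs).exists_le_sylow
  obtain ⟨Q, hQ⟩ := (hp t ht).exists_le_sylow
  obtain ⟨g, rfl⟩ := MulAction.exists_smul_eq G P Q
  refine ⟨g, ?_⟩
  have h1 : g * s * g⁻¹ ∈ g • P := by
    change g * s * g⁻¹ ∈ ((g • P : Sylow 2 G) : Subgroup G)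
    rw [Sylow.coe_subgroup_smul]
    exact ⟨s, hP (Subgroup.mem_zpowers s), by simp [MulDistribMulAction.toMonoidEnd_apply]⟩
  haveI : IsCyclic ↥((g • P : Sylow 2 G) : Subgroup G) := inferInstance
  have h3 := involution_unique_of_isCyclic (G := ↥((g • P : Sylow 2 G) : Subgroup G)) ⟨_, h1⟩
    ⟨t, hQ (Subgroup.mem_zpowers t)⟩
    (by rw [Subgroup.orderOf_mk]
        exact (orderOf_injective (MulAut.conj g).toMonoidHom (MulAut.conj g).injective s).trans hs)
    (by rw [Subgroup.orderOf_mk]; exact ht)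
  exact congrArg Subtype.val h3

/-- Commuting involutions of a finite Z-group are equal. -/
theorem eq_of_commute_of_isZGroup {G : Type*} [Group G] [Finite G] [IsZGroup G] {s t : G}
    (hs : orderOf s = 2) (ht : orderOf t = 2) (hst : Commute s t) : s = t := by
  haveI : Fact (Nat.Prime 2) := ⟨Nat.prime_two⟩
  have hp : ∀ z : G, orderOf z = 2 → IsPGroup 2 ↥(Subgroup.zpowers z) := fun z hz =>
    IsPGroup.of_card (n := 1) (by rw [Nat.card_zpowers, hz, pow_one])
  have hle : Subgroup.zpowers s ≤ Subgroup.normalizer ((Subgroup.zpowers t : Subgroup G) : Set G) := by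
    rw [Subgroup.zpowers_le]
    exact Subgroup.centralizer_le_normalizer _ (Subgroup.mem_centralizer_iff.2 fun z hz => by
      obtain ⟨k, rfl⟩ := Subgroup.mem_zpowers_iff.1 hz
      exact ((hst.symm).zpow_left k).eq)
  haveI := (IsPGroup.to_sup_of_normal_right' (hp s hs) (hp t ht) hle).isCyclic_of_isZGroup
  exact congrArg Subtype.val (involution_unique_of_isCyclic
    (G := ↥(Subgroup.zpowers s ⊔ Subgroup.zpowers t : Subgroup G))
    ⟨s, Subgroup.mem_sup_left (Subgroup.mem_zpowers s)⟩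
    ⟨t, Subgroup.mem_sup_right (Subgroup.mem_zpowers t)⟩
    (by rw [Subgroup.orderOf_mk]; exact hs) (by rw [Subgroup.orderOf_mk]; exact ht))

/-- The two-part of the order of a cyclic Sylow subgroup of a Z-group. -/
theorem isZGroup_iff_sylow {G : Type*} [Group G] :
    IsZGroup G ↔ ∀ (p : ℕ) [Fact p.Prime] (P : Sylow p G), IsCyclic (P : Subgroup G) :=
  ⟨fun h p _ P => by haveI := h; infer_instance, fun h => ⟨fun p hp P => @h p ⟨hp⟩ P⟩⟩

section

variable {G : Type u} {Ω : Type v} [Group G] [MulAction G Ω]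

theorem normal_transitive (c : Ctx G Ω) {N : Subgroup G} (hN : N.Normal) (h : N ≠ ⊥) (y z : Ω) :
    ∃ n ∈ N, n • y = z := by
  by_cases hyz : y = z
  · exact ⟨1, N.one_mem, by rw [hyz, one_smul]⟩
  obtain ⟨n, hn, hn1⟩ := N.bot_or_exists_ne_one.resolve_left h
  haveI := c.faith
  obtain ⟨x, hx⟩ : ∃ x : Ω, n • x ≠ x := by
    by_contra hcon
    push Not at hcon
    exact hn1 (FaithfulSMul.eq_of_smul_eq_smul (α := Ω) fun x => by rw [hcon x, one_smul])
  obtain ⟨g, hgx, hgy⟩ := c.pair x (n • x) y z hx.symm hyz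
  exact ⟨g * n * g⁻¹, hN.conj_mem n hn g, by rw [← hgx, mul_smul, inv_smul_smul, mul_smul, hgy]⟩

theorem normal_pretransitive (c : Ctx G Ω) {N : Subgroup G} (hN : N.Normal) (h : N ≠ ⊥) :
    IsPretransitive ↥N Ω :=
  ⟨fun y z => by
    obtain ⟨n, hn, e⟩ := normal_transitive c hN h y z
    exact ⟨⟨n, hn⟩, e⟩⟩

theorem pretransitive (c : Ctx G Ω) [Finite Ω] : IsPretransitive G Ω :=
  ⟨fun y z => by
    by_cases hyz : y = z
    · exact ⟨1, by rw [one_smul, hyz]⟩
    · obtain ⟨g, hg, -⟩ := c.pair y z z y hyz (Ne.symm hyz)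
      exact ⟨g, hg⟩⟩

theorem card_eq (c : Ctx G Ω) [Finite Ω] (x : Ω) :
    Nat.card G = Nat.card Ω * Nat.card ↥(stabilizer G x) := by
  haveI := pretransitive c
  rw [← MulAction.index_stabilizer_of_transitive (G := G) x, Subgroup.index_mul_card]

theorem odd_normal_eq_bot (c : Ctx G Ω) [Finite G] [Finite Ω] {N : Subgroup G} (hN : N.Normal)
    (ho : Odd (Nat.card N)) : N = ⊥ := by
  by_contra h
  haveI := normal_pretransitive c hN h
  obtain ⟨x⟩ : Nonempty Ω := (Nat.card_pos_iff.1 (by have := c.two_le; omega)).1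
  have h1 : Nat.card Ω ∣ Nat.card N := by
    rw [← MulAction.index_stabilizer_of_transitive (G := ↥N) x]
    exact Subgroup.index_dvd_card _
  exact (Nat.not_odd_iff_even.2 (c.even.trans_dvd h1)) ho

theorem pPrimeCore_eq_bot (c : Ctx G Ω) [Finite G] [Finite Ω] : Cfsg.pPrimeCore 2 G = ⊥ :=
  ZStar.pPrimeCore_two_eq_bot fun _ hN ho => odd_normal_eq_bot c hN ho

theorem center_eq_bot (c : Ctx G Ω) (h2 : 2 < Nat.card Ω) [Finite Ω] : Subgroup.center G = ⊥ := by
  by_contra h
  obtain ⟨z, hz, hz1⟩ := (Subgroup.center G).bot_or_exists_ne_one.resolve_left h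
  haveI := c.faith
  obtain ⟨x, hx⟩ : ∃ x : Ω, z • x ≠ x := by
    by_contra hcon
    push Not at hcon
    exact hz1 (FaithfulSMul.eq_of_smul_eq_smul (α := Ω) fun x => by rw [hcon x, one_smul])
  haveI := Fintype.ofFinite Ω
  classical
  obtain ⟨w, -, hw⟩ := Finset.exists_mem_notMem_of_card_lt_card (s := ({x, z • x} : Finset Ω))
    (t := Finset.univ) (by
      rw [Finset.card_univ, ← Nat.card_eq_fintype_card]
      exact lt_of_le_of_lt Finset.card_le_two h2)
  simp only [Finset.mem_insert, Finset.mem_singleton, not_or] at hw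
  obtain ⟨g, hgx, hgw⟩ := c.pair x (z • x) x w hx.symm (fun e => hw.1 e.symm)
  refine hw.2 ?_
  rw [← hgw, ← mul_smul, Subgroup.mem_center_iff.1 hz g, mul_smul, hgx]

theorem not_isolated (c : Ctx G Ω) [Finite G] [Finite Ω] (h2 : 2 < Nat.card Ω) {t : G}
    (ht : orderOf t = 2) : ∃ g : G, Commute t (g * t * g⁻¹) ∧ g * t * g⁻¹ ≠ t := by
  by_contra h
  push Not at h
  have hc := ZStar.mem_center_of_inZStar (pPrimeCore_eq_bot c) (ZStar.inZStar_of_isolated ht h)
  rw [center_eq_bot c h2, Subgroup.mem_bot] at hc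
  rw [hc, orderOf_one] at ht
  exact absurd ht (by norm_num)

/-- A doubly transitive group of even degree which is a 2-group modulo its core has degree two. -/
theorem card_eq_two (c : Ctx G Ω) [Finite G] [Finite Ω] {M : Subgroup G} (hM : M.Normal)
    (ho : Odd (Nat.card M)) {k : ℕ} (hk : M.index = 2 ^ k) : Nat.card Ω = 2 := by
  rw [odd_normal_eq_bot c hM ho, Subgroup.index_bot] at hk
  classical
  haveI := Fintype.ofFinite Ω
  obtain ⟨x⟩ : Nonempty Ω := (Nat.card_pos_iff.1 (by have := c.two_le; omega)).1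
  obtain ⟨y, hy⟩ : ∃ y : Ω, y ≠ x := Fintype.exists_ne_of_one_lt_card
    (by rw [← Nat.card_eq_fintype_card]; have := c.two_le; omega) x
  have horb : orbit ↥(stabilizer G x) y = {x}ᶜ := by
    ext z
    simp only [Set.mem_compl_iff, Set.mem_singleton_iff]
    constructor
    · rintro ⟨g, rfl⟩ h
      exact hy (smul_left_cancel (g : G) (h.trans g.2.symm))
    · intro hz
      obtain ⟨g, hgx, hgy⟩ := c.pair x y x z hy.symm (Ne.symm hz)
      exact ⟨⟨g, hgx⟩, hgy⟩
  have h1 : (orbit ↥(stabilizer G x) y).ncard ∣ 2 ^ k := by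
    rw [← hk, ← MulAction.index_stabilizer (G := ↥(stabilizer G x)) y]
    exact (Subgroup.index_dvd_card _).trans (Subgroup.card_subgroup_dvd_card _)
  rw [horb, Set.ncard_compl, Set.ncard_singleton] at h1
  obtain ⟨i, -, hi⟩ := (Nat.dvd_prime_pow Nat.prime_two).1 h1
  rcases Nat.eq_zero_or_pos i with rfl | hi0
  · rw [pow_zero] at hi
    have := c.two_le
    omega
  · exfalso
    obtain ⟨r, hr⟩ := c.even
    obtain ⟨j, rfl⟩ := Nat.exists_eq_add_of_lt hi0
    rw [pow_succ] at hi
    have := c.two_le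
    omega

/-- An abelian Sylow 2-subgroup central in its normaliser gives a normal 2-complement. -/
theorem exists_complement {C : Type*} [Group C] [Finite C] (P : Sylow 2 C)
    (hP : Subgroup.normalizer ((P : Subgroup C) : Set C) ≤ Subgroup.centralizer (P : Set C)) :
    ∃ M : Subgroup C, M.Normal ∧ Odd (Nat.card M) ∧ ∃ k : ℕ, M.index = 2 ^ k := by
  haveI : Fact (Nat.Prime 2) := ⟨Nat.prime_two⟩
  refine ⟨(MonoidHom.transferSylow P hP).ker, inferInstance, ?_, ?_⟩
  · rw [← Nat.not_even_iff_odd, even_iff_two_dvd]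
    exact MonoidHom.not_dvd_card_ker_transferSylow P hP
  · obtain ⟨k, hk⟩ := IsPGroup.iff_card.1 P.2
    exact ⟨k, by rw [(MonoidHom.ker_transferSylow_isComplement' P hP).symm.index_eq_card]; exact hk⟩

/-- A cyclic Sylow 2-subgroup gives a normal 2-complement. -/
theorem exists_complement_of_isCyclic {C : Type*} [Group C] [Finite C] (P : Sylow 2 C)
    (hP : IsCyclic P) (h : 2 ∣ Nat.card C) :
    ∃ M : Subgroup C, M.Normal ∧ Odd (Nat.card M) ∧ ∃ k : ℕ, M.index = 2 ^ k :=
  exists_complement P (hP.normalizer_le_centralizer ((Nat.minFac_eq_two_iff _).2 h))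

end

end CfsgLib.CycZ75
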