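import Mathlib
import Cfsg.Agent.CycZGroup75.Basic
import Cfsg.Agent.FixityFour.Basic
import Cfsg.Agent.Constrained.Basic

/-!
The configuration: a Sylow 2-subgroup as the product of a semiregular cyclic group and a cyclic
point stabiliser; the even permutations; the action of an involution centraliser on the fixed set.
-/

set_option autoImplicit false
set_option linter.style.haveILetI false
set_option linter.unusedSectionVars false

namespace CfsgLib.CycZ75

open MulAction

universe u v

variable {G : Type u} {Ω : Type v} [Group G] [MulAction G Ω] [Finite G] [Finite Ω]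

/-- The sign of the permutation given by an element. -/
noncomputable def sgn (G : Type u) (Ω : Type v) [Group G] [MulAction G Ω] [Finite Ω] : G →* ℤˣ :=
  letI := Fintype.ofFinite Ω
  letI := Classical.decEq Ω
  Equiv.Perm.sign.comp (toPermHom G Ω)

theorem sgn_of_period {g : G} {k m : ℕ} (hg : g ^ 2 ^ (k + 1) = 1)
    (hper : ∀ x : Ω, g ^ 2 ^ k • x = x → g • x = x)
    (hm : Nat.card {x : Ω // g • x ≠ x} = m * 2 ^ (k + 1)) : sgn G Ω g = (-1) ^ m := by
  letI := Fintype.ofFinite Ω
  letI := Classical.decEq Ω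
  refine FixityFour.sign_of_period (k := k) ?_ (fun x hx => ?_) ?_
  · rw [← map_pow, hg, map_one]
  · rw [← map_pow] at hx
    exact hper x hx
  · rw [← hm, Nat.card_eq_fintype_card, Fintype.card_subtype]
    exact congrArg Finset.card (Finset.ext fun x => by simp [Equiv.Perm.mem_support])

/-- The fixed set of `t`, with the action of the centraliser of `t`. -/
def fixSet (G : Type u) (Ω : Type v) [Group G] [MulAction G Ω] (t : G) :
    SubMulAction ↥(Subgroup.centralizer ({t} : Set G)) Ω where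
  carrier := {x | t • x = x}
  smul_mem' c x hx := by
    change t • ((c : G) • x) = (c : G) • x
    rw [← mul_smul, ← Subgroup.mem_centralizer_singleton_iff.1 c.2, mul_smul, hx]

theorem mem_fixSet {t : G} {x : Ω} : x ∈ fixSet G Ω t ↔ t • x = x := Iff.rfl

/-- A group acting freely has order dividing the number of points. -/
theorem card_dvd_of_free {Q X : Type*} [Group Q] [MulAction Q X] [Finite Q] [Finite X]
    (h : ∀ (q : Q) (x : X), q • x = x → q = 1) : Nat.card Q ∣ Nat.card X := by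
  have hst : ∀ x : X, stabilizer Q x = ⊥ := fun x => by
    rw [eq_bot_iff]
    exact fun q hq => Subgroup.mem_bot.2 (h q x hq)
  rw [Nat.card_congr (selfEquivOrbitsQuotientProd hst), Nat.card_prod]
  exact dvd_mul_left _ _

/-- If every non-trivial power of `d` has `t` among its powers then `d` acts freely off `Fix t`. -/
theorem dvd_moved {d t : G} (hd : ∀ i : ℕ, d ^ i ≠ 1 → t ∈ Subgroup.zpowers (d ^ i)) :
    orderOf d ∣ Nat.card {x : Ω // t • x ≠ x} := by
  have hcomm : ∀ q ∈ Subgroup.zpowers d, q * t = t * q := by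
    intro q hq
    by_cases h1 : d = 1
    · rw [h1, Subgroup.zpowers_one_eq_bot, Subgroup.mem_bot] at hq
      rw [hq, one_mul, mul_one]
    obtain ⟨k, rfl⟩ := Subgroup.mem_zpowers_iff.1 hq
    obtain ⟨l, rfl⟩ := Subgroup.mem_zpowers_iff.1 (hd 1 (by rwa [pow_one]))
    rw [pow_one, ← zpow_add, ← zpow_add, add_comm]
  let Y : SubMulAction ↥(Subgroup.zpowers d) Ω :=
    { carrier := {x | t • x ≠ x}
      smul_mem' := fun q x hx h => hx (smul_left_cancel (q : G) (by
        rw [← mul_smul, hcomm _ q.2, mul_smul]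
        exact h)) }
  rw [← Nat.card_zpowers]
  refine card_dvd_of_free (Q := ↥(Subgroup.zpowers d)) (X := ↥Y) fun q x hq => ?_
  by_contra hne
  obtain ⟨i, hi⟩ := (mem_powers_iff_mem_zpowers.2 q.2 : (q : G) ∈ Submonoid.powers d)
  have h1 : d ^ i ≠ 1 := fun e => hne (Subtype.ext (hi.symm.trans e))
  have h2 : d ^ i • (x : Ω) = (x : Ω) := by
    rw [show d ^ i = (q : G) from hi]
    exact congrArg Subtype.val hq
  exact x.2 (Subgroup.zpowers_le.2 (mem_stabilizer_iff.2 h2) (hd i h1))

theorem card_fix_add_moved (t : G) :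
    Nat.card (fixSet G Ω t) + Nat.card {x : Ω // t • x ≠ x} = Nat.card Ω := by
  classical
  rw [← Nat.card_sum]
  exact Nat.card_congr (Equiv.sumCompl fun x : Ω => t • x = x)

namespace Ctx

theorem inv_of_fix_two (c : Ctx G Ω) {t z : G} {x : Ω} (ht : orderOf t = 2) (hz : orderOf z = 2)
    (htx : t • x = x) (hzx : z • x = x) (h : Commute t z) : t = z := by
  haveI := c.zgrp x
  exact congrArg Subtype.val (eq_of_commute_of_isZGroup (G := ↥(stabilizer G x))
    (s := ⟨t, htx⟩) (t := ⟨z, hzx⟩) ((Subgroup.orderOf_coe _).symm.trans ht)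
    ((Subgroup.orderOf_coe _).symm.trans hz) (Subtype.ext h))

/-- Witt: the centraliser of an involution is doubly transitive on its fixed set. -/
theorem pair_fix (c : Ctx G Ω) {t : G} (ht : orderOf t = 2) {x y z w : Ω} (hx : t • x = x)
    (hy : t • y = y) (hz : t • z = z) (hw : t • w = w) (hxy : x ≠ y) (hzw : z ≠ w) :
    ∃ g ∈ Subgroup.centralizer ({t} : Set G), g • x = z ∧ g • y = w := by
  obtain ⟨g, hgx, hgy⟩ := c.pair x y z w hxy hzw
  set t' := g * t * g⁻¹ with ht'
  have h1 : t' • z = z := by rw [ht', ← hgx, mul_smul, inv_smul_smul, mul_smul, hx]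
  have h2 : t' • w = w := by rw [ht', ← hgy, mul_smul, inv_smul_smul, mul_smul, hy]
  haveI := c.zgrp z
  let P : Subgroup G := stabilizer G z ⊓ stabilizer G w
  haveI : IsZGroup ↥P := IsZGroup.of_injective (G' := ↥(stabilizer G z))
    (f := Subgroup.inclusion (inf_le_left : P ≤ stabilizer G z)) (Subgroup.inclusion_injective _)
  obtain ⟨k, hk⟩ := exists_conj_of_isZGroup (G := ↥P) (s := ⟨t', h1, h2⟩) (t := ⟨t, hz, hw⟩)
    ((Subgroup.orderOf_coe _).symm.trans
      ((orderOf_injective (MulAut.conj g).toMonoidHom (MulAut.conj g).injective t).trans ht))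
    ((Subgroup.orderOf_coe _).symm.trans ht)
  have hk' : (k : G) * t' * (k : G)⁻¹ = t := congrArg Subtype.val hk
  refine ⟨(k : G) * g, Subgroup.mem_centralizer_singleton_iff.2 ?_,
    by rw [mul_smul, hgx]; exact k.2.1, by rw [mul_smul, hgy]; exact k.2.2⟩
  calc (k : G) * g * t = ((k : G) * t' * (k : G)⁻¹) * ((k : G) * g) := by rw [ht']; group
    _ = t * ((k : G) * g) := by rw [hk']

theorem two_le_fix (c : Ctx G Ω) {t : G} (ht : orderOf t = 2) {x : Ω} (hx : t • x = x) :
    Even (Nat.card (fixSet G Ω t)) ∧ 2 ≤ Nat.card (fixSet G Ω t) := by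
  have hd : ∀ i : ℕ, t ^ i ≠ 1 → t ∈ Subgroup.zpowers (t ^ i) := fun i hi => by
    have : t ^ i = t := by
      rw [← pow_mod_orderOf, ht] at hi ⊢
      rcases Nat.mod_two_eq_zero_or_one i with e | e <;> rw [e] at hi ⊢
      · exact absurd (pow_zero t) hi
      · exact pow_one t
    rw [this]
    exact Subgroup.mem_zpowers t
  have h := dvd_moved (Ω := Ω) hd
  rw [ht] at h
  have he : Even (Nat.card (fixSet G Ω t)) := by
    have := card_fix_add_moved (Ω := Ω) t
    have hev := c.even
    rw [← this, Nat.even_add] at hev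
    exact hev.2 (even_iff_two_dvd.2 h)
  haveI : Nonempty (fixSet G Ω t) := ⟨⟨x, hx⟩⟩
  have := Nat.card_pos (α := fixSet G Ω t)
  exact ⟨he, by obtain ⟨r, hr⟩ := he; omega⟩

end Ctx

/-- The configuration attached to an involution fixing a point. -/
structure Setup (G : Type u) (Ω : Type v) [Group G] [MulAction G Ω] (t : G) where
  S : Sylow 2 G
  α : Ω
  a : G
  d : G
  ord_t : orderOf t = 2
  aS : a ∈ (S : Subgroup G)
  dS : d ∈ (S : Subgroup G)
  ord_a : orderOf a = 2 ^ (Nat.card Ω).factorization 2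
  semi : ∀ (i : ℕ) (x : Ω), a ^ i • x = x → a ^ i = 1
  dfix : d • α = α
  ord_d : orderOf d = 2 ^ (Nat.card ↥(stabilizer G α)).factorization 2
  decomp : ∀ s ∈ (S : Subgroup G), ∃ i e : ℕ, s = a ^ i * d ^ e
  t_mem : t ∈ Subgroup.zpowers d
  cent : Nat.card ↥((S : Subgroup G) ⊓ Subgroup.centralizer ({t} : Set G)) =
    2 ^ (Nat.card ↥(Subgroup.centralizer ({t} : Set G))).factorization 2

theorem exists_setup (c : Ctx G Ω) {t : G} (ht : orderOf t = 2) {α : Ω} (hα : t • α = α) :
    ∃ E : Setup G Ω t, E.α = α := by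
  haveI : Fact (Nat.Prime 2) := ⟨Nat.prime_two⟩
  haveI := c.zgrp α
  have hpt : IsPGroup 2 ↥(Subgroup.zpowers t) :=
    IsPGroup.of_card (n := 1) (by rw [Nat.card_zpowers, ht, pow_one])
  obtain ⟨D, hD⟩ := (hpt.comap_of_injective (stabilizer G α).subtype
    Subtype.val_injective).exists_le_sylow
  obtain ⟨d₀, hd₀⟩ := (inferInstance : IsCyclic (D : Subgroup ↥(stabilizer G α))).exists_generator
  set d : G := ((d₀ : ↥(stabilizer G α)) : G) with hd
  have hordd : orderOf d = 2 ^ (Nat.card ↥(stabilizer G α)).factorization 2 := by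
    rw [hd, Subgroup.orderOf_coe, Subgroup.orderOf_coe, orderOf_eq_card_of_forall_mem_zpowers hd₀]
    exact D.card_eq_multiplicity
  have htd : t ∈ Subgroup.zpowers d := by
    obtain ⟨k, hk⟩ := Subgroup.mem_zpowers_iff.1
      (hd₀ ⟨⟨t, hα⟩, hD (Subgroup.mem_zpowers t)⟩)
    refine Subgroup.mem_zpowers_iff.2 ⟨k, ?_⟩
    have := congrArg (fun z : ↥(D : Subgroup ↥(stabilizer G α)) => ((z : ↥(stabilizer G α)) : G)) hk
    simpa [hd] using this
  have hdc : Subgroup.zpowers d ≤ Subgroup.centralizer ({t} : Set G) := by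
    rw [Subgroup.zpowers_le, Subgroup.mem_centralizer_singleton_iff]
    obtain ⟨k, rfl⟩ := Subgroup.mem_zpowers_iff.1 htd
    exact (Commute.self_zpow d k).eq
  have hpd : IsPGroup 2 ↥(Subgroup.zpowers d) := IsPGroup.of_card (by rw [Nat.card_zpowers, hordd])
  obtain ⟨P, hP⟩ := (hpd.comap_of_injective (Subgroup.centralizer ({t} : Set G)).subtype
    Subtype.val_injective).exists_le_sylow
  obtain ⟨S, hS⟩ := (P.2.map (Subgroup.centralizer ({t} : Set G)).subtype).exists_le_sylow
  have hdS : d ∈ (S : Subgroup G) := hS ⟨⟨d, hdc (Subgroup.mem_zpowers d)⟩,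
    hP (Subgroup.mem_zpowers d), rfl⟩
  obtain ⟨a₀, ha₀, hsemi₀⟩ := c.semi
  obtain ⟨S₀, hS₀⟩ := (IsPGroup.of_card (G := ↥(Subgroup.zpowers a₀))
    (by rw [Nat.card_zpowers, ha₀])).exists_le_sylow
  obtain ⟨g, rfl⟩ := MulAction.exists_smul_eq G S₀ S
  set a := g * a₀ * g⁻¹ with hadef
  have haS : a ∈ ((g • S₀ : Sylow 2 G) : Subgroup G) := by
    rw [Sylow.coe_subgroup_smul]
    exact ⟨a₀, hS₀ (Subgroup.mem_zpowers a₀), by simp [hadef, MulDistribMulAction.toMonoidEnd_apply]⟩
  have horda : orderOf a = 2 ^ (Nat.card Ω).factorization 2 :=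
    (orderOf_injective (MulAut.conj g).toMonoidHom (MulAut.conj g).injective a₀).trans ha₀
  have hsemi : ∀ (i : ℕ) (x : Ω), a ^ i • x = x → a ^ i = 1 := by
    intro i x hx
    rw [hadef, conj_pow] at hx ⊢
    have h1 : a₀ ^ i • (g⁻¹ • x) = g⁻¹ • x := by
      rw [mul_smul, mul_smul, smul_eq_iff_eq_inv_smul] at hx
      exact hx
    rw [hsemi₀ i _ h1, mul_one, mul_inv_cancel]
  -- counting
  have hSc : Nat.card ↥((g • S₀ : Sylow 2 G) : Subgroup G) = orderOf a * orderOf d := by
    rw [Sylow.card_eq_multiplicity, horda, hordd, ← pow_add, card_eq c α,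
      Nat.factorization_mul (by have := c.two_le; omega) Nat.card_pos.ne', Finsupp.add_apply]
  have hdecomp : ∀ s ∈ ((g • S₀ : Sylow 2 G) : Subgroup G), ∃ i e : ℕ, s = a ^ i * d ^ e := by
    have hinj : Function.Injective fun p : Fin (orderOf a) × Fin (orderOf d) =>
        (⟨a ^ (p.1 : ℕ) * d ^ (p.2 : ℕ), mul_mem (pow_mem haS _) (pow_mem hdS _)⟩ :
          ↥((g • S₀ : Sylow 2 G) : Subgroup G)) := by
      rintro ⟨i, e⟩ ⟨j, l⟩ h
      have h' : a ^ (i : ℕ) * d ^ (e : ℕ) = a ^ (j : ℕ) * d ^ (l : ℕ) := congrArg Subtype.val h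
      have hfix : ∀ k : ℕ, d ^ k • α = α := fun k =>
        pow_mem (show d ∈ stabilizer G α from (d₀ : ↥(stabilizer G α)).2) k
      have h2 : a ^ (i : ℕ) • α = a ^ (j : ℕ) • α := by
        have := congrArg (fun z : G => z • α) h'
        simpa [mul_smul, hfix] using this
      have key : ∀ p q : ℕ, p ≤ q → a ^ p • α = a ^ q • α → a ^ p = a ^ q := by
        intro p q hpq hh
        obtain ⟨r, rfl⟩ := Nat.exists_eq_add_of_le hpq
        rw [pow_add, mul_smul] at hh
        rw [pow_add, hsemi r α (smul_left_cancel _ hh).symm, mul_one]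
      have h3 : a ^ (i : ℕ) = a ^ (j : ℕ) := by
        rcases le_total (i : ℕ) (j : ℕ) with hle | hle
        · exact key _ _ hle h2
        · exact (key _ _ hle h2.symm).symm
      rw [h3, mul_left_cancel_iff] at h'
      exact Prod.ext (Fin.ext (pow_injOn_Iio_orderOf i.2 j.2 h3))
        (Fin.ext (pow_injOn_Iio_orderOf e.2 l.2 h'))
    have hsurj := ((Nat.bijective_iff_injective_and_card _).2 ⟨hinj, by
      rw [Nat.card_prod, Nat.card_fin, Nat.card_fin, hSc]⟩).2
    intro s hs
    obtain ⟨⟨i, e⟩, he⟩ := hsurj ⟨s, hs⟩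
    exact ⟨i, e, (congrArg Subtype.val he).symm⟩
  refine ⟨{ S := g • S₀, α := α, a := a, d := d, ord_t := ht, aS := haS, dS := hdS, ord_a := horda
            semi := hsemi, dfix := (d₀ : ↥(stabilizer G α)).2, ord_d := hordd, decomp := hdecomp
            t_mem := htd, cent := ?_ }, rfl⟩
  have h1 : (P : Subgroup ↥(Subgroup.centralizer ({t} : Set G))).map (Subgroup.subtype _) =
      ((g • S₀ : Sylow 2 G) : Subgroup G) ⊓ Subgroup.centralizer ({t} : Set G) := by
    refine le_antisymm (le_inf hS (Subgroup.map_subtype_le _)) ?_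
    have h2 : (((g • S₀ : Sylow 2 G) : Subgroup G) ⊓ Subgroup.centralizer ({t} : Set G)).subgroupOf
        (Subgroup.centralizer ({t} : Set G)) = (P : Subgroup ↥(Subgroup.centralizer ({t} : Set G))) := by
      refine P.3 (((g • S₀ : Sylow 2 G).2.to_le inf_le_left).comap_of_injective
        (Subgroup.subtype _) Subtype.val_injective) fun z hz => ?_
      exact Subgroup.mem_inf.2 ⟨hS ⟨z, hz, rfl⟩, z.2⟩
    intro z hz
    exact ⟨⟨z, hz.2⟩, by rw [← h2]; exact hz, rfl⟩
  rw [← h1, Subgroup.card_map_of_injective Subtype.val_injective, P.card_eq_multiplicity]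

end CfsgLib.CycZ75
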