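import Mathlib
import Cfsg.Agent.CycZGroup75.Config
import Cfsg.Agent.Dickson.Torus
import Cfsg.Agent.S0514

/-!
The action of the involution centraliser on the fixed set, and the two small cases.
-/

set_option autoImplicit false
set_option linter.style.haveILetI false
set_option linter.unusedSectionVars false

namespace CfsgLib.CycZ75

open MulAction

universe u v

/-- An element of odd order normalising a cyclic 2-group centralises it. -/
theorem commute_of_odd_normalizes {G : Type*} [Group G] {z y : G} {k : ℕ} (hz : orderOf z = 2 ^ k)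
    (hy : Odd (orderOf y)) (h : y * z * y⁻¹ ∈ Subgroup.zpowers z) : y * z * y⁻¹ = z := by
  obtain ⟨r, hr⟩ := Subgroup.mem_zpowers_iff.1 h
  have key : ∀ i : ℕ, y ^ i * z * (y ^ i)⁻¹ = z ^ (r ^ i) := by
    intro i
    induction i with
    | zero => simp
    | succ i ih =>
      calc y ^ (i + 1) * z * (y ^ (i + 1))⁻¹ = y * (y ^ i * z * (y ^ i)⁻¹) * y⁻¹ := by
            rw [pow_succ']; group
        _ = (y * z * y⁻¹) ^ (r ^ i) := by rw [ih, conj_zpow]
        _ = z ^ (r ^ (i + 1)) := by rw [← hr, ← zpow_mul, pow_succ']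
  have h1 := key (orderOf y)
  rw [pow_orderOf_eq_one, one_mul, inv_one, mul_one] at h1
  have h2 : ((r : ZMod (2 ^ k)) ^ orderOf y) = 1 := by
    have h3 := orderOf_dvd_iff_zpow_eq_one.2
      (show z ^ (r ^ orderOf y - 1) = 1 by rw [zpow_sub, zpow_one, ← h1, mul_inv_cancel])
    rw [hz] at h3
    have := (ZMod.intCast_zmod_eq_zero_iff_dvd _ _).2 (by exact_mod_cast h3)
    push_cast at this
    exact sub_eq_zero.1 this
  have hy0 : orderOf y ≠ 0 := fun e => by rw [e] at hy; simp at hy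
  set u : (ZMod (2 ^ k))ˣ := Units.ofPowEqOne _ _ h2 hy0 with hu
  have hu1 : orderOf u ∣ orderOf y := orderOf_dvd_of_pow_eq_one (Units.pow_ofPowEqOne h2 hy0)
  haveI : NeZero (2 ^ k) := ⟨pow_ne_zero _ two_ne_zero⟩
  have hu2 : orderOf u = 1 := by
    rcases Nat.eq_zero_or_pos k with rfl | hk
    · haveI : Subsingleton (ZMod (2 ^ 0)) := inferInstanceAs (Subsingleton (ZMod 1))
      exact orderOf_eq_one_iff.2 (Units.ext (Subsingleton.elim _ _))
    refine Nat.eq_one_of_dvd_coprimes ?_ (orderOf_dvd_natCard u) hu1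
    rw [Nat.card_eq_fintype_card, ZMod.card_units_eq_totient, Nat.totient_prime_pow Nat.prime_two hk,
      show (2 : ℕ) - 1 = 1 from rfl, mul_one]
    exact Nat.Coprime.pow_left _ (Nat.coprime_two_left.2 hy)
  have h4 : (r : ZMod (2 ^ k)) = 1 := congrArg Units.val (orderOf_eq_one_iff.1 hu2)
  rw [← hr]
  have h5 : ((2 ^ k : ℕ) : ℤ) ∣ r - 1 :=
    (ZMod.intCast_zmod_eq_zero_iff_dvd _ _).1 (by push_cast; rw [h4, sub_self])
  have h6 : z ^ (r - 1) = 1 := orderOf_dvd_iff_zpow_eq_one.1 (by rw [hz]; exact_mod_cast h5)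
  calc z ^ r = z ^ (r - 1) * z := by rw [zpow_sub_one, inv_mul_cancel_right]
    _ = z := by rw [h6, one_mul]

variable {G : Type u} {Ω : Type v} [Group G] [MulAction G Ω]

/-- The centraliser of `t` as a group of permutations of the fixed set. -/
abbrev fixHom (G : Type u) (Ω : Type v) [Group G] [MulAction G Ω] (t : G) :
    ↥(Subgroup.centralizer ({t} : Set G)) →* Equiv.Perm ↥(fixSet G Ω t) :=
  toPermHom _ _

/-- The image of that action. -/
abbrev fixGroup (G : Type u) (Ω : Type v) [Group G] [MulAction G Ω] (t : G) :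
    Subgroup (Equiv.Perm ↥(fixSet G Ω t)) :=
  (fixHom G Ω t).range

namespace Setup

variable [Finite G] [Finite Ω] {t : G} (E : Setup G Ω t)

include E

theorem d_pow_fix (e : ℕ) : E.d ^ e • E.α = E.α :=
  pow_mem (show E.d ∈ stabilizer G E.α from E.dfix) e

theorem d_zpow_fix (e : ℤ) : E.d ^ e • E.α = E.α :=
  zpow_mem (show E.d ∈ stabilizer G E.α from E.dfix) e

theorem t_pow : ∃ e : ℕ, t = E.d ^ e := by
  obtain ⟨e, he⟩ := (mem_powers_iff_mem_zpowers.2 E.t_mem : t ∈ Submonoid.powers E.d)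
  exact ⟨e, he.symm⟩

theorem tfix : t • E.α = E.α := by
  obtain ⟨e, he⟩ := E.t_pow
  exact (congrArg (fun s : G => s • E.α) he).trans (E.d_pow_fix e)

theorem t_comm : Commute t E.d := by
  obtain ⟨e, he⟩ := E.t_pow
  simpa only [← he] using Commute.pow_self E.d e

theorem t_sq : t * t = 1 := by rw [← pow_two, ← E.ord_t, pow_orderOf_eq_one]

theorem tS : t ∈ (E.S : Subgroup G) := by
  obtain ⟨e, he⟩ := E.t_pow
  simpa only [← he] using pow_mem E.dS e

theorem inv_unique {z : G} (hz : orderOf z = 2) (h : z ∈ Subgroup.zpowers E.d) : z = t :=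
  congrArg Subtype.val (involution_unique_of_isCyclic (G := ↥(Subgroup.zpowers E.d))
    ⟨z, h⟩ ⟨t, E.t_mem⟩ ((Subgroup.orderOf_coe _).symm.trans hz)
    ((Subgroup.orderOf_coe _).symm.trans E.ord_t))

theorem semiz {i : ℤ} {x : Ω} (h : E.a ^ i • x = x) : E.a ^ i = 1 := by
  obtain ⟨k, hk⟩ := (mem_powers_iff_mem_zpowers.2 ⟨i, rfl⟩ :
    E.a ^ i ∈ Submonoid.powers E.a)
  dsimp only at hk
  rw [← hk] at h ⊢
  exact E.semi k x h

theorem pow_eq_one_of_fix {i e : ℕ} (h : (E.a ^ i * E.d ^ e) • E.α = E.α) : E.a ^ i = 1 := by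
  rw [mul_smul, E.d_pow_fix] at h
  exact E.semi i _ h

theorem cent_decomp {i e : ℕ}
    (h : E.a ^ i * E.d ^ e ∈ Subgroup.centralizer ({t} : Set G)) :
    E.a ^ i ∈ Subgroup.centralizer ({t} : Set G) := by
  have hd : E.d ^ e ∈ Subgroup.centralizer ({t} : Set G) :=
    Subgroup.mem_centralizer_singleton_iff.2 (E.t_comm.symm.pow_left e).eq
  simpa using mul_mem h (inv_mem hd)

theorem card_fix_centralizer (c : Ctx G Ω) :
    (Nat.card ↥(Subgroup.centralizer ({t} : Set G))).factorization 2 =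
      (Nat.card ↥(fixSet G Ω t)).factorization 2 +
        (Nat.card ↥(stabilizer G E.α)).factorization 2 := by
  set C := Subgroup.centralizer ({t} : Set G) with hC
  set x₀ : ↥(fixSet G Ω t) := ⟨E.α, E.tfix⟩
  haveI : IsPretransitive ↥C ↥(fixSet G Ω t) := ⟨fun x y => by
    by_cases hxy : x = y
    · exact ⟨1, by rw [one_smul, hxy]⟩
    · obtain ⟨g, hg, h1, -⟩ := c.pair_fix E.ord_t (mem_fixSet.1 x.2) (mem_fixSet.1 y.2)
        (mem_fixSet.1 y.2) (mem_fixSet.1 x.2) (fun e => hxy (Subtype.ext e))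
        (fun e => hxy (Subtype.ext e.symm))
      exact ⟨⟨g, hg⟩, Subtype.ext h1⟩⟩
  have h1 : Nat.card ↥(fixSet G Ω t) * Nat.card ↥(stabilizer ↥C x₀) = Nat.card ↥C := by
    rw [← MulAction.index_stabilizer_of_transitive (G := ↥C) x₀, Subgroup.index_mul_card]
  haveI : Nonempty ↥(fixSet G Ω t) := ⟨x₀⟩
  have h2 : (stabilizer ↥C x₀).map C.subtype ≤ stabilizer G E.α := by
    rintro _ ⟨z, hz, rfl⟩
    exact congrArg Subtype.val hz
  have h3 : Subgroup.zpowers E.d ≤ (stabilizer ↥C x₀).map C.subtype := by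
    rw [Subgroup.zpowers_le]
    exact ⟨⟨E.d, Subgroup.mem_centralizer_singleton_iff.2 E.t_comm.symm.eq⟩,
      Subtype.ext E.dfix, rfl⟩
  have h4 := Subgroup.card_map_of_injective (K := stabilizer ↥C x₀) C.subtype_injective
  have h5 := Subgroup.card_dvd_of_le h2
  have h6 := Subgroup.card_dvd_of_le h3
  rw [h4] at h5 h6
  rw [Nat.card_zpowers, E.ord_d, Nat.prime_two.pow_dvd_iff_le_factorization Nat.card_pos.ne'] at h6
  have h7 := (Nat.factorization_le_iff_dvd Nat.card_pos.ne' Nat.card_pos.ne').2 h5 2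
  rw [← h1, Nat.factorization_mul Nat.card_pos.ne' Nat.card_pos.ne', Finsupp.add_apply]
  omega

/-- The semiregular part of the centraliser. -/
theorem exists_a1 (c : Ctx G Ω) : ∃ i₀ : ℕ,
    orderOf (E.a ^ i₀) = 2 ^ (Nat.card ↥(fixSet G Ω t)).factorization 2 ∧
    E.a ^ i₀ ∈ Subgroup.centralizer ({t} : Set G) ∧
    ∀ s ∈ (E.S : Subgroup G), s ∈ Subgroup.centralizer ({t} : Set G) →
      ∃ i e : ℕ, s = (E.a ^ i₀) ^ i * E.d ^ e := by
  classical
  set C := Subgroup.centralizer ({t} : Set G) with hC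
  obtain ⟨g, hg⟩ := (Subgroup.isCyclic_of_le (inf_le_left : Subgroup.zpowers E.a ⊓ C ≤ _)).exists_generator
  obtain ⟨i₀, hi₀⟩ := (mem_powers_iff_mem_zpowers.2 g.2.1 : (g : G) ∈ Submonoid.powers E.a)
  dsimp only at hi₀
  set a1 := E.a ^ i₀ with ha1
  have ha1C : a1 ∈ C := hi₀ ▸ g.2.2
  have hdec : ∀ s ∈ (E.S : Subgroup G), s ∈ C → ∃ i e : ℕ, s = a1 ^ i * E.d ^ e := by
    intro s hs hsC
    obtain ⟨i, e, rfl⟩ := E.decomp s hs
    obtain ⟨j, hj⟩ := (mem_powers_iff_mem_zpowers.2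
      (hg ⟨E.a ^ i, pow_mem (Subgroup.mem_zpowers _) i, E.cent_decomp hsC⟩) :
        (⟨E.a ^ i, _⟩ : ↥(Subgroup.zpowers E.a ⊓ C)) ∈ Submonoid.powers g)
    refine ⟨j, e, ?_⟩
    rw [hi₀]
    have := congrArg Subtype.val hj
    simp only [SubmonoidClass.coe_pow] at this
    rw [this]
  refine ⟨i₀, ?_, ha1C, hdec⟩
  have hdC : E.d ∈ C := Subgroup.mem_centralizer_singleton_iff.2 E.t_comm.symm.eq
  have ha1S : a1 ∈ (E.S : Subgroup G) := pow_mem E.aS _
  let f : Fin (orderOf a1) × Fin (orderOf E.d) → ↥((E.S : Subgroup G) ⊓ C) := fun p =>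
    ⟨a1 ^ (p.1 : ℕ) * E.d ^ (p.2 : ℕ), mul_mem (pow_mem ha1S _) (pow_mem E.dS _),
      mul_mem (pow_mem ha1C _) (pow_mem hdC _)⟩
  have hbij : Function.Bijective f := by
    constructor
    · rintro ⟨i, e⟩ ⟨j, l⟩ h
      have h' : a1 ^ (i : ℕ) * E.d ^ (e : ℕ) = a1 ^ (j : ℕ) * E.d ^ (l : ℕ) := congrArg Subtype.val h
      have h2 := congrArg (fun z : G => z • E.α) h'
      simp only [mul_smul, E.d_pow_fix] at h2
      have h3 : a1 ^ (i : ℕ) = a1 ^ (j : ℕ) := by
        have h4 : E.a ^ ((i₀ * i : ℕ) - (i₀ * j : ℕ) : ℤ) • E.α = E.α := by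
          rw [sub_eq_neg_add, zpow_add, zpow_neg, zpow_natCast, zpow_natCast, mul_smul,
            inv_smul_eq_iff, pow_mul, pow_mul]
          exact h2
        have h5 := E.semiz h4
        rw [zpow_sub, zpow_natCast, zpow_natCast, mul_inv_eq_one, pow_mul, pow_mul] at h5
        exact h5
      rw [h3, mul_left_cancel_iff] at h'
      exact Prod.ext (Fin.ext (pow_injOn_Iio_orderOf i.2 j.2 h3))
        (Fin.ext (pow_injOn_Iio_orderOf e.2 l.2 h'))
    · rintro ⟨s, hs, hsC⟩
      obtain ⟨i, e, rfl⟩ := hdec s hs hsC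
      exact ⟨(⟨i % orderOf a1, Nat.mod_lt _ (orderOf_pos a1)⟩,
        ⟨e % orderOf E.d, Nat.mod_lt _ (orderOf_pos E.d)⟩),
        Subtype.ext (by simp [f, pow_mod_orderOf])⟩
  have hcard := Nat.card_eq_of_bijective f hbij
  rw [Nat.card_prod, Nat.card_fin, Nat.card_fin, E.cent, E.card_fix_centralizer c, E.ord_d,
    pow_add] at hcard
  exact Nat.eq_of_mul_eq_mul_right (by positivity) hcard

theorem ctx_fix (c : Ctx G Ω) : Ctx ↥(fixGroup G Ω t) ↥(fixSet G Ω t) := by
  obtain ⟨hev, h2⟩ := c.two_le_fix E.ord_t E.tfix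
  refine ⟨⟨fun {g g'} h => Subtype.ext (Equiv.ext h)⟩, fun x y z w hxy hzw => ?_, hev, h2,
    fun x => ?_, ?_⟩
  · obtain ⟨g, hg, h1, h3⟩ := c.pair_fix E.ord_t (mem_fixSet.1 x.2) (mem_fixSet.1 y.2)
      (mem_fixSet.1 z.2) (mem_fixSet.1 w.2) (fun e => hxy (Subtype.ext e))
      (fun e => hzw (Subtype.ext e))
    exact ⟨⟨_, ⟨⟨g, hg⟩, rfl⟩⟩, Subtype.ext h1, Subtype.ext h3⟩
  · haveI := c.zgrp (x : Ω)
    let C := Subgroup.centralizer ({t} : Set G)
    haveI : IsZGroup ↥(stabilizer ↥C x) := IsZGroup.of_injective (G' := ↥(stabilizer G (x : Ω)))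
      (f := (C.subtype.comp (stabilizer ↥C x).subtype).codRestrict _ fun z =>
        (congrArg Subtype.val z.2 : ((z : ↥C) : G) • (x : Ω) = x))
      (fun a b h => Subtype.ext (Subtype.ext
        (congrArg (fun z : ↥(stabilizer G (x : Ω)) => (z : G)) h)))
    refine IsZGroup.of_surjective (G := ↥(stabilizer ↥C x))
      (f := ((fixHom G Ω t).rangeRestrict.comp (stabilizer ↥C x).subtype).codRestrict _
        fun z => z.2) ?_
    rintro ⟨⟨_, g, rfl⟩, hx⟩
    exact ⟨⟨g, hx⟩, rfl⟩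
  · obtain ⟨i₀, hord, hC, -⟩ := E.exists_a1 c
    obtain ⟨a1, ha1⟩ : ∃ a1, a1 = E.a ^ i₀ := ⟨_, rfl⟩
    simp only [← ha1] at hord hC
    refine ⟨(fixHom G Ω t).rangeRestrict ⟨a1, hC⟩, ?_, fun i x hx => ?_⟩
    · rw [← hord]
      apply Nat.dvd_antisymm
      · exact (orderOf_map_dvd _ _).trans (by rw [← Subgroup.orderOf_coe])
      · apply orderOf_dvd_of_pow_eq_one
        have h0 := pow_orderOf_eq_one ((fixHom G Ω t).rangeRestrict ⟨a1, hC⟩)
        rw [← map_pow] at h0
        have h := congrArg Subtype.val (DFunLike.congr_fun (congrArg Subtype.val h0) ⟨E.α, E.tfix⟩)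
        have e1 : a1 ^ orderOf ((fixHom G Ω t).rangeRestrict ⟨a1, hC⟩) • E.α = E.α := by
          simpa using h
        generalize orderOf ((fixHom G Ω t).rangeRestrict ⟨a1, hC⟩) = n at e1 ⊢
        rw [ha1, ← pow_mul] at e1 ⊢
        exact E.semi _ _ e1
    · have h : a1 ^ i = 1 := by
        rw [← map_pow] at hx
        have e1 : a1 ^ i • (x : Ω) = (x : Ω) := congrArg Subtype.val hx
        rw [ha1, ← pow_mul] at e1 ⊢
        exact E.semi _ _ e1
      rw [← map_pow, show (⟨a1, hC⟩ : ↥(Subgroup.centralizer ({t} : Set G))) ^ i = 1 from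
        Subtype.ext h, map_one]

theorem fix_two_of_complement (c : Ctx G Ω) {M : Subgroup ↥(Subgroup.centralizer ({t} : Set G))}
    (hM : M.Normal) (ho : Odd (Nat.card M)) {k : ℕ} (hk : M.index = 2 ^ k) :
    Nat.card ↥(fixSet G Ω t) = 2 := by
  set f := (fixHom G Ω t).rangeRestrict
  have hsurj : Function.Surjective f := (fixHom G Ω t).rangeRestrict_surjective
  have h1 := M.index_map_dvd hsurj
  rw [hk] at h1
  obtain ⟨l, -, hl⟩ := (Nat.dvd_prime_pow Nat.prime_two).1 h1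
  exact card_eq_two (E.ctx_fix c) (hM.map f hsurj) (ho.of_dvd_nat (M.card_map_dvd f)) hl

theorem fix_two_of_ord_two (c : Ctx G Ω) (hd : orderOf E.d = 2) :
    Nat.card ↥(fixSet G Ω t) = 2 := by
  haveI : Fact (Nat.Prime 2) := ⟨Nat.prime_two⟩
  have hdt : E.d = t := E.inv_unique hd (Subgroup.mem_zpowers _)
  obtain ⟨i₀, hord, hC, hdec⟩ := E.exists_a1 c
  obtain ⟨a1, ha1⟩ : ∃ a1, a1 = E.a ^ i₀ := ⟨_, rfl⟩
  simp only [← ha1] at hord hC hdec
  set F := (Nat.card ↥(fixSet G Ω t)).factorization 2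
  have hF : 1 ≤ F := by
    obtain ⟨hev, h2⟩ := c.two_le_fix E.ord_t E.tfix
    exact Nat.prime_two.factorization_pos_of_dvd (by omega) (even_iff_two_dvd.1 hev)
  set C := Subgroup.centralizer ({t} : Set G) with hCdef
  let P : Sylow 2 ↥C := Sylow.ofCard ((E.S : Subgroup G).subgroupOf C) (by
    rw [← Subgroup.inf_subgroupOf_right, Nat.card_congr
      (Subgroup.subgroupOfEquivOfLe (inf_le_right : (E.S : Subgroup G) ⊓ C ≤ C)).toEquiv, E.cent])
  have hP : ∀ z : ↥C, z ∈ (P : Subgroup ↥C) ↔ (z : G) ∈ (E.S : Subgroup G) := fun z => Iff.rfl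
  have hel : ∀ z : ↥C, z ∈ (P : Subgroup ↥C) → ∃ i e : ℕ, (z : G) = a1 ^ i * t ^ e := fun z hz => by
    rw [← hdt]
    exact hdec _ ((hP z).1 hz) z.2
  have hct : Commute a1 t := Subgroup.mem_centralizer_singleton_iff.1 hC
  have hcl : ∀ w : G, Commute w a1 → Commute w t → ∀ z : ↥C, z ∈ (P : Subgroup ↥C) →
      Commute w (z : G) := by
    intro w h1 h2 z hz
    obtain ⟨i, e, he⟩ := hel z hz
    rw [he]
    exact (h1.pow_right i).mul_right (h2.pow_right e)
  have hab : ∀ z ∈ (P : Subgroup ↥C), ∀ w ∈ (P : Subgroup ↥C), z * w = w * z := by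
    intro z hz w hw
    have h1 := hcl a1 (Commute.refl _) hct z hz
    have h2 := hcl t hct.symm (Commute.refl _) z hz
    exact Subtype.ext (hcl (z : G) h1.symm h2.symm w hw).eq
  -- the cyclic subgroups of order `2 ^ F` not containing `t`
  have hshape : ∀ z : ↥C, z ∈ (P : Subgroup ↥C) → orderOf (z : G) = 2 ^ F →
      t ∉ Subgroup.zpowers (z : G) →
      Subgroup.zpowers (z : G) = Subgroup.zpowers a1 ∨
        Subgroup.zpowers (z : G) = Subgroup.zpowers (a1 * t) := by
    intro z hz hzo hzt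
    obtain ⟨i, e, he⟩ := hel z hz
    obtain ⟨F', hF'⟩ := Nat.exists_eq_add_of_le hF
    rcases Nat.even_or_odd i with ⟨r, hr⟩ | hi
    · exfalso
      have ha : a1 ^ (i * 2 ^ F') = 1 := by
        rw [← orderOf_dvd_iff_pow_eq_one, hord]
        exact ⟨r, by rw [hF', hr, pow_add]; ring⟩
      have h1 : (z : G) ^ 2 ^ F' = t ^ (e * 2 ^ F') := by
        rw [he, (hct.pow_pow i e).mul_pow, ← pow_mul, ← pow_mul, ha, one_mul]
      rw [← pow_mod_orderOf t, E.ord_t] at h1
      rcases Nat.mod_two_eq_zero_or_one (e * 2 ^ F') with h2 | h2 <;> rw [h2] at h1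
      · rw [pow_zero] at h1
        have h3 := orderOf_dvd_of_pow_eq_one h1
        rw [hzo, Nat.pow_dvd_pow_iff_le_right (by norm_num : 1 < 2)] at h3
        omega
      · rw [pow_one] at h1
        exact hzt (h1 ▸ Subgroup.npow_mem_zpowers (z : G) _)
    · have hsub : ∀ w : G, (z : G) = w ^ i → orderOf w ≤ 2 ^ F →
          Subgroup.zpowers (z : G) = Subgroup.zpowers w := by
        intro w hw hwo
        refine Subgroup.eq_of_le_of_card_ge ?_ ?_
        · rw [Subgroup.zpowers_le, hw]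
          exact Subgroup.npow_mem_zpowers w i
        · rw [Nat.card_zpowers, Nat.card_zpowers, hzo]
          exact hwo
      rcases Nat.mod_two_eq_zero_or_one e with h2 | h2
      · left
        refine hsub a1 ?_ hord.le
        rw [he, ← pow_mod_orderOf t e, E.ord_t, h2, pow_zero, mul_one]
      · right
        refine hsub (a1 * t) ?_ (Nat.le_of_dvd (by positivity) (orderOf_dvd_of_pow_eq_one ?_))
        · rw [he, hct.mul_pow, ← pow_mod_orderOf t e, ← pow_mod_orderOf t i, E.ord_t, h2,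
            Nat.odd_iff.1 hi]
        · rw [hct.mul_pow, ← hord, pow_orderOf_eq_one, one_mul, hord, hF', pow_add, pow_one,
            pow_mul, pow_two, E.t_sq, one_pow]
  have ht1 : t ∉ Subgroup.zpowers a1 := fun h => by
    obtain ⟨i, hi⟩ := (mem_powers_iff_mem_zpowers.2 h : t ∈ Submonoid.powers a1)
    dsimp only at hi
    have h1 : a1 ^ i = 1 := by
      rw [ha1, ← pow_mul]
      exact E.semi _ E.α (by rw [pow_mul, ← ha1, hi, E.tfix])
    have := E.ord_t
    rw [← hi, h1, orderOf_one] at this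
    omega
  have hat : orderOf (a1 * t) = 2 ^ F ∧ t ∉ Subgroup.zpowers (a1 * t) := by
    have key : ∀ i : ℕ, (a1 * t) ^ i = 1 ∨ (a1 * t) ^ i = t → a1 ^ i = 1 := by
      intro i h
      rw [hct.mul_pow] at h
      have htp : ∀ l : ℕ, t ^ l • E.α = E.α := fun l =>
        pow_mem (show t ∈ stabilizer G E.α from E.tfix) l
      have h2 : a1 ^ i • E.α = E.α := by
        rcases h with h | h
        · have := congrArg (fun g : G => g • E.α) h
          simpa [mul_smul, htp] using this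
        · have := congrArg (fun g : G => g • E.α) h
          simpa [mul_smul, htp, E.tfix] using this
      rw [ha1, ← pow_mul] at h2 ⊢
      exact E.semi _ _ h2
    have h0 : 2 ^ F ∣ orderOf (a1 * t) := by
      rw [← hord]
      exact orderOf_dvd_of_pow_eq_one (key _ (Or.inl (pow_orderOf_eq_one _)))
    have h1 : (a1 * t) ^ 2 ^ F = 1 := by
      obtain ⟨F', hF'⟩ := Nat.exists_eq_add_of_le hF
      rw [hct.mul_pow, ← hord, pow_orderOf_eq_one, one_mul, hord, hF', pow_add, pow_one,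
            pow_mul, pow_two, E.t_sq, one_pow]
    refine ⟨Nat.dvd_antisymm (orderOf_dvd_of_pow_eq_one h1) h0, fun h => ?_⟩
    obtain ⟨i, hi⟩ := (mem_powers_iff_mem_zpowers.2 h : t ∈ Submonoid.powers (a1 * t))
    dsimp only at hi
    have h2 := key i (Or.inr hi)
    rw [← orderOf_dvd_iff_pow_eq_one, hord] at h2
    obtain ⟨r, hr⟩ := h2
    rw [hr, pow_mul, h1, one_pow] at hi
    have := E.ord_t
    rw [← hi, orderOf_one] at this
    omega
  obtain ⟨M, hM, ho, k, hk⟩ := exists_complement P fun y hy => by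
    have hgen : ∀ y : ↥C, Odd (orderOf y) → y ∈ Subgroup.normalizer ((P : Subgroup ↥C) : Set ↥C) →
        Commute (y : G) a1 := by
      intro y hyo hyN
      have hconj : ∀ z : ↥C, z ∈ (P : Subgroup ↥C) → orderOf (z : G) = 2 ^ F →
          t ∉ Subgroup.zpowers (z : G) →
          orderOf ((y * z * y⁻¹ : ↥C) : G) = 2 ^ F ∧
            t ∉ Subgroup.zpowers ((y * z * y⁻¹ : ↥C) : G) := by
        intro z _ hzo hzt
        refine ⟨(orderOf_injective (MulAut.conj (y : G)).toMonoidHom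
          (MulAut.conj (y : G)).injective _).trans hzo, fun h => hzt ?_⟩
        obtain ⟨i, hi⟩ := Subgroup.mem_zpowers_iff.1 h
        refine Subgroup.mem_zpowers_iff.2 ⟨i, ?_⟩
        have hy : (y : G)⁻¹ * t * (y : G) = t := by
          rw [mul_assoc, ← Subgroup.mem_centralizer_singleton_iff.1 y.2, inv_mul_cancel_left]
        simp only [Subgroup.coe_mul, InvMemClass.coe_inv, conj_zpow] at hi
        rw [← hy, ← hi]
        group
      have hstep : ∀ z : ↥C, z ∈ (P : Subgroup ↥C) → orderOf (z : G) = 2 ^ F →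
          t ∉ Subgroup.zpowers (z : G) →
          Subgroup.zpowers ((y * z * y⁻¹ : ↥C) : G) = Subgroup.zpowers a1 ∨
            Subgroup.zpowers ((y * z * y⁻¹ : ↥C) : G) = Subgroup.zpowers (a1 * t) := fun z hz h1 h2 =>
        hshape _ ((Subgroup.mem_normalizer_iff.1 hyN z).1 hz) (hconj z hz h1 h2).1 (hconj z hz h1 h2).2
      have hA : (⟨a1, hC⟩ : ↥C) ∈ (P : Subgroup ↥C) := (hP _).2 (show a1 ∈ (E.S : Subgroup G) by rw [ha1]; exact pow_mem E.aS _)
      have hB : (⟨a1 * t, mul_mem hC (Subgroup.mem_centralizer_singleton_iff.2 rfl)⟩ : ↥C) ∈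
          (P : Subgroup ↥C) := (hP _).2 (mul_mem (show a1 ∈ (E.S : Subgroup G) by rw [ha1]; exact pow_mem E.aS _) E.tS)
      have hmap : ∀ z : ↥C, Subgroup.zpowers ((y * z * y⁻¹ : ↥C) : G) =
          (Subgroup.zpowers (z : G)).map (MulAut.conj (y : G)).toMonoidHom := fun z => by
        rw [MonoidHom.map_zpowers]; rfl
      have s1 := hstep _ hA hord ht1
      have s2 := hstep _ hB hat.1 hat.2
      rw [hmap] at s1 s2
      have hinj := Subgroup.map_injective (f := (MulAut.conj (y : G)).toMonoidHom)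
        (MulAut.conj (y : G)).injective
      have h2 : Subgroup.zpowers ((y : G) ^ 2 * a1 * ((y : G) ^ 2)⁻¹) = Subgroup.zpowers a1 := by
        have e : Subgroup.zpowers ((y : G) ^ 2 * a1 * ((y : G) ^ 2)⁻¹) =
            ((Subgroup.zpowers a1).map (MulAut.conj (y : G)).toMonoidHom).map
              (MulAut.conj (y : G)).toMonoidHom := by
          rw [MonoidHom.map_zpowers, MonoidHom.map_zpowers]
          congr 1
          change _ = (y : G) * ((y : G) * a1 * (y : G)⁻¹) * (y : G)⁻¹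
          rw [pow_two, mul_inv_rev]
          simp only [mul_assoc]
        rw [e]
        rcases s1 with s1 | s1
        · simp only at s1
          rw [s1, s1]
        · simp only at s1 s2
          rw [s1]
          rcases s2 with s2 | s2
          · exact s2
          · have := hinj (s1.trans s2.symm)
            rw [← this, s1, this]
      have ho2 : Odd (orderOf ((y : G) ^ 2)) := by
        rw [← Subgroup.orderOf_coe] at hyo
        exact hyo.of_dvd_nat (orderOf_pow_dvd _)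
      have h3 := commute_of_odd_normalizes hord ho2 (h2 ▸ Subgroup.mem_zpowers _)
      rw [mul_inv_eq_iff_eq_mul] at h3
      have h4 : Commute ((y : G) ^ 2) a1 := h3
      obtain ⟨r, hr⟩ := hyo
      have e : (y : G) = ((y : G) ^ 2) ^ (r + 1) := by
        rw [← pow_mul, show 2 * (r + 1) = orderOf (y : G) + 1 by rw [Subgroup.orderOf_coe, hr]; ring,
          pow_succ, pow_orderOf_eq_one, one_mul]
      rw [e]
      exact h4.pow_left _
    rw [Subgroup.mem_centralizer_iff]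
    intro z hz
    obtain ⟨k, m, hm, hkm⟩ := Nat.exists_eq_two_pow_mul_odd (orderOf_pos y).ne'
    have hodd : Odd (orderOf (y ^ 2 ^ k)) := by
      refine hm.of_dvd_nat ?_
      rw [orderOf_dvd_iff_pow_eq_one, ← pow_mul, ← hkm, pow_orderOf_eq_one]
    have h1 : Commute (y ^ 2 ^ k) z := by
      have hc := hcl _ (hgen _ hodd (pow_mem hy _))
        (Subgroup.mem_centralizer_singleton_iff.1 (y ^ 2 ^ k).2) z hz
      exact Subtype.ext hc.eq
    have hmem : y ^ m ∈ (P : Subgroup ↥C) := by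
      have hpg : IsPGroup 2 ↥(Subgroup.zpowers (y ^ m)) := by
        have hd : orderOf (y ^ m) ∣ 2 ^ k := by
          rw [orderOf_dvd_iff_pow_eq_one, ← pow_mul, mul_comm, ← hkm, pow_orderOf_eq_one]
        obtain ⟨l, -, hl⟩ := (Nat.dvd_prime_pow Nat.prime_two).1 hd
        exact IsPGroup.of_card (n := l) (by rw [Nat.card_zpowers, hl])
      have hle : Subgroup.zpowers (y ^ m) ≤ Subgroup.normalizer ((P : Subgroup ↥C) : Set ↥C) :=
        Subgroup.zpowers_le.2 (pow_mem hy _)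
      have := P.3 (P.2.to_sup_of_normal_left' hpg hle) le_sup_left
      rw [← this]
      exact Subgroup.mem_sup_right (Subgroup.mem_zpowers _)
    have h2 : Commute (y ^ m) z := hab _ hmem z hz
    obtain ⟨u, v, huv⟩ : ∃ u v : ℤ, y = (y ^ m) ^ u * (y ^ 2 ^ k) ^ v := by
      refine ⟨Nat.gcdA m (2 ^ k), Nat.gcdB m (2 ^ k), ?_⟩
      rw [← zpow_natCast, ← zpow_natCast y (2 ^ k), ← zpow_mul, ← zpow_mul, ← zpow_add]
      have := Nat.gcd_eq_gcd_ab m (2 ^ k)
      rw [Nat.Coprime.pow_right k (Nat.coprime_two_right.2 hm)] at this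
      push_cast at this ⊢
      rw [← this]
      simp
    rw [huv]
    exact (((h2.zpow_left u).mul_left (h1.zpow_left v))).symm.eq
  exact E.fix_two_of_complement c hM ho hk

theorem fix_two_of_four_not_dvd (c : Ctx G Ω) (hn : (Nat.card Ω).factorization 2 = 1)
    (hd : 4 ∣ orderOf E.d) : Nat.card ↥(fixSet G Ω t) = 2 := by
  haveI : Fact (Nat.Prime 2) := ⟨Nat.prime_two⟩
  obtain ⟨hev, h2⟩ := c.two_le_fix E.ord_t E.tfix
  by_cases hn2 : Nat.card Ω ≤ 2
  · have := card_fix_add_moved (Ω := Ω) t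
    omega
  push Not at hn2
  haveI : Nonempty Ω := ⟨E.α⟩
  have hne : ∀ x : Ω, E.a • x ≠ x := fun x hx => by
    have h1 := E.semi 1 x (by rwa [pow_one])
    have h3 := E.ord_a
    rw [pow_one] at h1
    rw [h1, orderOf_one, hn] at h3
    norm_num at h3
  have hja : E.a * E.a = 1 := by
    have h3 := pow_orderOf_eq_one E.a
    rwa [E.ord_a, hn, pow_one, pow_two] at h3
  have hinv : E.a⁻¹ = E.a := inv_eq_of_mul_eq_one_left hja
  -- every element of `S` is `d ^ e` or `a * d ^ e`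
  have hcases : ∀ s ∈ (E.S : Subgroup G), (∃ e : ℕ, s = E.d ^ e) ∨ ∃ e : ℕ, s = E.a * E.d ^ e := by
    intro s hs
    obtain ⟨i, e, rfl⟩ := E.decomp s hs
    rcases Nat.mod_two_eq_zero_or_one i with h | h
    · refine Or.inl ⟨e, ?_⟩
      rw [← pow_mod_orderOf E.a i, E.ord_a, hn, pow_one, h, pow_zero, one_mul]
    · refine Or.inr ⟨e, ?_⟩
      rw [← pow_mod_orderOf E.a i, E.ord_a, hn, pow_one, h, pow_one]
  obtain ⟨σ, hσ⟩ : ∃ σ : ℕ, E.a * E.d * E.a⁻¹ = E.d ^ σ := by
    rcases hcases _ (mul_mem (mul_mem E.aS E.dS) (inv_mem E.aS)) with h | ⟨e, he⟩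
    · exact h
    exfalso
    rw [mul_assoc, mul_left_cancel_iff, hinv] at he
    apply hne E.α
    calc E.a • E.α = (E.d⁻¹ * E.d ^ e) • E.α := by rw [← he, inv_mul_cancel_left]
      _ = E.α := by rw [mul_smul, E.d_pow_fix, inv_smul_eq_iff, E.dfix]
  have hσe : ∀ e : ℕ, E.a * E.d ^ e * E.a = E.d ^ (σ * e) := fun e => by
    rw [pow_mul, ← hσ, conj_pow, hinv]
  -- signs
  have hsa : sgn G Ω E.a = -1 := by
    have hr : ¬ 2 ∣ Nat.card Ω / 2 := fun h => by
      obtain ⟨q, hq⟩ := c.even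
      obtain ⟨r, hr⟩ := h
      have h4 : 2 ^ 2 ∣ Nat.card Ω := ⟨r, by omega⟩
      rw [Nat.prime_two.pow_dvd_iff_le_factorization (by omega), hn] at h4
      omega
    have h := sgn_of_period (Ω := Ω) (g := E.a) (k := 0) (m := Nat.card Ω / 2)
      (by rw [zero_add, pow_one, pow_two, hja]) (fun x hx => by simpa using hx)
      (by
        rw [Nat.card_congr (Equiv.subtypeUnivEquiv hne)]
        obtain ⟨q, hq⟩ := c.even
        omega)
    rw [h, Odd.neg_one_pow (Nat.odd_iff.2 (by omega))]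
  have hev' : ∀ e : ℕ, Even e → sgn G Ω E.d ^ e = 1 := by
    rintro e ⟨r, rfl⟩
    rw [← two_mul, pow_mul, Int.units_sq, one_pow]
  have hst : sgn G Ω t = 1 := by
    obtain ⟨e, he⟩ := E.t_pow
    have h' : orderOf t = orderOf E.d / Nat.gcd (orderOf E.d) e := by
      rw [← orderOf_pow E.d, ← he]
    rw [E.ord_t] at h'
    rw [congrArg (sgn G Ω) he, map_pow]
    apply hev'
    by_contra ho
    rw [Nat.not_even_iff_odd] at ho
    have hg : Nat.gcd (orderOf E.d) e = 1 := by
      rw [E.ord_d]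
      exact Nat.Coprime.pow_left _ (Nat.coprime_two_left.2 ho)
    rw [hg, Nat.div_one] at h'
    omega
  -- two commuting even involutions in `S`
  obtain ⟨g, hg, hgt⟩ := not_isolated c hn2 E.ord_t
  obtain ⟨w, hw⟩ : ∃ w, w = g * t * g⁻¹ := ⟨_, rfl⟩
  rw [← hw] at hg hgt
  have how : orderOf w = 2 := by
    rw [hw]
    exact (orderOf_injective (MulAut.conj g).toMonoidHom (MulAut.conj g).injective t).trans E.ord_t
  have hsw : sgn G Ω w = 1 := by rw [hw, map_mul, map_mul, map_inv, hst, mul_one, mul_inv_cancel]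
  have hpz : ∀ z : G, orderOf z = 2 → IsPGroup 2 ↥(Subgroup.zpowers z) := fun z hz =>
    IsPGroup.of_card (n := 1) (by rw [Nat.card_zpowers, hz, pow_one])
  have hle : Subgroup.zpowers w ≤
      Subgroup.normalizer ((Subgroup.zpowers t : Subgroup G) : Set G) := by
    rw [Subgroup.zpowers_le]
    exact Subgroup.centralizer_le_normalizer _ (Subgroup.mem_centralizer_iff.2 fun z hz => by
      obtain ⟨k, rfl⟩ := Subgroup.mem_zpowers_iff.1 hz
      exact (hg.zpow_left k).eq)
  obtain ⟨Q, hQ⟩ :=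
    (IsPGroup.to_sup_of_normal_right' (hpz w how) (hpz t E.ord_t) hle).exists_le_sylow
  obtain ⟨h, hh⟩ := MulAction.exists_smul_eq G Q E.S
  have hin : ∀ z ∈ (Q : Subgroup G), h * z * h⁻¹ ∈ (E.S : Subgroup G) := by
    intro z hz
    rw [← hh, Sylow.coe_subgroup_smul]
    exact ⟨z, hz, by simp [MulDistribMulAction.toMonoidEnd_apply]⟩
  obtain ⟨z, hzS, hz2, hzt, hz1⟩ : ∃ z ∈ (E.S : Subgroup G),
      orderOf z = 2 ∧ z ≠ t ∧ sgn G Ω z = 1 := by
    have key : ∀ z ∈ (Q : Subgroup G), orderOf z = 2 → sgn G Ω z = 1 → h * z * h⁻¹ ≠ t →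
        ∃ z ∈ (E.S : Subgroup G), orderOf z = 2 ∧ z ≠ t ∧ sgn G Ω z = 1 := fun z hzQ ho hs hne' =>
      ⟨h * z * h⁻¹, hin z hzQ,
        (orderOf_injective (MulAut.conj h).toMonoidHom (MulAut.conj h).injective z).trans ho, hne',
        by rw [map_mul, map_mul, map_inv, hs, mul_one, mul_inv_cancel]⟩
    by_cases ht' : h * t * h⁻¹ = t
    · refine key w (hQ (Subgroup.mem_sup_left (Subgroup.mem_zpowers w))) how hsw fun e => hgt ?_
      exact mul_left_cancel (mul_right_cancel (e.trans ht'.symm))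
    · exact key t (hQ (Subgroup.mem_sup_right (Subgroup.mem_zpowers t))) E.ord_t hst ht'
  obtain ⟨e, rfl⟩ : ∃ e : ℕ, z = E.a * E.d ^ e := by
    refine (hcases z hzS).resolve_left fun ⟨e, he⟩ => hzt ?_
    exact E.inv_unique hz2 (he ▸ Subgroup.npow_mem_zpowers E.d e)
  rw [map_mul, map_pow, hsa] at hz1
  have heo : Odd e := by
    by_contra ho
    rw [Nat.not_odd_iff_even] at ho
    rw [hev' e ho, mul_one] at hz1
    exact absurd hz1 (by decide)
  have hd1 : E.a * E.d * E.a⁻¹ = E.d⁻¹ := by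
    rw [hσ]
    have h1 : (E.a * E.d ^ e) * (E.a * E.d ^ e) = 1 := by
      rw [← pow_two, ← hz2, pow_orderOf_eq_one]
    rw [← mul_assoc, hσe, ← pow_add, ← orderOf_dvd_iff_pow_eq_one,
      show σ * e + e = (σ + 1) * e by ring] at h1
    have hcop : Nat.Coprime (orderOf E.d) e := by
      rw [E.ord_d]
      exact Nat.Coprime.pow_left _ (Nat.coprime_two_left.2 heo)
    have h3 := orderOf_dvd_iff_pow_eq_one.1 (hcop.dvd_of_dvd_mul_right h1)
    rw [pow_succ] at h3
    exact eq_inv_of_mul_eq_one_left h3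
  -- `S` is dihedral
  set T : Subgroup ↥(E.S : Subgroup G) := Subgroup.zpowers ⟨E.d, E.dS⟩ with hT
  have hTcard : Nat.card T = orderOf E.d := by
    rw [hT, Nat.card_zpowers, ← Subgroup.orderOf_coe]
  have hidx : T.index = 2 := by
    have h1 := Subgroup.card_mul_index T
    rw [hTcard, Sylow.card_eq_multiplicity, card_eq c E.α, Nat.factorization_mul (by omega)
      Nat.card_pos.ne', Finsupp.add_apply, hn, pow_add, ← E.ord_d, pow_one] at h1
    exact Nat.eq_of_mul_eq_mul_left (orderOf_pos E.d) (h1.trans (mul_comm _ _))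
  have hsq : ∀ g ∉ T, g * g = 1 := by
    rintro ⟨g, hgS⟩ hgT
    obtain ⟨e, rfl⟩ := (hcases g hgS).resolve_left fun ⟨e, he⟩ => hgT (by
      rw [hT]
      exact Subgroup.mem_zpowers_iff.2 ⟨(e : ℤ), Subtype.ext (by simp [he])⟩)
    apply Subtype.ext
    change E.a * E.d ^ e * (E.a * E.d ^ e) = 1
    calc E.a * E.d ^ e * (E.a * E.d ^ e) = E.a * E.d ^ e * E.a⁻¹ * E.d ^ e := by
          rw [hinv, mul_assoc (E.a * E.d ^ e)]
      _ = 1 := by rw [← conj_pow, hd1, inv_pow, inv_mul_cancel]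
  haveI : IsCyclic T := by rw [hT]; infer_instance
  obtain ⟨M, hM, ho, k, hk⟩ := Cfsg.Agent.S0514.result E.S (Nat.card T)
    (by rw [hTcard]; exact le_trans (by norm_num) (Nat.le_of_dvd (orderOf_pos _) hd))
    (Dickson.nonempty_mulEquiv_dihedral_of_index_two T hidx hsq) t E.ord_t
  exact E.fix_two_of_complement c hM ho hk

end Setup

end CfsgLib.CycZ75
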