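import Mathlib
import Cfsg.Agent.CycZGroup75.Cases

/-!
The degree and the order of a point stabiliser are never both divisible by four; consequently an
involution with a fixed point fixes exactly two points.
-/

set_option autoImplicit false
set_option linter.style.haveILetI false
set_option linter.unusedSectionVars false

namespace CfsgLib.CycZ75

open MulAction

universe u

/-- Two involutions among the powers of one element are equal. -/
theorem eq_of_mem_zpowers {G : Type*} [Group G] [Finite G] {a z w : G}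
    (hz : z ∈ Subgroup.zpowers a) (hw : w ∈ Subgroup.zpowers a) (hz2 : orderOf z = 2)
    (hw2 : orderOf w = 2) : z = w :=
  congrArg Subtype.val (involution_unique_of_isCyclic (G := ↥(Subgroup.zpowers a)) ⟨z, hz⟩ ⟨w, hw⟩
    ((Subgroup.orderOf_coe _).symm.trans hz2) ((Subgroup.orderOf_coe _).symm.trans hw2))

/-- An element of order two is its own inverse. -/
theorem inv_eq_self_of_orderOf {G : Type*} [Group G] {z : G} (h : orderOf z = 2) : z⁻¹ = z :=
  inv_eq_of_mul_eq_one_left (by rw [← pow_two, ← h, pow_orderOf_eq_one])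

/-- An element of order two squares to one. -/
theorem mul_self_of_orderOf {G : Type*} [Group G] {z : G} (h : orderOf z = 2) : z * z = 1 := by
  rw [← pow_two, ← h, pow_orderOf_eq_one]

/-- The inner step: in a group with dihedral-or-abelian shaped Sylow 2-subgroup of order `2 ^ (v+3)`
all fixed-point-free involutions are conjugate and `d` inverts `a`. -/
theorem inner_step {X Y : Type*} [Group X] [MulAction X Y] [Finite X] [Finite Y] (c : Ctx X Y)
    (P : Sylow 2 X) {a d : X} {v : ℕ} (hv : (Nat.card Y).factorization 2 = v + 2)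
    (haP : a ∈ (P : Subgroup X)) (hdP : d ∈ (P : Subgroup X)) (horda : orderOf a = 2 ^ (v + 2))
    (semi : ∀ (i : ℕ) (y : Y), a ^ i • y = y → a ^ i = 1) (hd : orderOf d = 2) {y : Y}
    (hdy : d • y = y) (hfix : Nat.card (fixSet X Y d) = 2)
    (hdec : ∀ s ∈ (P : Subgroup X), ∃ i e : ℕ, s = a ^ i * d ^ e) :
    d * a * d⁻¹ = a⁻¹ ∧
      ∀ z : X, orderOf z = 2 → (∀ y : Y, z • y ≠ y) → ∃ g : X, g * a ^ 2 ^ (v + 1) * g⁻¹ = z := by
  haveI : Fact (Nat.Prime 2) := ⟨Nat.prime_two⟩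
  have hY : Nat.card Y ≠ 0 := by have := c.two_le; omega
  have h4 : 4 ∣ Nat.card Y := by
    have h := Nat.ordProj_dvd (Nat.card Y) 2
    rw [hv] at h
    exact (Dvd.intro_left (2 ^ v) (by rw [pow_add]; norm_num)).trans h
  have hdinv : d⁻¹ = d := inv_eq_self_of_orderOf hd
  -- the involution `j` of `⟨a⟩`
  obtain ⟨j, hj⟩ : ∃ j, j = a ^ 2 ^ (v + 1) := ⟨_, rfl⟩
  have hjo : orderOf j = 2 := by
    have hdd : 2 ^ (v + 1) ∣ orderOf a := horda ▸ pow_dvd_pow 2 (by omega)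
    rw [hj, orderOf_pow_of_dvd (by positivity) hdd, horda,
      show (2 : ℕ) ^ (v + 2) = 2 ^ (v + 1) * 2 from pow_succ 2 (v + 1),
      Nat.mul_div_cancel_left _ (by positivity)]
  have hja : j ∈ Subgroup.zpowers a := hj ▸ Subgroup.npow_mem_zpowers a _
  have hjy : ∀ y : Y, j • y ≠ y := fun y hy => by
    have h1 := semi _ y (hj ▸ hy)
    rw [← hj] at h1
    rw [h1, orderOf_one] at hjo
    omega
  -- signs
  have hsa : sgn X Y a = -1 := by
    have h := sgn_of_period (Ω := Y) (g := a) (k := v + 1) (m := Nat.card Y / 2 ^ (v + 2))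
      (by rw [← horda, pow_orderOf_eq_one]) (fun x hx => absurd (hj ▸ hx) (hjy x))
      (by
        rw [Nat.card_congr (Equiv.subtypeUnivEquiv fun x hx => by
          have h1 := semi 1 x (by rwa [pow_one])
          rw [pow_one] at h1
          rw [h1, orderOf_one] at horda
          have : 1 < 2 ^ (v + 2) := Nat.one_lt_pow (by omega) (by norm_num)
          omega)]
        exact (Nat.div_mul_cancel (hv ▸ Nat.ordProj_dvd _ _)).symm)
    rw [h, Odd.neg_one_pow]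
    rw [Nat.odd_iff]
    have := hv ▸ Nat.not_dvd_ordCompl Nat.prime_two hY
    omega
  have hsd : sgn X Y d = -1 := by
    obtain ⟨q, hq⟩ := h4
    have hm := card_fix_add_moved (Ω := Y) d
    rw [hfix] at hm
    have h := sgn_of_period (Ω := Y) (g := d) (k := 0) (m := 2 * q - 1)
      (by rw [zero_add, pow_one, ← hd, pow_orderOf_eq_one]) (fun x hx => by simpa using hx)
      (by omega)
    rw [h, Odd.neg_one_pow]
    rw [Nat.odd_iff]
    omega
  have hsev : ∀ i : ℕ, Even i → sgn X Y a ^ i = 1 := by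
    rintro i ⟨r, rfl⟩
    rw [← two_mul, pow_mul, Int.units_sq, one_pow]
  have hnorm : ∀ s ∈ (P : Subgroup X), (∃ i : ℕ, s = a ^ i) ∨ ∃ i : ℕ, s = a ^ i * d := by
    intro s hs
    obtain ⟨i, e, rfl⟩ := hdec s hs
    rcases Nat.mod_two_eq_zero_or_one e with h | h
    · exact Or.inl ⟨i, by rw [← pow_mod_orderOf d e, hd, h, pow_zero, mul_one]⟩
    · exact Or.inr ⟨i, by rw [← pow_mod_orderOf d e, hd, h, pow_one]⟩
  have heven : ∀ z ∈ (P : Subgroup X), orderOf z = 2 → sgn X Y z = 1 → z ≠ j →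
      ∃ i : ℕ, Odd i ∧ z = a ^ i * d := by
    intro z hz hzo hs hne
    rcases hnorm z hz with ⟨i, rfl⟩ | ⟨i, rfl⟩
    · exact absurd (eq_of_mem_zpowers (Subgroup.npow_mem_zpowers a i) hja hzo hjo) hne
    · refine ⟨i, ?_, rfl⟩
      by_contra ho
      rw [Nat.not_odd_iff_even] at ho
      rw [map_mul, map_pow, hsev i ho, one_mul, hsd] at hs
      exact absurd hs (by decide)
  -- a conjugate of `j` of the shape `a ^ i * d`
  obtain ⟨g, hg, hgj⟩ := not_isolated c (by obtain ⟨q, hq⟩ := h4; omega) hjo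
  obtain ⟨w, hw⟩ : ∃ w, w = g * j * g⁻¹ := ⟨_, rfl⟩
  rw [← hw] at hg hgj
  have how : orderOf w = 2 := by
    rw [hw]
    exact (orderOf_injective (MulAut.conj g).toMonoidHom (MulAut.conj g).injective j).trans hjo
  have hpz : ∀ z : X, orderOf z = 2 → IsPGroup 2 ↥(Subgroup.zpowers z) := fun z hz =>
    IsPGroup.of_card (n := 1) (by rw [Nat.card_zpowers, hz, pow_one])
  have hle : Subgroup.zpowers w ≤
      Subgroup.normalizer ((Subgroup.zpowers j : Subgroup X) : Set X) := by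
    rw [Subgroup.zpowers_le]
    exact Subgroup.centralizer_le_normalizer _ (Subgroup.mem_centralizer_iff.2 fun z hz => by
      obtain ⟨k, rfl⟩ := Subgroup.mem_zpowers_iff.1 hz
      exact (hg.zpow_left k).eq)
  obtain ⟨Q, hQ⟩ :=
    (IsPGroup.to_sup_of_normal_right' (hpz w how) (hpz j hjo) hle).exists_le_sylow
  obtain ⟨h, hh⟩ := MulAction.exists_smul_eq X Q P
  have hin : ∀ z ∈ (Q : Subgroup X), h * z * h⁻¹ ∈ (P : Subgroup X) := by
    intro z hz
    rw [← hh, Sylow.coe_subgroup_smul]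
    exact ⟨z, hz, by simp [MulDistribMulAction.toMonoidEnd_apply]⟩
  have hsj : sgn X Y j = 1 := by
    rw [hj, map_pow]
    exact hsev _ ⟨2 ^ v, by rw [pow_succ]; ring⟩
  obtain ⟨z0, g0, hz0P, hz0o, hz0s, hz0j, hg0⟩ : ∃ z0 g0 : X, z0 ∈ (P : Subgroup X) ∧
      orderOf z0 = 2 ∧ sgn X Y z0 = 1 ∧ z0 ≠ j ∧ g0 * j * g0⁻¹ = z0 := by
    have hord : ∀ k : X, orderOf (k * j * k⁻¹) = 2 := fun k =>
      (orderOf_injective (MulAut.conj k).toMonoidHom (MulAut.conj k).injective j).trans hjo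
    have hsgn : ∀ k : X, sgn X Y (k * j * k⁻¹) = 1 := fun k => by
      rw [map_mul, map_mul, map_inv, hsj, mul_one, mul_inv_cancel]
    by_cases hj' : h * j * h⁻¹ = j
    · refine ⟨_, h * g, ?_, hord _, hsgn _, ?_, rfl⟩
      · have e : h * g * j * (h * g)⁻¹ = h * w * h⁻¹ := by rw [hw]; group
        rw [e]
        exact hin w (hQ (Subgroup.mem_sup_left (Subgroup.mem_zpowers w)))
      · intro e
        apply hgj
        have e' : h * w * h⁻¹ = h * j * h⁻¹ := by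
          rw [hj', hw]
          exact (show _ = h * g * j * (h * g)⁻¹ by group).trans e
        exact mul_left_cancel (mul_right_cancel e')
    · exact ⟨_, h, hin j (hQ (Subgroup.mem_sup_right (Subgroup.mem_zpowers j))), hord h, hsgn h,
        hj', rfl⟩
  obtain ⟨i0, hi0, hz0⟩ := heven z0 hz0P hz0o hz0s hz0j
  have hinv0 : d * a ^ i0 * d⁻¹ = (a ^ i0)⁻¹ := by
    have h1 : a ^ i0 * d * (a ^ i0 * d) = 1 := by
      rw [← hz0, ← pow_two, ← hz0o, pow_orderOf_eq_one]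
    rw [hdinv]
    exact eq_inv_of_mul_eq_one_right (by rw [← h1]; group)
  have hinv : d * a * d⁻¹ = a⁻¹ := by
    obtain ⟨m, hm⟩ := exists_pow_eq_self_of_coprime (x := a) (n := i0)
      (by rw [horda]; exact Nat.Coprime.pow_right _ (Nat.coprime_two_right.2 hi0))
    calc d * a * d⁻¹ = (d * a ^ i0 * d⁻¹) ^ m := by rw [conj_pow, hm]
      _ = a⁻¹ := by rw [hinv0, inv_pow, hm]
  refine ⟨hinv, fun z hz hzy => ?_⟩
  obtain ⟨R, hR⟩ := (hpz z hz).exists_le_sylow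
  obtain ⟨k, hk⟩ := MulAction.exists_smul_eq X R P
  have hzP : k * z * k⁻¹ ∈ (P : Subgroup X) := by
    rw [← hk, Sylow.coe_subgroup_smul]
    exact ⟨z, hR (Subgroup.mem_zpowers z), by simp [MulDistribMulAction.toMonoidEnd_apply]⟩
  have hz'o : orderOf (k * z * k⁻¹) = 2 :=
    (orderOf_injective (MulAut.conj k).toMonoidHom (MulAut.conj k).injective z).trans hz
  have hz'y : ∀ y : Y, (k * z * k⁻¹) • y ≠ y := fun y hy => hzy (k⁻¹ • y) (by
    rw [mul_smul, mul_smul, smul_eq_iff_eq_inv_smul] at hy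
    exact hy)
  rcases hnorm _ hzP with ⟨i, hi⟩ | ⟨i, hi⟩
  · refine ⟨k⁻¹, ?_⟩
    have e : k * z * k⁻¹ = j :=
      eq_of_mem_zpowers (hi ▸ Subgroup.npow_mem_zpowers a i) hja hz'o hjo
    rw [← hj, ← e]
    group
  · have hz' : (i : ℤ) = (i : ℤ) := rfl
    clear hz'
    have hdz : ∀ r : ℤ, d * a ^ r * d⁻¹ = a ^ (-r) := fun r => by
      rw [← conj_zpow, hinv, inv_zpow, zpow_neg]
    have hconj : ∀ (r : ℤ) (l : ℤ), a ^ r * (a ^ l * d) * (a ^ r)⁻¹ = a ^ (l + 2 * r) * d := by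
      intro r l
      have e := hdz (-r)
      rw [neg_neg, mul_inv_eq_iff_eq_mul] at e
      rw [← zpow_neg, mul_assoc, mul_assoc, e, ← mul_assoc, ← mul_assoc, ← zpow_add, ← zpow_add]
      congr 2
      ring
    have hio : Odd i := by
      by_contra ho
      rw [Nat.not_odd_iff_even] at ho
      obtain ⟨r, hr⟩ := ho
      apply hz'y (a ^ (r : ℤ) • y)
      have e := hconj r 0
      rw [zpow_zero, one_mul, show (0 : ℤ) + 2 * (r : ℤ) = ((i : ℕ) : ℤ) by rw [hr]; push_cast; ring,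
        zpow_natCast, zpow_natCast] at e
      rw [hi, ← e, zpow_natCast, mul_smul, inv_smul_smul, mul_smul, hdy]
    obtain ⟨r, hr⟩ : ∃ r : ℤ, (i : ℤ) = i0 + 2 * r := by
      obtain ⟨p, hp⟩ := hio
      obtain ⟨q, hq⟩ := hi0
      exact ⟨(p : ℤ) - q, by rw [hp, hq]; push_cast; ring⟩
    have e1 : k * z * k⁻¹ = a ^ r * g0 * j * (a ^ r * g0)⁻¹ := by
      have := hconj r i0
      rw [← hr, zpow_natCast, zpow_natCast, ← hi, ← hz0, ← hg0] at this
      rw [← this]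
      group
    refine ⟨k⁻¹ * (a ^ r * g0), ?_⟩
    rw [← hj]
    calc k⁻¹ * (a ^ r * g0) * j * (k⁻¹ * (a ^ r * g0))⁻¹
        = k⁻¹ * (a ^ r * g0 * j * (a ^ r * g0)⁻¹) * k := by group
      _ = z := by rw [← e1]; group

namespace Setup

variable {G : Type u} {Ω : Type u} [Group G] [MulAction G Ω] [Finite G] [Finite Ω] {t : G}
  (E : Setup G Ω t)

include E

theorem t_even_pow (hd : 4 ∣ orderOf E.d) : ∃ q : ℕ, t = (E.d ^ 2) ^ q := by
  obtain ⟨e, he⟩ := E.t_pow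
  rcases Nat.even_or_odd e with ⟨q, hq⟩ | ho
  · exact ⟨q, by rw [← pow_mul, two_mul, ← hq]; exact he⟩
  exfalso
  have h' : orderOf t = orderOf E.d / Nat.gcd (orderOf E.d) e := by
    rw [← orderOf_pow E.d, ← he]
  have hg : Nat.gcd (orderOf E.d) e = 1 := by
    rw [E.ord_d]
    exact Nat.Coprime.pow_left _ (Nat.coprime_two_left.2 ho)
  have hpos := Nat.le_of_dvd (orderOf_pos E.d) hd
  rw [hg, Nat.div_one, E.ord_t] at h'
  omega

theorem t_mem_of_ne_one {i : ℕ} (h : E.d ^ i ≠ 1) : t ∈ Subgroup.zpowers (E.d ^ i) := by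
  have h2 : 2 ∣ orderOf (E.d ^ i) := by
    have hdvd : orderOf (E.d ^ i) ∣ 2 ^ (Nat.card ↥(stabilizer G E.α)).factorization 2 :=
      E.ord_d ▸ orderOf_pow_dvd i
    obtain ⟨l, -, hl⟩ := (Nat.dvd_prime_pow Nat.prime_two).1 hdvd
    rcases Nat.eq_zero_or_pos l with rfl | hl0
    · exact absurd (orderOf_eq_one_iff.1 (by rw [hl, pow_zero])) h
    · exact hl ▸ dvd_pow_self 2 hl0.ne'
  have hz : orderOf ((E.d ^ i) ^ (orderOf (E.d ^ i) / 2)) = 2 := by
    have hpos : 0 < orderOf (E.d ^ i) / 2 :=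
      Nat.div_pos (Nat.le_of_dvd (orderOf_pos _) h2) two_pos
    rw [orderOf_pow_of_dvd hpos.ne' (Nat.div_dvd_of_dvd h2), Nat.div_div_self h2 (orderOf_pos _).ne']
  have e := E.inv_unique hz (by rw [← pow_mul]; exact Subgroup.npow_mem_zpowers E.d _)
  have h3 := Subgroup.npow_mem_zpowers (E.d ^ i) (orderOf (E.d ^ i) / 2)
  simpa only [e] using h3

end Setup

/-- The centraliser of `t` mapped onto the group it induces on the fixed set. -/
abbrev fixMap (G : Type u) (Ω : Type u) [Group G] [MulAction G Ω] (t : G) :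
    ↥(Subgroup.centralizer ({t} : Set G)) →* ↥(fixGroup G Ω t) :=
  (fixHom G Ω t).rangeRestrict

section

variable {G : Type u} {Ω : Type u} [Group G] [MulAction G Ω] {t : G}

theorem fixMap_surjective : Function.Surjective (fixMap G Ω t) :=
  (fixHom G Ω t).rangeRestrict_surjective

theorem fixMap_one (z : ↥(Subgroup.centralizer ({t} : Set G))) (hz : fixMap G Ω t z = 1) (x : Ω) (hx : t • x = x) :
    (z : G) • x = x := by
  have h : ((fixMap G Ω t z • (⟨x, hx⟩ : ↥(fixSet G Ω t)) : ↥(fixSet G Ω t)) : Ω) = (z : G) • x :=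
    rfl
  rw [hz, one_smul] at h
  exact h.symm

end

variable {G : Type u} {Ω : Type u} [Group G] [MulAction G Ω] [Finite G] [Finite Ω] {t : G}

/-- The Sylow 2-subgroup of the centraliser of `t` inside the chosen one. -/
noncomputable def Setup.sylowC (E : Setup G Ω t) : Sylow 2 ↥(Subgroup.centralizer ({t} : Set G)) :=
  haveI : Fact (Nat.Prime 2) := ⟨Nat.prime_two⟩
  Sylow.ofCard ((E.S : Subgroup G).subgroupOf (Subgroup.centralizer ({t} : Set G))) (by
    rw [← Subgroup.inf_subgroupOf_right, Nat.card_congr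
      (Subgroup.subgroupOfEquivOfLe
        (inf_le_right : (E.S : Subgroup G) ⊓ (Subgroup.centralizer ({t} : Set G)) ≤ (Subgroup.centralizer ({t} : Set G)))).toEquiv, E.cent])

theorem Setup.mem_sylowC (E : Setup G Ω t) (z : ↥(Subgroup.centralizer ({t} : Set G))) :
    z ∈ (E.sylowC : Subgroup ↥(Subgroup.centralizer ({t} : Set G))) ↔ (z : G) ∈ (E.S : Subgroup G) := Iff.rfl

/-- What is known on the two levels in the critical case. -/
structure Frame (E : Setup G Ω t) where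
  v : ℕ
  u : G
  uS : u ∈ (E.S : Subgroup G)
  uC : u ∈ (Subgroup.centralizer ({t} : Set G))
  dC : E.d ∈ (Subgroup.centralizer ({t} : Set G))
  ord : orderOf u = 2 ^ (v + 2)
  semi : ∀ (i : ℕ) (x : Ω), u ^ i • x = x → u ^ i = 1
  dec : ∀ s ∈ (E.S : Subgroup G), s ∈ (Subgroup.centralizer ({t} : Set G)) → ∃ i e : ℕ, s = u ^ i * E.d ^ e
  four : 4 ∣ orderOf E.d
  big : 2 < Nat.card Ω
  ordA : orderOf (fixMap G Ω t ⟨u, uC⟩) = 2 ^ (v + 2)
  ordD : orderOf (fixMap G Ω t ⟨E.d, dC⟩) = 2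
  inv : fixMap G Ω t ⟨E.d, dC⟩ * fixMap G Ω t ⟨u, uC⟩ * (fixMap G Ω t ⟨E.d, dC⟩)⁻¹ =
    (fixMap G Ω t ⟨u, uC⟩)⁻¹
  cls : ∀ z : ↥(fixGroup G Ω t), orderOf z = 2 → (∀ y : ↥(fixSet G Ω t), z • y ≠ y) →
    ∃ g : ↥(fixGroup G Ω t), g * fixMap G Ω t ⟨u, uC⟩ ^ 2 ^ (v + 1) * g⁻¹ = z

namespace Frame

variable {E : Setup G Ω t} (F : Frame E)

/-- The image of `u`. -/
noncomputable abbrev A : ↥(fixGroup G Ω t) := fixMap G Ω t ⟨F.u, F.uC⟩

/-- The image of `d`. -/
noncomputable abbrev D : ↥(fixGroup G Ω t) := fixMap G Ω t ⟨E.d, F.dC⟩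

theorem A_def : F.A = fixMap G Ω t ⟨F.u, F.uC⟩ := rfl

theorem D_def : F.D = fixMap G Ω t ⟨E.d, F.dC⟩ := rfl

/-- The involution of the semiregular part. -/
abbrev j : G := F.u ^ 2 ^ (F.v + 1)

include F

theorem ker : ∀ z ∈ (E.S : Subgroup G), ∀ hz : z ∈ (Subgroup.centralizer ({t} : Set G)), fixMap G Ω t ⟨z, hz⟩ = 1 →
    ∃ r : ℕ, z = (E.d ^ 2) ^ r := by
  intro z hzS hz h1
  obtain ⟨i, e, rfl⟩ := F.dec z hzS hz
  have h2 := fixMap_one _ h1 E.α E.tfix
  change (F.u ^ i * E.d ^ e) • E.α = E.α at h2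
  rw [mul_smul, E.d_pow_fix] at h2
  have h3 := F.semi i _ h2
  rw [h3, one_mul]
  have h4 : F.D ^ e = 1 := by
    rw [F.D_def, ← map_pow, ← h1]
    exact congrArg (fixMap G Ω t) (Subtype.ext (by simp [h3]))
  rw [← orderOf_dvd_iff_pow_eq_one, F.ordD] at h4
  obtain ⟨r, rfl⟩ := h4
  exact ⟨r, pow_mul _ _ _⟩

theorem d2_img : fixMap G Ω t ⟨E.d ^ 2, pow_mem F.dC 2⟩ = 1 := by
  rw [show (⟨E.d ^ 2, pow_mem F.dC 2⟩ : ↥(Subgroup.centralizer ({t} : Set G))) = ⟨E.d, F.dC⟩ ^ 2 from rfl, map_pow, ← F.D_def, ← F.ordD,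
    pow_orderOf_eq_one]

theorem comm : Commute (F.u ^ 2) (E.d ^ 2) := by
  -- `F.u ^ 2` commutes with `d ^ 2`
  obtain ⟨σ, hσ⟩ := F.ker (F.u * E.d ^ 2 * F.u⁻¹)
    (mul_mem (mul_mem F.uS (pow_mem E.dS 2)) (inv_mem F.uS))
    (mul_mem (mul_mem F.uC (pow_mem F.dC 2)) (inv_mem F.uC)) (by
      rw [show (⟨F.u * E.d ^ 2 * F.u⁻¹, _⟩ : ↥(Subgroup.centralizer ({t} : Set G))) =
        ⟨F.u, F.uC⟩ * ⟨E.d ^ 2, pow_mem F.dC 2⟩ * ⟨F.u, F.uC⟩⁻¹ from rfl, map_mul, map_mul, F.d2_img, mul_one,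
        map_inv, mul_inv_cancel])
  obtain ⟨ρ, hρ⟩ := F.ker (E.d * F.u * E.d⁻¹ * F.u)
    (mul_mem (mul_mem (mul_mem E.dS F.uS) (inv_mem E.dS)) F.uS)
    (mul_mem (mul_mem (mul_mem F.dC F.uC) (inv_mem F.dC)) F.uC) (by
      rw [show (⟨E.d * F.u * E.d⁻¹ * F.u, _⟩ : ↥(Subgroup.centralizer ({t} : Set G))) =
        ⟨E.d, F.dC⟩ * ⟨F.u, F.uC⟩ * ⟨E.d, F.dC⟩⁻¹ * ⟨F.u, F.uC⟩ from rfl, map_mul, map_mul, map_mul, map_inv,
        ← F.A_def, ← F.D_def, F.inv, inv_mul_cancel])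
  have hσ' : F.u⁻¹ * E.d ^ 2 * F.u = (E.d ^ 2) ^ σ := by
    have e1 : E.d * F.u * E.d⁻¹ = (E.d ^ 2) ^ ρ * F.u⁻¹ := eq_mul_inv_of_mul_eq hρ
    have e2 : E.d * (E.d ^ 2) ^ σ * E.d⁻¹ = (E.d ^ 2) ^ σ := by
      rw [((Commute.self_pow E.d 2).pow_right σ).eq, mul_inv_cancel_right]
    have e3 : (E.d * F.u * E.d⁻¹) * E.d ^ 2 * (E.d * F.u * E.d⁻¹)⁻¹ = (E.d ^ 2) ^ σ := by
      rw [← e2, ← hσ]
      group
    rw [e1, mul_inv_rev, inv_inv] at e3
    have e4 : (E.d ^ 2) ^ ρ * (F.u⁻¹ * E.d ^ 2 * F.u) * ((E.d ^ 2) ^ ρ)⁻¹ = (E.d ^ 2) ^ σ := by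
      rw [← e3]
      group
    rw [mul_inv_eq_iff_eq_mul, ((Commute.pow_pow_self (E.d ^ 2) σ ρ)).eq, mul_left_cancel_iff] at e4
    exact e4
  suffices hres : Commute (F.u ^ 2) (E.d ^ 2) from hres
  have e : F.u ^ 2 * E.d ^ 2 = E.d ^ 2 * F.u ^ 2 := by
      calc F.u ^ 2 * E.d ^ 2 = F.u * (F.u * E.d ^ 2 * F.u⁻¹) * F.u := by rw [pow_two F.u]; group
        _ = F.u * (F.u⁻¹ * E.d ^ 2 * F.u) * F.u := by rw [hσ, hσ']
        _ = E.d ^ 2 * F.u ^ 2 := by rw [pow_two F.u]; group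
  exact e

theorem j_ord : orderOf F.j = 2 := by
  have hdiv : 2 ^ (F.v + 1) ∣ orderOf F.u := F.ord ▸ pow_dvd_pow 2 (by omega)
  rw [orderOf_pow_of_dvd (by positivity) hdiv, F.ord,
    show (2 : ℕ) ^ (F.v + 2) = 2 ^ (F.v + 1) * 2 from pow_succ 2 (F.v + 1),
    Nat.mul_div_cancel_left _ (by positivity)]

theorem j_sq : F.j * F.j = 1 := mul_self_of_orderOf F.j_ord

theorem j_free (x : Ω) : F.j • x ≠ x := fun hx => by
  have h1 : F.j = 1 := F.semi _ x hx
  have h2 := F.j_ord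
  rw [h1, orderOf_one] at h2
  omega

theorem j_mem : F.j ∈ (Subgroup.centralizer ({t} : Set G)) := pow_mem F.uC _

theorem j_mem_S : F.j ∈ (E.S : Subgroup G) := pow_mem F.uS _

theorem j_img : fixMap G Ω t ⟨F.j, F.j_mem⟩ = F.A ^ 2 ^ (F.v + 1) := by
  rw [F.A_def, ← map_pow]; rfl

theorem j_d2 : Commute F.j (E.d ^ 2) := by
  change Commute (F.u ^ 2 ^ (F.v + 1)) _
  rw [show 2 ^ (F.v + 1) = 2 * 2 ^ F.v by rw [pow_succ, mul_comm], pow_mul]
  exact F.comm.pow_left _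

theorem j_u : Commute F.j F.u := Commute.pow_self F.u _

theorem j_t : Commute F.j t := by
  obtain ⟨q, hq⟩ := E.t_even_pow F.four
  simpa only [← hq] using F.j_d2.pow_right q

theorem coset : ∀ z ∈ (E.S : Subgroup G), ∀ hz : z ∈ (Subgroup.centralizer ({t} : Set G)),
    fixMap G Ω t ⟨z, hz⟩ = F.A ^ 2 ^ (F.v + 1) → z * z = 1 → (∃ x : Ω, z • x = x) →
    z = F.j * t := by
  intro z hzS hz h1 hz2 hfx
  obtain ⟨r, hr⟩ := F.ker (F.j⁻¹ * z) (mul_mem (inv_mem F.j_mem_S) hzS) (mul_mem (inv_mem F.j_mem) hz) (by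
    rw [show (⟨F.j⁻¹ * z, _⟩ : ↥(Subgroup.centralizer ({t} : Set G))) = ⟨F.j, F.j_mem⟩⁻¹ * ⟨z, hz⟩ from rfl, map_mul, map_inv, F.j_img, h1,
      inv_mul_cancel])
  have hz' : z = F.j * (E.d ^ 2) ^ r := by rw [← hr, mul_inv_cancel_left]
  have hk2 : ((E.d ^ 2) ^ r) * ((E.d ^ 2) ^ r) = 1 := by
    rw [hz', mul_assoc, ← mul_assoc ((E.d ^ 2) ^ r) F.j, ← (F.j_d2.pow_right r).eq, mul_assoc,
      ← mul_assoc F.j F.j, F.j_sq, one_mul] at hz2
    exact hz2
  have hk1 : (E.d ^ 2) ^ r ≠ 1 := fun e => by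
    obtain ⟨x, hx⟩ := hfx
    rw [hz', e, mul_one] at hx
    exact F.j_free x hx
  rw [hz', E.inv_unique (orderOf_eq_two hk2 hk1)
    (by rw [← pow_mul]; exact Subgroup.npow_mem_zpowers E.d _)]

theorem exists_conj (c : Ctx G Ω) : ∃ k0 : G, k0 * t * k0⁻¹ = F.j * t := by
  haveI : Fact (Nat.Prime 2) := ⟨Nat.prime_two⟩
  obtain ⟨g0, hg0, hg0t⟩ := not_isolated c F.big E.ord_t
  obtain ⟨w, hw⟩ : ∃ w, w = g0 * t * g0⁻¹ := ⟨_, rfl⟩
  rw [← hw] at hg0 hg0t
  have how : orderOf w = 2 := by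
    rw [hw]
    exact (orderOf_injective (MulAut.conj g0).toMonoidHom (MulAut.conj g0).injective t).trans E.ord_t
  have hwC : w ∈ (Subgroup.centralizer ({t} : Set G)) := Subgroup.mem_centralizer_singleton_iff.2 hg0.symm.eq
  have hwfree : ∀ x : ↥(fixSet G Ω t), (fixMap G Ω t) ⟨w, hwC⟩ • x ≠ x := fun x hx =>
    hg0t (c.inv_of_fix_two E.ord_t how (mem_fixSet.1 x.2) (congrArg Subtype.val hx) hg0).symm
  have hwo : orderOf ((fixMap G Ω t) ⟨w, hwC⟩) = 2 := by
    refine orderOf_eq_two ?_ fun e => hwfree ⟨E.α, E.tfix⟩ (by rw [e, one_smul])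
    rw [← map_mul, show (⟨w, hwC⟩ : ↥(Subgroup.centralizer ({t} : Set G))) * ⟨w, hwC⟩ = 1 from
      Subtype.ext (mul_self_of_orderOf how), map_one]
  obtain ⟨gX, hgX⟩ := F.cls _ hwo hwfree
  obtain ⟨c0, rfl⟩ := fixMap_surjective gX
  obtain ⟨w', hw'⟩ : ∃ w' : ↥(Subgroup.centralizer ({t} : Set G)), w' = c0⁻¹ * ⟨w, hwC⟩ * c0 := ⟨_, rfl⟩
  have hw'φ : (fixMap G Ω t) w' = F.A ^ 2 ^ (F.v + 1) := by
    rw [hw', map_mul, map_mul, map_inv, ← hgX]
    group
  -- move it into `E.sylowC` inside the centraliser of its image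
  let M : Subgroup ↥(Subgroup.centralizer ({t} : Set G)) := (Subgroup.centralizer ({F.A ^ 2 ^ (F.v + 1)} : Set ↥(fixGroup G Ω t))).comap (fixMap G Ω t)
  have hPM : (E.sylowC : Subgroup ↥(Subgroup.centralizer ({t} : Set G))) ≤ M := by
    intro z hz
    obtain ⟨i, e, he⟩ := F.dec _ ((E.mem_sylowC z).1 hz) z.2
    change (fixMap G Ω t) z ∈ Subgroup.centralizer _
    rw [Subgroup.mem_centralizer_singleton_iff]
    have h1 : (fixMap G Ω t) z = F.A ^ i * F.D ^ e := by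
      rw [F.A_def, F.D_def, ← map_pow, ← map_pow, ← map_mul]
      exact congrArg (fixMap G Ω t) (Subtype.ext he)
    have hDJ : Commute F.D (F.A ^ 2 ^ (F.v + 1)) := by
      have e1 : F.D * F.A ^ 2 ^ (F.v + 1) * F.D⁻¹ = F.A ^ 2 ^ (F.v + 1) := by
        rw [← conj_pow, F.inv, inv_pow, inv_eq_iff_mul_eq_one, ← pow_add, ← two_mul, ← pow_succ',
          ← F.ordA, pow_orderOf_eq_one]
      exact mul_inv_eq_iff_eq_mul.1 e1
    rw [h1]
    exact ((Commute.pow_pow_self F.A i _).mul_left (hDJ.pow_left e)).eq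
  have hw'M : w' ∈ M := by
    change (fixMap G Ω t) w' ∈ Subgroup.centralizer _
    rw [Subgroup.mem_centralizer_singleton_iff, hw'φ]
  have hw'o : orderOf (⟨w', hw'M⟩ : ↥M) = 2 := by
    rw [← Subgroup.orderOf_coe, ← Subgroup.orderOf_coe]
    change orderOf (w' : G) = 2
    rw [hw']
    have := (orderOf_injective (MulAut.conj (c0 : G)⁻¹).toMonoidHom
      (MulAut.conj (c0 : G)⁻¹).injective w).trans how
    simpa using this
  obtain ⟨R, hR⟩ := (IsPGroup.of_card (p := 2) (n := 1) (G := ↥(Subgroup.zpowers (⟨w', hw'M⟩ : ↥M)))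
    (by rw [Nat.card_zpowers, hw'o, pow_one])).exists_le_sylow
  obtain ⟨m, hm⟩ := MulAction.exists_smul_eq ↥M R (E.sylowC.subtype hPM)
  have hmP : (m : ↥(Subgroup.centralizer ({t} : Set G))) * w' * (m : ↥(Subgroup.centralizer ({t} : Set G)))⁻¹ ∈ (E.sylowC : Subgroup ↥(Subgroup.centralizer ({t} : Set G))) := by
    have h1 : m * ⟨w', hw'M⟩ * m⁻¹ ∈ (E.sylowC.subtype hPM : Subgroup ↥M) := by
      rw [← hm, Sylow.coe_subgroup_smul]
      exact ⟨_, hR (Subgroup.mem_zpowers _), by simp [MulDistribMulAction.toMonoidEnd_apply]⟩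
    rw [Sylow.coe_subtype, Subgroup.mem_subgroupOf] at h1
    exact h1
  refine ⟨((m : ↥(Subgroup.centralizer ({t} : Set G))) : G) * (c0 : G)⁻¹ * g0, ?_⟩
  have e1 : (((m : ↥(Subgroup.centralizer ({t} : Set G))) * w' * (m : ↥(Subgroup.centralizer ({t} : Set G)))⁻¹ : ↥(Subgroup.centralizer ({t} : Set G))) : G) =
      ((m : ↥(Subgroup.centralizer ({t} : Set G))) : G) * (c0 : G)⁻¹ * g0 * t * (((m : ↥(Subgroup.centralizer ({t} : Set G))) : G) * (c0 : G)⁻¹ * g0)⁻¹ := by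
    rw [hw']
    simp only [Subgroup.coe_mul, InvMemClass.coe_inv, hw]
    group
  rw [← e1]
  refine F.coset _ ((E.mem_sylowC _).1 hmP) ((m : ↥(Subgroup.centralizer ({t} : Set G))) * w' * (m : ↥(Subgroup.centralizer ({t} : Set G)))⁻¹).2 ?_ ?_ ?_
  · change (fixMap G Ω t) ((m : ↥(Subgroup.centralizer ({t} : Set G))) * w' * (m : ↥(Subgroup.centralizer ({t} : Set G)))⁻¹) = _
    have hm' : (fixMap G Ω t) (m : ↥(Subgroup.centralizer ({t} : Set G))) ∈ Subgroup.centralizer ({F.A ^ 2 ^ (F.v + 1)} : Set ↥(fixGroup G Ω t)) :=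
      m.2
    rw [map_mul, map_mul, map_inv, hw'φ, Subgroup.mem_centralizer_singleton_iff.1 hm',
      mul_inv_cancel_right]
  · rw [e1, conj_mul, mul_self_of_orderOf E.ord_t, mul_one, mul_inv_cancel]
  · refine ⟨(((m : ↥(Subgroup.centralizer ({t} : Set G))) : G) * (c0 : G)⁻¹ * g0) • E.α, ?_⟩
    rw [e1, mul_smul, inv_smul_smul, mul_smul, E.tfix]

theorem commute_d (c : Ctx G Ω) : Commute E.d F.j := by
  obtain ⟨k0, hk0⟩ := F.exists_conj c
  obtain ⟨r, hr⟩ := F.ker (F.j⁻¹ * (E.d * F.j * E.d⁻¹))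
    (mul_mem (inv_mem F.j_mem_S) (mul_mem (mul_mem E.dS F.j_mem_S) (inv_mem E.dS)))
    (mul_mem (inv_mem F.j_mem) (mul_mem (mul_mem F.dC F.j_mem) (inv_mem F.dC))) (by
    rw [show (⟨F.j⁻¹ * (E.d * F.j * E.d⁻¹), _⟩ : ↥(Subgroup.centralizer ({t} : Set G))) =
      ⟨F.j, F.j_mem⟩⁻¹ * (⟨E.d, F.dC⟩ * ⟨F.j, F.j_mem⟩ * ⟨E.d, F.dC⟩⁻¹) from rfl, map_mul, map_inv, map_mul,
      map_mul, map_inv, F.j_img, ← F.D_def, ← conj_pow, F.inv, inv_pow, ← mul_inv_rev, ← pow_add, ← two_mul,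
      ← pow_succ', ← F.ordA, pow_orderOf_eq_one, inv_one])
  by_cases hk1 : (E.d ^ 2) ^ r = 1
  · rw [hk1, inv_mul_eq_one] at hr
    exact (mul_inv_eq_iff_eq_mul.1 hr.symm)
  exfalso
  have e : E.d * F.j * E.d⁻¹ = F.j * (E.d ^ 2) ^ r := by rw [← hr, mul_inv_cancel_left]
  have hsq : (F.j * (E.d ^ 2) ^ r) * (F.j * (E.d ^ 2) ^ r) = 1 := by
    rw [← e, conj_mul, F.j_sq, mul_one, mul_inv_cancel]
  rw [(F.j_d2.pow_right r).symm.mul_mul_mul_comm, F.j_sq, one_mul] at hsq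
  rw [E.inv_unique (orderOf_eq_two hsq hk1)
    (by rw [← pow_mul]; exact Subgroup.npow_mem_zpowers E.d _)] at e
  refine F.j_free (E.d⁻¹ • k0 • E.α) (smul_left_cancel E.d ?_)
  have hfx : (F.j * t) • k0 • E.α = k0 • E.α := by
    rw [← hk0, mul_smul, inv_smul_smul, mul_smul, E.tfix]
  rw [smul_inv_smul, ← mul_smul, ← mul_smul, e, hfx]

theorem exists_normalizing (c : Ctx G Ω) :
    ∃ g : G, (∀ z ∈ (E.S : Subgroup G) ⊓ (Subgroup.centralizer ({t} : Set G)), g * z * g⁻¹ ∈ (E.S : Subgroup G) ⊓ (Subgroup.centralizer ({t} : Set G))) ∧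
      g * t * g⁻¹ = F.j * t := by
  haveI : Fact (Nat.Prime 2) := ⟨Nat.prime_two⟩
  obtain ⟨k0, hk0⟩ := F.exists_conj c
  have hdj := F.commute_d c
  set PG : Subgroup G := (E.S : Subgroup G) ⊓ (Subgroup.centralizer ({t} : Set G)) with hPG
  have hcz : ∀ z ∈ PG, Commute F.j z := by
    intro z hz
    obtain ⟨i, e, rfl⟩ := F.dec z hz.1 hz.2
    exact (F.j_u.pow_right i).mul_right (hdj.symm.pow_right e)
  have htz : ∀ z ∈ PG, Commute t z := fun z hz =>
    (Subgroup.mem_centralizer_singleton_iff.1 hz.2).symm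
  by_cases hfull : PG = (E.S : Subgroup G)
  · obtain ⟨m, hm, hm'⟩ := Sylow.conj_eq_normalizer_conj_of_mem_centralizer E.S t k0⁻¹
      (Subgroup.mem_centralizer_iff.2 fun z hz => (htz z (hfull ▸ hz)).symm.eq)
      (by
        rw [inv_inv, hk0, Subgroup.mem_centralizer_iff]
        intro z hz
        exact ((hcz z (hfull ▸ hz)).mul_left (htz z (hfull ▸ hz))).symm.eq)
    rw [inv_inv, hk0] at hm'
    refine ⟨m⁻¹, fun z hz => ?_, by rw [inv_inv]; exact hm'.symm⟩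
    rw [hfull] at hz ⊢
    exact (Subgroup.mem_normalizer_iff.1 (inv_mem hm) z).1 hz
  · have hlt : PG < (E.S : Subgroup G) := lt_of_le_of_ne inf_le_left hfull
    haveI := (E.S.2).isNilpotent
    have hne : PG.subgroupOf (E.S : Subgroup G) < ⊤ := by
      rw [lt_top_iff_ne_top, ne_eq, Subgroup.subgroupOf_eq_top]
      exact fun h => absurd (le_antisymm inf_le_left h) hfull
    obtain ⟨g, hgN, hgP⟩ := SetLike.exists_of_lt
      (Group.normalizerCondition_of_isNilpotent _ hne)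
    have hgconj : ∀ z ∈ PG, (g : G) * z * (g : G)⁻¹ ∈ PG := fun z hz =>
      (Subgroup.mem_normalizer_iff.1 hgN ⟨z, hz.1⟩).1 hz
    refine ⟨g, hgconj, ?_⟩
    have htPG : t ∈ PG := ⟨E.tS, Subgroup.mem_centralizer_singleton_iff.2 rfl⟩
    obtain ⟨z, hz⟩ : ∃ z, z = (g : G) * t * (g : G)⁻¹ := ⟨_, rfl⟩
    have hzP : z ∈ PG := hz ▸ hgconj t htPG
    have hzo : orderOf z = 2 := by
      rw [hz]
      exact (orderOf_injective (MulAut.conj (g : G)).toMonoidHom
        (MulAut.conj (g : G)).injective t).trans E.ord_t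
    have hzt : z ≠ t := fun e => hgP ⟨g.2, Subgroup.mem_centralizer_singleton_iff.2
      (mul_inv_eq_iff_eq_mul.1 (hz.symm.trans e))⟩
    have hzfree : ∀ x : ↥(fixSet G Ω t), (fixMap G Ω t) ⟨z, hzP.2⟩ • x ≠ x := fun x hx =>
      hzt (c.inv_of_fix_two E.ord_t hzo (mem_fixSet.1 x.2) (congrArg Subtype.val hx)
        (htz z hzP)).symm
    have hzu : Commute z F.u := by
      have hgz : (g : G)⁻¹ * F.u * (g : G) ∈ PG := by
        have := (Subgroup.mem_normalizer_iff.1 (inv_mem hgN) ⟨F.u, F.uS⟩).1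
          (show F.u ∈ PG from ⟨F.uS, F.uC⟩)
        simpa [Subgroup.mem_subgroupOf] using this
      have e := htz _ hgz
      rw [hz]
      calc (g : G) * t * (g : G)⁻¹ * F.u = (g : G) * (t * ((g : G)⁻¹ * F.u * (g : G))) * (g : G)⁻¹ := by
            group
        _ = (g : G) * (((g : G)⁻¹ * F.u * (g : G)) * t) * (g : G)⁻¹ := by rw [e.eq]
        _ = F.u * ((g : G) * t * (g : G)⁻¹) := by group
    obtain ⟨i, e, hie⟩ := F.dec z hzP.1 hzP.2
    have himg : (fixMap G Ω t) ⟨z, hzP.2⟩ = F.A ^ i * F.D ^ e := by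
      rw [F.A_def, F.D_def, ← map_pow, ← map_pow, ← map_mul]
      exact congrArg (fixMap G Ω t) (Subtype.ext hie)
    have hzA : Commute ((fixMap G Ω t) ⟨z, hzP.2⟩) F.A := by
      have h1 : Commute (⟨z, hzP.2⟩ : ↥(Subgroup.centralizer ({t} : Set G))) ⟨F.u, F.uC⟩ := Subtype.ext hzu.eq
      exact h1.map (fixMap G Ω t)
    have hDe : F.D ^ e = 1 := by
      rcases Nat.mod_two_eq_zero_or_one e with h | h
      · rw [← pow_mod_orderOf, F.ordD, h, pow_zero]
      exfalso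
      rw [himg, ← pow_mod_orderOf F.D e, F.ordD, h, pow_one] at hzA
      have h2 : Commute F.D F.A := by
        have h3 := ((Commute.pow_self F.A i).symm.inv_right.symm).mul_left hzA
        rwa [inv_mul_cancel_left] at h3
      have h4 := F.inv
      rw [h2.eq, mul_inv_cancel_right] at h4
      have h5 : F.A ^ 2 = 1 := by
        rw [pow_two]
        nth_rewrite 2 [h4]
        exact mul_inv_cancel F.A
      have h6 := orderOf_dvd_of_pow_eq_one h5
      rw [F.ordA] at h6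
      have h7 := Nat.le_of_dvd two_pos h6
      have : 2 ^ 2 ≤ 2 ^ (F.v + 2) := Nat.pow_le_pow_right two_pos (by omega)
      omega
    rw [hDe, mul_one] at himg
    have hzo' : orderOf ((fixMap G Ω t) ⟨z, hzP.2⟩) = 2 := by
      refine orderOf_eq_two ?_ fun e => hzfree ⟨E.α, E.tfix⟩ (by rw [e, one_smul])
      rw [← map_mul, show (⟨z, hzP.2⟩ : ↥(Subgroup.centralizer ({t} : Set G))) * ⟨z, hzP.2⟩ = 1 from
        Subtype.ext (mul_self_of_orderOf hzo),
        map_one]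
    have hAJ : orderOf (F.A ^ 2 ^ (F.v + 1)) = 2 := by
      rw [orderOf_pow_of_dvd (by positivity) (F.ordA ▸ pow_dvd_pow 2 (by omega)), F.ordA,
        show (2 : ℕ) ^ (F.v + 2) = 2 ^ (F.v + 1) * 2 from pow_succ 2 (F.v + 1),
        Nat.mul_div_cancel_left _ (by positivity)]
    rw [← hz]
    refine F.coset z hzP.1 hzP.2 (eq_of_mem_zpowers (himg ▸ Subgroup.npow_mem_zpowers F.A i)
      (Subgroup.npow_mem_zpowers F.A _) hzo' hAJ) (mul_self_of_orderOf hzo)
      ⟨(g : G) • E.α, ?_⟩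
    rw [hz, mul_smul, inv_smul_smul, mul_smul, E.tfix]

theorem contra (c : Ctx G Ω) : False := by
  obtain ⟨g, hgN, hgt⟩ := F.exists_normalizing c
  set PG : Subgroup G := (E.S : Subgroup G) ⊓ (Subgroup.centralizer ({t} : Set G)) with hPG
  -- the final contradiction
  have hdPG : E.d ∈ PG := ⟨E.dS, F.dC⟩
  obtain ⟨i, e, he⟩ := F.dec _ (hgN _ hdPG).1 (hgN _ hdPG).2
  obtain ⟨p, hp⟩ : ∃ p, (orderOf E.d) = 4 * p := F.four
  have htp : t = E.d ^ (2 * p) := by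
    have hpos := orderOf_pos E.d
    have ho : orderOf (E.d ^ (2 * p)) = 2 := by
      rw [orderOf_pow_of_dvd (by omega) ⟨2, by omega⟩, hp,
        show 4 * p = 2 * (2 * p) by ring, Nat.mul_div_cancel _ (by omega)]
    exact (E.inv_unique ho (Subgroup.npow_mem_zpowers E.d _)).symm
  have hjte : (F.u ^ i * E.d ^ e) ^ (2 * p) = F.j * t := by
    rw [← he, conj_pow, ← htp, hgt]
  rcases Nat.mod_two_eq_zero_or_one e with h | h
  · obtain ⟨m, rfl⟩ : 2 ∣ e := Nat.dvd_of_mod_eq_zero h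
    have hiC : F.u ^ i ∈ (Subgroup.centralizer ({t} : Set G)) := pow_mem F.uC i
    obtain ⟨s, hs⟩ := F.ker ((F.u ^ i)⁻¹ * E.d ^ 2 * F.u ^ i)
      (mul_mem (mul_mem (inv_mem (pow_mem F.uS i)) (pow_mem E.dS 2)) (pow_mem F.uS i))
      (mul_mem (mul_mem (inv_mem hiC) (pow_mem F.dC 2)) hiC) (by
      rw [show (⟨(F.u ^ i)⁻¹ * E.d ^ 2 * F.u ^ i, _⟩ : ↥(Subgroup.centralizer ({t} : Set G))) =
        ⟨F.u ^ i, hiC⟩⁻¹ * ⟨E.d ^ 2, pow_mem F.dC 2⟩ * ⟨F.u ^ i, hiC⟩ from rfl, map_mul, map_mul, F.d2_img,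
        mul_one, map_inv, inv_mul_cancel])
    have hut : Commute (F.u ^ i) t :=
      (Subgroup.mem_centralizer_singleton_iff.1 hiC)
    have hts : t ^ s = t := by
      have := congrArg (· ^ p) hs
      have e1 : ((F.u ^ i)⁻¹ * E.d ^ 2 * F.u ^ i) ^ p = (F.u ^ i)⁻¹ * (E.d ^ 2) ^ p * F.u ^ i := by
        have := conj_pow (i := p) (a := (F.u ^ i)⁻¹) (b := E.d ^ 2)
        rwa [inv_inv] at this
      rw [e1, ← pow_mul, ← htp, mul_assoc, ← hut.eq, inv_mul_cancel_left, ← pow_mul,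
        mul_comm s p, pow_mul, ← pow_mul E.d, ← htp] at this
      exact this.symm
    have hso : s % 2 = 1 := by
      rcases Nat.mod_two_eq_zero_or_one s with h' | h'
      · exfalso
        rw [← pow_mod_orderOf, E.ord_t, h', pow_zero] at hts
        have h9 := E.ord_t
        rw [← hts, orderOf_one] at h9
        omega
      · exact h'
    have hsquare : (F.u ^ i * E.d ^ (2 * m)) ^ 2 = (F.u ^ 2) ^ i * (E.d ^ 2) ^ (s * m + m) := by
      have e1 : (F.u ^ i)⁻¹ * E.d ^ (2 * m) * F.u ^ i = (E.d ^ 2) ^ (s * m) := by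
        have := conj_pow (i := m) (a := (F.u ^ i)⁻¹) (b := E.d ^ 2)
        rw [inv_inv, hs, ← pow_mul] at this
        rw [pow_mul, ← this]
      have e2 : (F.u ^ 2) ^ i = F.u ^ i * F.u ^ i := by rw [← pow_mul, two_mul, pow_add]
      rw [pow_add, ← e1, ← pow_mul E.d, e2, pow_two (F.u ^ i * E.d ^ (2 * m))]
      group
    have hfin : (F.u ^ i * E.d ^ (2 * m)) ^ (2 * p) = ((F.u ^ 2) ^ i) ^ p := by
      rw [pow_mul, hsquare, ((F.comm.pow_pow i _)).mul_pow, ← pow_mul (E.d ^ 2),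
        mul_comm (s * m + m) p, pow_mul, ← pow_mul E.d, ← htp, ← pow_mod_orderOf t, E.ord_t,
        show (s * m + m) % 2 = 0 by
          rw [show s * m + m = (s + 1) * m by ring, Nat.mul_mod, Nat.add_mod, hso]; norm_num,
        pow_zero, mul_one]
    rw [hjte] at hfin
    have hy : F.u ^ (2 ^ (F.v + 1) + 2 * (i * p)) • E.α = E.α := by
      rw [pow_add, pow_mul F.u, pow_mul (F.u ^ 2), ← hfin, mul_smul, mul_smul, E.tfix, ← mul_smul]
      exact (congrArg (fun z : G => z • E.α) F.j_sq).trans (one_smul G E.α)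
    have h1 := F.semi _ E.α hy
    rw [pow_add, pow_mul F.u 2, pow_mul (F.u ^ 2), ← hfin] at h1
    change F.j * (F.j * t) = 1 at h1
    rw [← mul_assoc, F.j_sq, one_mul] at h1
    have h2 := E.ord_t
    rw [h1, orderOf_one] at h2
    omega
  · have h2 : (fixMap G Ω t) ⟨F.u ^ i * E.d ^ e, mul_mem (pow_mem F.uC i) (pow_mem F.dC e)⟩ ^ 2 = 1 := by
      have h3 : (fixMap G Ω t) ⟨F.u ^ i * E.d ^ e, mul_mem (pow_mem F.uC i) (pow_mem F.dC e)⟩ = F.A ^ i * F.D := by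
        rw [show (⟨F.u ^ i * E.d ^ e, _⟩ : ↥(Subgroup.centralizer ({t} : Set G))) = ⟨F.u, F.uC⟩ ^ i * ⟨E.d, F.dC⟩ ^ e from rfl, map_mul,
          map_pow, map_pow, ← F.A_def, ← F.D_def, ← pow_mod_orderOf F.D e, F.ordD, h, pow_one]
      rw [h3, pow_two]
      have e1 : F.D * F.A ^ i * F.D⁻¹ = (F.A ^ i)⁻¹ := by rw [← conj_pow, F.inv, inv_pow]
      rw [inv_eq_self_of_orderOf F.ordD] at e1
      rw [mul_assoc, ← mul_assoc F.D, e1, mul_inv_cancel]
    obtain ⟨r, hr⟩ := F.ker ((F.u ^ i * E.d ^ e) ^ 2)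
      (pow_mem (mul_mem (pow_mem F.uS i) (pow_mem E.dS e)) 2)
      (pow_mem (mul_mem (pow_mem F.uC i) (pow_mem F.dC e)) 2) (by rw [← h2, ← map_pow]; rfl)
    rw [pow_mul, hr, ← pow_mul, ← pow_mul] at hjte
    apply F.j_free E.α
    have h1 := E.d_pow_fix (2 * r * p)
    rw [← mul_assoc] at hjte
    rw [hjte, mul_smul, E.tfix] at h1
    exact h1

end Frame

theorem no_both_aux : ∀ (n : ℕ) {G Ω : Type u} [Group G] [MulAction G Ω] [Finite G] [Finite Ω],
    Ctx G Ω → Nat.card Ω = n → ∀ α : Ω, 4 ∣ n → 4 ∣ Nat.card ↥(stabilizer G α) → False := by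
  intro n
  induction n using Nat.strong_induction_on with
  | _ n IH =>
  intro G Ω _ _ _ _ c hn α h4n h4s
  haveI : Fact (Nat.Prime 2) := ⟨Nat.prime_two⟩
  haveI := c.faith
  obtain ⟨s, hs⟩ := exists_prime_orderOf_dvd_card' (G := ↥(stabilizer G α)) 2
    ((Dvd.intro 2 rfl).trans h4s)
  obtain ⟨t, ht⟩ : ∃ t : G, t = (s : G) := ⟨_, rfl⟩
  have hto : orderOf t = 2 := by rw [ht, Subgroup.orderOf_coe, hs]
  obtain ⟨E, hE⟩ := exists_setup c hto (show t • α = α by rw [ht]; exact s.2)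
  have hDle : 2 ≤ (Nat.card ↥(stabilizer G E.α)).factorization 2 := by
    rw [hE]
    exact (Nat.prime_two.pow_dvd_iff_le_factorization Nat.card_pos.ne').1 (by norm_num; exact h4s)
  have h4d : 4 ∣ orderOf E.d := by
    rw [E.ord_d]
    exact (by norm_num : (4 : ℕ) ∣ 2 ^ 2).trans (pow_dvd_pow 2 hDle)
  -- the fixed set
  obtain ⟨hfev, hf2⟩ := c.two_le_fix hto E.tfix
  have hsum := card_fix_add_moved (Ω := Ω) t
  have hmov : 4 ∣ Nat.card {x : Ω // t • x ≠ x} :=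
    h4d.trans (dvd_moved fun i hi => E.t_mem_of_ne_one hi)
  have h4f : 4 ∣ Nat.card ↥(fixSet G Ω t) := by
    rw [← hn, ← hsum] at h4n
    exact (Nat.dvd_add_left hmov).1 h4n
  have hflt : Nat.card ↥(fixSet G Ω t) < n := by
    by_contra hge
    have h0 : Nat.card {x : Ω // t • x ≠ x} = 0 := by omega
    rw [Nat.card_eq_zero] at h0
    have hone : t = 1 := FaithfulSMul.eq_of_smul_eq_smul (α := Ω) fun x => by
      rw [one_smul]
      by_contra hx
      rcases h0 with h0 | h0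
      · exact h0.false ⟨x, hx⟩
      · exact absurd h0 (not_infinite_iff_finite.2 inferInstance)
    rw [hone, orderOf_one] at hto
    omega
  have cX := E.ctx_fix c
  obtain ⟨v, hv⟩ : ∃ v, (Nat.card ↥(fixSet G Ω t)).factorization 2 = v + 2 :=
    ⟨_, (Nat.sub_add_cancel ((Nat.prime_two.pow_dvd_iff_le_factorization (by omega)).1
      (by norm_num; exact h4f))).symm⟩
  -- the images
  obtain ⟨i₀, hord, hC, hdec⟩ := E.exists_a1 c
  obtain ⟨u, hu⟩ : ∃ u, u = E.a ^ i₀ := ⟨_, rfl⟩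
  simp only [← hu] at hord hC hdec
  rw [hv] at hord
  have husemi : ∀ (i : ℕ) (x : Ω), u ^ i • x = x → u ^ i = 1 := fun i x hx => by
    rw [hu, ← pow_mul] at hx ⊢
    exact E.semi _ x hx
  have hdC : E.d ∈ Subgroup.centralizer ({t} : Set G) :=
    Subgroup.mem_centralizer_singleton_iff.2 E.t_comm.symm.eq
  have huS : u ∈ (E.S : Subgroup G) := hu ▸ pow_mem E.aS _
  set C := Subgroup.centralizer ({t} : Set G) with hCdef
  let P : Sylow 2 ↥C := E.sylowC
  have hP : ∀ z : ↥C, z ∈ (P : Subgroup ↥C) ↔ (z : G) ∈ (E.S : Subgroup G) := fun z => Iff.rfl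
  set φ := (fixHom G Ω t).rangeRestrict with hφdef
  have hφ : Function.Surjective φ := (fixHom G Ω t).rangeRestrict_surjective
  have hφapp : ∀ (z : ↥C) (x : ↥(fixSet G Ω t)), ((φ z • x : ↥(fixSet G Ω t)) : Ω) = (z : G) • (x : Ω) :=
    fun z x => rfl
  have hφ1 : ∀ z : ↥C, φ z = 1 → ∀ x : Ω, t • x = x → (z : G) • x = x := fun z hz x hx => by
    have h := hφapp z ⟨x, hx⟩
    rw [hz, one_smul] at h
    exact h.symm
  set A := φ ⟨u, hC⟩ with hA
  set D := φ ⟨E.d, hdC⟩ with hD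
  set P' := P.mapSurjective hφ with hP'def
  have hdec' : ∀ s ∈ (P' : Subgroup ↥(fixGroup G Ω t)), ∃ i e : ℕ, s = A ^ i * D ^ e := by
    intro s hs
    rw [hP'def, Sylow.coe_mapSurjective] at hs
    obtain ⟨z, hz, rfl⟩ := hs
    obtain ⟨i, e, he⟩ := hdec _ ((hP z).1 hz) z.2
    refine ⟨i, e, ?_⟩
    rw [hA, hD, ← map_pow, ← map_pow, ← map_mul]
    exact congrArg φ (Subtype.ext he)
  have hAP : A ∈ (P' : Subgroup ↥(fixGroup G Ω t)) := by
    rw [hP'def, Sylow.coe_mapSurjective]; exact ⟨_, (hP _).2 huS, rfl⟩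
  have hDP : D ∈ (P' : Subgroup ↥(fixGroup G Ω t)) := by
    rw [hP'def, Sylow.coe_mapSurjective]; exact ⟨_, (hP _).2 E.dS, rfl⟩
  have hAsemi : ∀ (i : ℕ) (x : ↥(fixSet G Ω t)), A ^ i • x = x → A ^ i = 1 := fun i x hx => by
    rw [hA, ← map_pow] at hx ⊢
    have h1 : u ^ i = 1 := husemi i (x : Ω) (congrArg Subtype.val hx)
    rw [show (⟨u, hC⟩ : ↥C) ^ i = 1 from Subtype.ext h1, map_one]
  have hAord : orderOf A = 2 ^ (v + 2) := by
    apply Nat.dvd_antisymm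
    · rw [hA]
      exact (orderOf_map_dvd _ _).trans (by rw [← Subgroup.orderOf_coe]; exact hord.dvd)
    · rw [← hord]
      apply orderOf_dvd_of_pow_eq_one
      refine husemi _ E.α ?_
      have h := hφ1 (⟨u, hC⟩ ^ orderOf A) (by rw [map_pow, ← hA, pow_orderOf_eq_one]) E.α E.tfix
      simpa using h
  set y₀ : ↥(fixSet G Ω t) := ⟨E.α, E.tfix⟩
  have hDy : D • y₀ = y₀ := Subtype.ext E.dfix
  have hXy : ¬ 4 ∣ Nat.card ↥(stabilizer ↥(fixGroup G Ω t) y₀) := fun h =>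
    IH _ hflt cX rfl y₀ h4f h
  have hcardP : Nat.card ↥(P' : Subgroup ↥(fixGroup G Ω t)) =
      2 ^ (v + 2 + (Nat.card ↥(stabilizer ↥(fixGroup G Ω t) y₀)).factorization 2) := by
    rw [P'.card_eq_multiplicity, card_eq cX y₀,
      Nat.factorization_mul (by omega) Nat.card_pos.ne', Finsupp.add_apply, hv]
  have heven : 2 ∣ Nat.card ↥(stabilizer ↥(fixGroup G Ω t) y₀) := by
    by_contra hodd
    rw [Nat.factorization_eq_zero_of_not_dvd hodd, add_zero] at hcardP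
    have hle : Subgroup.zpowers A ≤ (P' : Subgroup ↥(fixGroup G Ω t)) :=
      Subgroup.zpowers_le.2 hAP
    have heq := Subgroup.eq_of_le_of_card_ge hle (by rw [Nat.card_zpowers, hAord, hcardP])
    have hcyc : IsCyclic ↥(P' : Subgroup ↥(fixGroup G Ω t)) := by rw [← heq]; infer_instance
    have h2 : 2 ∣ Nat.card ↥(fixGroup G Ω t) := by
      rw [card_eq cX y₀]
      exact dvd_mul_of_dvd_left (even_iff_two_dvd.1 hfev) _
    obtain ⟨M, hM, hMo, k, hk⟩ := exists_complement_of_isCyclic P' hcyc h2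
    have := card_eq_two cX hM hMo hk
    omega
  have hv1 : (Nat.card ↥(stabilizer ↥(fixGroup G Ω t) y₀)).factorization 2 = 1 := by
    have h1 := (Nat.prime_two.dvd_iff_one_le_factorization Nat.card_pos.ne').1 heven
    by_contra hne
    exact hXy ((by norm_num : (4 : ℕ) ∣ 2 ^ 2).trans
      ((Nat.prime_two.pow_dvd_iff_le_factorization Nat.card_pos.ne').2 (by omega)))
  rw [hv1] at hcardP
  have hDord : orderOf D = 2 := by
    have h1 : orderOf D ∣ 2 ^ (Nat.card ↥(stabilizer G E.α)).factorization 2 := by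
      rw [hD, ← E.ord_d]
      exact (orderOf_map_dvd _ _).trans (by rw [← Subgroup.orderOf_coe])
    obtain ⟨l, -, hl⟩ := (Nat.dvd_prime_pow Nat.prime_two).1 h1
    have h2 : orderOf D ∣ Nat.card ↥(stabilizer ↥(fixGroup G Ω t) y₀) := by
      rw [← Subgroup.orderOf_mk D (show D ∈ stabilizer ↥(fixGroup G Ω t) y₀ from hDy)]
      exact orderOf_dvd_natCard _
    rw [hl, Nat.prime_two.pow_dvd_iff_le_factorization Nat.card_pos.ne', hv1] at h2
    rcases Nat.le_one_iff_eq_zero_or_eq_one.1 h2 with rfl | rfl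
    · exfalso
      rw [pow_zero, orderOf_eq_one_iff] at hl
      have hle : (P' : Subgroup ↥(fixGroup G Ω t)) ≤ Subgroup.zpowers A := by
        intro s hs
        obtain ⟨i, e, rfl⟩ := hdec' s hs
        rw [hl, one_pow, mul_one]
        exact Subgroup.npow_mem_zpowers A i
      have h3 := Subgroup.card_dvd_of_le hle
      rw [Nat.card_zpowers, hAord, hcardP, Nat.pow_dvd_pow_iff_le_right (by norm_num : 1 < 2)] at h3
      omega
    · rw [hl, pow_one]
  have hfD : Nat.card ↥(fixSet ↥(fixGroup G Ω t) ↥(fixSet G Ω t) D) = 2 := by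
    obtain ⟨E', hE'⟩ := exists_setup cX hDord hDy
    refine E'.fix_two_of_ord_two cX ?_
    rw [E'.ord_d, hE', hv1, pow_one]
  obtain ⟨hinv, hclass⟩ := inner_step cX P' hv hAP hDP hAord hAsemi hDord hDy hfD hdec'
  exact Frame.contra (E := E) ⟨v, u, huS, hC, hdC, hord, husemi, hdec, h4d,
    by have := Nat.le_of_dvd (by omega) h4f; omega, hAord, hDord, hinv, hclass⟩ c

/-- The degree and the order of a stabiliser are not both divisible by four. -/
theorem no_both {G Ω : Type u} [Group G] [MulAction G Ω] [Finite G] [Finite Ω] (c : Ctx G Ω)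
    (α : Ω) (h1 : 4 ∣ Nat.card Ω) (h2 : 4 ∣ Nat.card ↥(stabilizer G α)) : False :=
  no_both_aux _ c rfl α h1 h2

/-- An involution with a fixed point fixes exactly two points. -/
theorem fix_two {G Ω : Type u} [Group G] [MulAction G Ω] [Finite G] [Finite Ω] (c : Ctx G Ω)
    {t : G} (ht : orderOf t = 2) {α : Ω} (hα : t • α = α) :
    Nat.card ↥(fixSet G Ω t) = 2 := by
  obtain ⟨E, hE⟩ := exists_setup c ht hα
  have h2 : 2 ∣ orderOf E.d := by
    rw [← E.ord_t]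
    exact orderOf_dvd_of_mem_zpowers E.t_mem
  by_cases h4 : 4 ∣ orderOf E.d
  · refine E.fix_two_of_four_not_dvd c ?_ h4
    have hpos : 1 ≤ (Nat.card Ω).factorization 2 :=
      (Nat.prime_two.dvd_iff_one_le_factorization (by have := c.two_le; omega)).1
        (even_iff_two_dvd.1 c.even)
    by_contra hne
    refine no_both c E.α ?_ ((h4.trans (E.ord_d ▸ Nat.ordProj_dvd _ _)))
    exact (by norm_num : (4 : ℕ) ∣ 2 ^ 2).trans
      ((Nat.prime_two.pow_dvd_iff_le_factorization (by have := c.two_le; omega)).2 (by omega))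
  · refine E.fix_two_of_ord_two c ?_
    rw [E.ord_d] at h2 h4 ⊢
    rcases lt_trichotomy ((Nat.card ↥(stabilizer G E.α)).factorization 2) 1 with h | h | h
    · rw [Nat.lt_one_iff.1 h] at h2
      norm_num at h2
    · rw [h, pow_one]
    · exact absurd ((by norm_num : (4 : ℕ) ∣ 2 ^ 2).trans (pow_dvd_pow 2 h)) h4

end CfsgLib.CycZ75
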