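import Mathlib
import Cfsg.Agent.CycZGroup75.NoBoth

/-!
The point stabiliser: a cyclic regular normal subgroup of odd order inverted by involutions, and
the number of involutions exchanging two given points.
-/

set_option autoImplicit false
set_option linter.style.haveILetI false
set_option linter.unusedSectionVars false

namespace CfsgLib.CycZ75

open MulAction
open scoped commutatorElement

universe u

/-- A unit modulo a product of two coprime numbers, both larger than two, has small order. -/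
theorem two_mul_orderOf_le_totient {a b m : ℕ} (hm : m = a * b) (ha : 2 < a) (hb : 2 < b)
    (hab : a.Coprime b) (u : (ZMod m)ˣ) : 2 * orderOf u ≤ m.totient := by
  subst hm
  haveI : NeZero (a * b) := ⟨by positivity⟩
  obtain ⟨r, hr⟩ := Nat.totient_even ha
  obtain ⟨q, hq⟩ := Nat.totient_even hb
  have hx : Nat.Coprime (u : ZMod (a * b)).val (a * b) := ZMod.val_coe_unit_coprime u
  have hA : (u : ZMod (a * b)).val ^ (a.totient * q) ≡ 1 [MOD a] := by
    rw [pow_mul]
    simpa using (Nat.ModEq.pow_totient (hx.coprime_dvd_right (dvd_mul_right a b))).pow q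
  have hB : (u : ZMod (a * b)).val ^ (a.totient * q) ≡ 1 [MOD b] := by
    rw [show a.totient * q = b.totient * r by rw [hr, hq]; ring, pow_mul]
    simpa using (Nat.ModEq.pow_totient (hx.coprime_dvd_right (dvd_mul_left b a))).pow r
  have hone : u ^ (a.totient * q) = 1 := Units.ext (by
    have h := (ZMod.natCast_eq_natCast_iff _ _ _).2
      ((Nat.modEq_and_modEq_iff_modEq_mul hab).1 ⟨hA, hB⟩)
    push_cast at h
    rw [ZMod.natCast_zmod_val] at h
    simpa using h)
  have hpos : 0 < a.totient * q := by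
    have := Nat.totient_pos.2 (show 0 < b by omega)
    exact Nat.mul_pos (Nat.totient_pos.2 (by omega)) (by omega)
  calc 2 * orderOf u ≤ 2 * (a.totient * q) :=
        Nat.mul_le_mul_left 2 (Nat.le_of_dvd hpos (orderOf_dvd_of_pow_eq_one hone))
    _ = (a * b).totient := by rw [Nat.totient_mul hab, hq]; ring

/-- If an odd number has a unit of coprime order at least half of it then it is prime. -/
theorem prime_of_orderOf {m : ℕ} (hm : Odd m) (h3 : 3 ≤ m) (u : (ZMod m)ˣ)
    (hcop : (orderOf u).Coprime m) (hbig : m - 1 ≤ 2 * orderOf u) : m.Prime := by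
  by_contra hnp
  haveI : NeZero m := ⟨by omega⟩
  obtain ⟨p, hp⟩ : ∃ p, p = m.minFac := ⟨_, rfl⟩
  have hpp : p.Prime := hp ▸ Nat.minFac_prime (by omega)
  have hpm : p ∣ m := hp ▸ Nat.minFac_dvd m
  have hp3 : 3 ≤ p := by
    have h2 := hpp.two_le
    by_contra hlt
    obtain rfl : p = 2 := by omega
    exact Nat.not_even_iff_odd.2 hm (even_iff_two_dvd.2 hpm)
  obtain ⟨k, hk⟩ : ∃ k, k = m.factorization p := ⟨_, rfl⟩
  have hk1 : 1 ≤ k := hk ▸ (hpp.dvd_iff_one_le_factorization (by omega)).1 hpm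
  obtain ⟨b, hb⟩ : ∃ b, b = m / p ^ k := ⟨_, rfl⟩
  have hmab : m = p ^ k * b := by
    rw [hb, hk, Nat.mul_div_cancel' (Nat.ordProj_dvd m p)]
  have hcard : orderOf u ∣ m.totient := by
    rw [← ZMod.card_units_eq_totient m, ← Nat.card_eq_fintype_card]
    exact orderOf_dvd_natCard u
  by_cases hb1 : b = 1
  · rw [hb1, mul_one] at hmab
    have hk2 : 2 ≤ k := by
      by_contra hlt
      rw [show k = 1 by omega, pow_one] at hmab
      exact hnp (hmab ▸ hpp)
    rw [congrArg Nat.totient hmab, Nat.totient_prime_pow hpp (by omega)] at hcard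
    have hd : orderOf u ∣ p - 1 :=
      (Nat.Coprime.pow_right _ (hcop.coprime_dvd_right hpm)).dvd_of_dvd_mul_left hcard
    have h1 := Nat.le_of_dvd (by omega) hd
    have h2 : p ^ 2 ≤ p ^ k := Nat.pow_le_pow_right (by omega) hk2
    have h4 : 3 * p ≤ p ^ 2 := by rw [pow_two]; exact Nat.mul_le_mul_right p hp3
    omega
  · have hbo : Odd b := by
      rw [hmab] at hm
      exact (Nat.odd_mul.1 hm).2
    have hb3 : 2 < b := by
      obtain ⟨r, hr⟩ := hbo
      omega
    have ha3 : 2 < p ^ k := lt_of_lt_of_le (by omega : 2 < p) (Nat.le_self_pow (by omega) p)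
    have hco : (p ^ k).Coprime b := by
      refine Nat.Coprime.pow_left _ ?_
      rw [hb, hk]
      exact Nat.coprime_ordCompl hpp (by omega)
    have h1 := two_mul_orderOf_le_totient hmab ha3 hb3 hco u
    have h2 := Nat.totient_lt m (by omega)
    have h3' : m.totient ≠ m - 1 := fun h => hnp ((Nat.totient_eq_iff_prime (by omega)).1 h)
    omega

/-- In a cyclic subgroup an element killed by the order of another is among its powers. -/
theorem mem_zpowers_of_isCyclic {G : Type*} [Group G] [Finite G] {N : Subgroup G} [IsCyclic N]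
    {z w : G} (hz : z ∈ N) (hw : w ∈ N) (h : w ^ orderOf z = 1) : w ∈ Subgroup.zpowers z := by
  letI : CommGroup N := IsCyclic.commGroup
  let K : Subgroup N := (powMonoidHom (orderOf z) : N →* N).ker
  obtain ⟨x, hx⟩ := (inferInstance : IsCyclic K).exists_generator
  have hzK : (⟨z, hz⟩ : N) ∈ K :=
    MonoidHom.mem_ker.2 (Subtype.ext (by simp [pow_orderOf_eq_one]))
  have hwK : (⟨w, hw⟩ : N) ∈ K := MonoidHom.mem_ker.2 (Subtype.ext (by simpa using h))
  have hle : Subgroup.zpowers (⟨z, hz⟩ : N) ≤ K := Subgroup.zpowers_le.2 hzK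
  have hcard : Nat.card K ≤ orderOf z := by
    rw [← orderOf_eq_card_of_forall_mem_zpowers hx]
    refine Nat.le_of_dvd (orderOf_pos z) (orderOf_dvd_of_pow_eq_one (Subtype.ext ?_))
    simpa using MonoidHom.mem_ker.1 x.2
  have heq := Subgroup.eq_of_le_of_card_ge hle
    (by rw [Nat.card_zpowers, ← Subgroup.orderOf_coe]; exact hcard)
  rw [← heq] at hwK
  obtain ⟨i, hi⟩ := Subgroup.mem_zpowers_iff.1 hwK
  exact Subgroup.mem_zpowers_iff.2 ⟨i, by simpa using congrArg Subtype.val hi⟩

variable {G : Type u} {Ω : Type u} [Group G] [MulAction G Ω] [Finite G] [Finite Ω]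

/-- A nonsolvable such group has degree above two. -/
theorem two_lt (c : Ctx G Ω) (hns : ¬ Group.IsSolvable G) : 2 < Nat.card Ω := by
  by_contra h
  have h2 : Nat.card Ω = 2 := by have := c.two_le; omega
  haveI : Fintype Ω := Fintype.ofFinite Ω
  classical
  haveI := c.faith
  have hcard : Nat.card G ∣ 2 := by
    have h1 := Subgroup.card_dvd_of_injective (toPermHom G Ω) fun g g' e =>
      FaithfulSMul.eq_of_smul_eq_smul (α := Ω) fun x => congrArg (fun σ : Equiv.Perm Ω => σ x) e
    rwa [Nat.card_eq_fintype_card (α := Equiv.Perm Ω), Fintype.card_perm, ← Nat.card_eq_fintype_card,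
      h2] at h1
  refine hns ?_
  rcases (Nat.dvd_prime Nat.prime_two).1 hcard with h1 | h1
  · haveI : Subsingleton G := (Nat.card_eq_one_iff_unique.1 h1).1
    exact Group.isSolvable_of_comm fun a b => Subsingleton.elim _ _
  · haveI : Fact (Nat.Prime 2) := ⟨Nat.prime_two⟩
    haveI := isCyclic_of_prime_card h1
    exact Group.isSolvable_of_comm fun a b => IsCyclic.commGroup.mul_comm a b

/-- A point stabiliser has even order. -/
theorem two_dvd_stabilizer (c : Ctx G Ω) (h2 : 2 < Nat.card Ω) (α : Ω) :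
    2 ∣ Nat.card ↥(stabilizer G α) := by
  by_contra hodd
  haveI : Fact (Nat.Prime 2) := ⟨Nat.prime_two⟩
  obtain ⟨a, ha, -⟩ := c.semi
  obtain ⟨P, hP⟩ := (IsPGroup.of_card (G := ↥(Subgroup.zpowers a))
    (by rw [Nat.card_zpowers, ha])).exists_le_sylow
  have heq := Subgroup.eq_of_le_of_card_ge hP (by
    rw [P.card_eq_multiplicity, Nat.card_zpowers, ha, card_eq c α, Nat.factorization_mul (by omega)
      Nat.card_pos.ne', Finsupp.add_apply, Nat.factorization_eq_zero_of_not_dvd hodd, add_zero])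
  have hcyc : IsCyclic ↥(P : Subgroup G) := by rw [← heq]; infer_instance
  obtain ⟨M, hM, hMo, k, hk⟩ := exists_complement_of_isCyclic P hcyc (by
    rw [card_eq c α]
    exact dvd_mul_of_dvd_left (even_iff_two_dvd.1 c.even) _)
  have := card_eq_two c hM hMo hk
  omega

/-- Every involution with a fixed point is conjugate to any other. -/
theorem conj_of_fix (c : Ctx G Ω) {s t : G} {x α : Ω} (hs : orderOf s = 2) (hx : s • x = x)
    (ht : orderOf t = 2) (hα : t • α = α) : ∃ g : G, g * t * g⁻¹ = s := by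
  haveI := pretransitive c
  obtain ⟨g, hg⟩ := exists_smul_eq G x α
  haveI := c.zgrp α
  obtain ⟨k, hk⟩ := exists_conj_of_isZGroup (G := ↥(stabilizer G α))
    (s := ⟨t, hα⟩) (t := ⟨g * s * g⁻¹, by
      change (g * s * g⁻¹) • α = α
      rw [← hg, mul_smul, inv_smul_smul, mul_smul, hx]⟩)
    ((Subgroup.orderOf_coe _).symm.trans ht)
    ((Subgroup.orderOf_coe _).symm.trans
      ((orderOf_injective (MulAut.conj g).toMonoidHom (MulAut.conj g).injective s).trans hs))
  have hk' : (k : G) * t * (k : G)⁻¹ = g * s * g⁻¹ := congrArg Subtype.val hk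
  refine ⟨g⁻¹ * k, ?_⟩
  calc g⁻¹ * (k : G) * t * (g⁻¹ * (k : G))⁻¹ = g⁻¹ * ((k : G) * t * (k : G)⁻¹) * g := by group
    _ = s := by rw [hk']; group

/-- The structure of a point stabiliser. -/
structure Core (G : Type u) (Ω : Type u) [Group G] [MulAction G Ω] (α β : Ω) (t : G) where
  N : Subgroup G
  ord_t : orderOf t = 2
  ne : α ≠ β
  tα : t • α = α
  tβ : t • β = β
  Nle : N ≤ stabilizer G α
  cardN : Nat.card N = Nat.card Ω - 1
  cyc : IsCyclic N
  norm : ∀ g ∈ stabilizer G α, ∀ k ∈ N, g * k * g⁻¹ ∈ N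
  free : ∀ k ∈ N, ∀ y : Ω, y ≠ α → k • y = y → k = 1
  reg : ∀ y : Ω, y ≠ α → ∃ k ∈ N, k • β = y
  card_stab : Nat.card ↥(stabilizer G α) =
    (Nat.card Ω - 1) * Nat.card ↥(stabilizer G α ⊓ stabilizer G β : Subgroup G)
  cop : Nat.Coprime (Nat.card Ω - 1) (Nat.card ↥(stabilizer G α ⊓ stabilizer G β : Subgroup G))
  dcyc : IsCyclic ↥(stabilizer G α ⊓ stabilizer G β : Subgroup G)
  inv : ∀ k ∈ N, t * k * t⁻¹ = k⁻¹
  faith : ∀ x ∈ stabilizer G α ⊓ stabilizer G β, (∀ k ∈ N, x * k = k * x) → x = 1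
  count : Nat.card {s : G // orderOf s = 2 ∧ s • α = α} = Nat.card Ω - 1

/-- The second fixed point of an involution with a fixed point. -/
theorem exists_other_fix (c : Ctx G Ω) {t : G} (ht : orderOf t = 2) {α : Ω} (hα : t • α = α) :
    ∃ β, α ≠ β ∧ t • β = β ∧ ∀ y : Ω, t • y = y → y = α ∨ y = β := by
  have h2 := fix_two c ht hα
  obtain ⟨y, hy⟩ := ((Nat.card_eq_two_iff' (⟨α, hα⟩ : ↥(fixSet G Ω t))).1 h2).exists
  refine ⟨y, fun e => hy (Subtype.ext e.symm), y.2, fun z hz => ?_⟩
  by_cases hzα : z = α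
  · exact Or.inl hzα
  refine Or.inr ?_
  obtain ⟨y', hy', huniq⟩ := (Nat.card_eq_two_iff' (⟨α, hα⟩ : ↥(fixSet G Ω t))).1 h2
  have e1 := huniq ⟨z, hz⟩ (fun e => hzα (congrArg Subtype.val e))
  have e2 := huniq y hy
  exact congrArg Subtype.val (e1.trans e2.symm)

theorem exists_core (c : Ctx G Ω) (h2 : 2 < Nat.card Ω) {t : G} (ht : orderOf t = 2) {α β : Ω}
    (hα : t • α = α) (hβ : t • β = β) (hαβ : α ≠ β) : Nonempty (Core G Ω α β t) := by
  classical
  haveI := c.zgrp α
  haveI := c.faith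
  haveI := pretransitive c
  obtain ⟨H, hH⟩ : ∃ H, H = stabilizer G α := ⟨_, rfl⟩
  haveI : IsZGroup H := hH ▸ c.zgrp α
  set N : Subgroup G := (commutator H).map H.subtype with hN
  have hNle : N ≤ H := Subgroup.map_subtype_le _
  haveI hcyc : IsCyclic N := by
    haveI := IsZGroup.isCyclic_commutator (G := H)
    exact ((commutator H).equivMapOfInjective H.subtype H.subtype_injective).isCyclic.1 inferInstance
  have hnorm : ∀ g ∈ H, ∀ k ∈ N, g * k * g⁻¹ ∈ N := by
    rintro g hg _ ⟨k, hk, rfl⟩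
    exact ⟨⟨g, hg⟩ * k * ⟨g, hg⟩⁻¹, (inferInstance : (commutator H).Normal).conj_mem k hk _,
      by simp⟩
  have htrans : ∀ y z : Ω, y ≠ α → z ≠ α → ∃ g ∈ H, g • y = z := fun y z hy hz => by
    obtain ⟨g, hg1, hg2⟩ := c.pair α y α z hy.symm hz.symm
    exact ⟨g, hH ▸ hg1, hg2⟩
  have hfree : ∀ k ∈ N, ∀ y : Ω, y ≠ α → k • y = y → k = 1 := by
    intro k hk y hy hky
    refine FaithfulSMul.eq_of_smul_eq_smul (α := Ω) fun z => ?_
    rw [one_smul]
    by_cases hz : z = α
    · subst hz
      exact (hH ▸ hNle hk : k ∈ stabilizer G z)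
    obtain ⟨g, hg, rfl⟩ := htrans y z hy hz
    have hmem : g⁻¹ * k * g ∈ N := by simpa using hnorm g⁻¹ (inv_mem hg) k hk
    have hp : (g⁻¹ * k * g) ^ orderOf k = 1 := by
      have := conj_pow (i := orderOf k) (a := g⁻¹) (b := k)
      rw [inv_inv] at this
      rw [this, pow_orderOf_eq_one, mul_one, inv_mul_cancel]
    have hstab : g⁻¹ * k * g ∈ stabilizer G y :=
      Subgroup.zpowers_le.2 (mem_stabilizer_iff.2 hky) (mem_zpowers_of_isCyclic hk hmem hp)
    rw [mem_stabilizer_iff, mul_smul, mul_smul, inv_smul_eq_iff] at hstab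
    exact hstab
  -- involutions in `H`
  have hconj : ∀ g ∈ H, g * t * g⁻¹ * t ∈ N := by
    intro g hg
    refine ⟨⁅(⟨g, hg⟩ : H), ⟨t, hH ▸ hα⟩⁆,
      Subgroup.commutator_mem_commutator (Subgroup.mem_top _) (Subgroup.mem_top _), ?_⟩
    simp [commutatorElement_def, inv_eq_self_of_orderOf ht]
  have hexists : ∀ y : {y : Ω // y ≠ α}, ∃ g ∈ H, g • β = (y : Ω) := fun y =>
    htrans β y hαβ.symm y.2
  choose gy hgy hgyβ using hexists
  let f : {y : Ω // y ≠ α} → {s : G // orderOf s = 2 ∧ s • α = α} := fun y =>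
    ⟨gy y * t * (gy y)⁻¹,
      (orderOf_injective (MulAut.conj (gy y)).toMonoidHom (MulAut.conj (gy y)).injective t).trans ht,
      by
        have h1 : gy y • α = α := mem_stabilizer_iff.1 (hH ▸ hgy y)
        rw [mul_smul, inv_smul_eq_iff.2 h1.symm, mul_smul, hα, h1]⟩
  have hffix : ∀ y : {y : Ω // y ≠ α}, (f y : G) • (y : Ω) = y := fun y => by
    change (gy y * t * (gy y)⁻¹) • (y : Ω) = y
    rw [← hgyβ y, mul_smul, inv_smul_smul, mul_smul, hβ]
  have hf : Function.Injective f := by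
    intro y y' e
    obtain ⟨γ, -, -, hγ⟩ := exists_other_fix c (f y).2.1 (f y).2.2
    have h1 := (hγ y (hffix y)).resolve_left y.2
    have h3 := (hγ y' (by rw [e]; exact hffix y')).resolve_left y'.2
    exact Subtype.ext (h1.trans h3.symm)
  let f2 : {s : G // orderOf s = 2 ∧ s • α = α} → N := fun s => ⟨(s : G) * t, by
    obtain ⟨g, hg⟩ := exists_conj_of_isZGroup (G := H)
      (s := ⟨t, hH ▸ hα⟩) (t := ⟨(s : G), hH ▸ s.2.2⟩) ((Subgroup.orderOf_coe _).symm.trans ht)
      ((Subgroup.orderOf_coe _).symm.trans s.2.1)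
    have hg' : (g : G) * t * (g : G)⁻¹ = s := congrArg Subtype.val hg
    rw [← hg']
    exact hconj g g.2⟩
  have hf2 : Function.Injective f2 := fun s s' e =>
    Subtype.ext (mul_right_cancel (congrArg Subtype.val e))
  let f3 : N → {y : Ω // y ≠ α} := fun k => ⟨(k : G) • β, fun e => hαβ (smul_left_cancel (k : G)
    ((show (k : G) • α = α from mem_stabilizer_iff.1 (hH ▸ hNle k.2)).trans e.symm))⟩
  have hf3 : Function.Injective f3 := by
    intro k k' e
    have e' : (k : G) • β = (k' : G) • β := congrArg Subtype.val e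
    have := hfree _ (mul_mem (inv_mem k'.2) k.2) β hαβ.symm
      (by rw [mul_smul, e', inv_smul_smul])
    exact Subtype.ext (inv_mul_eq_one.1 this).symm
  have hcy : Nat.card {y : Ω // y ≠ α} = Nat.card Ω - 1 := by
    haveI := Fintype.ofFinite Ω
    rw [Nat.card_eq_fintype_card, Nat.card_eq_fintype_card, Fintype.card_subtype_compl,
      Fintype.card_subtype_eq]
  have l1 := Nat.card_le_card_of_injective f hf
  have l2 := Nat.card_le_card_of_injective f2 hf2
  have l3 := Nat.card_le_card_of_injective f3 hf3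
  rw [hcy] at l1 l3
  have hcN : Nat.card N = Nat.card Ω - 1 := by omega
  have b2 : Function.Bijective f2 :=
    (Nat.bijective_iff_injective_and_card _).2 ⟨hf2, by omega⟩
  have b3 : Function.Bijective f3 :=
    (Nat.bijective_iff_injective_and_card _).2 ⟨hf3, by rw [hcN, hcy]⟩
  have hreg : ∀ y : Ω, y ≠ α → ∃ k ∈ N, k • β = y := fun y hy => by
    obtain ⟨k, hk⟩ := b3.2 ⟨y, hy⟩
    exact ⟨k, k.2, congrArg Subtype.val hk⟩
  set D : Subgroup G := stabilizer G α ⊓ stabilizer G β with hD
  have hDH : D ≤ H := hH ▸ inf_le_left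
  have hND : ∀ k ∈ N, k ∈ D → k = 1 := fun k hk hkD =>
    hfree k hk β hαβ.symm (mem_stabilizer_iff.1 hkD.2)
  have hcardH : Nat.card H = (Nat.card Ω - 1) * Nat.card D := by
    rw [← hcN, ← Nat.card_prod]
    refine (Nat.card_eq_of_bijective (fun p : N × D =>
      (⟨(p.1 : G) * p.2, mul_mem (hNle p.1.2) (hDH p.2.2)⟩ : H)) ⟨?_, ?_⟩).symm
    · rintro ⟨k, x⟩ ⟨k', x'⟩ e
      have e' : (k : G) * x = k' * x' := congrArg Subtype.val e
      have hk1 : ((k' : G)⁻¹ * k) = x' * (x : G)⁻¹ := by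
        rw [eq_mul_inv_iff_mul_eq, mul_assoc, e', inv_mul_cancel_left]
      have h1 := hND _ (mul_mem (inv_mem k'.2) k.2) (hk1 ▸ mul_mem x'.2 (inv_mem x.2))
      have hk : k = k' := Subtype.ext (inv_mul_eq_one.1 h1).symm
      subst hk
      exact Prod.ext rfl (Subtype.ext (mul_left_cancel e'))
    · intro h
      have hhα : (h : G) • α = α := mem_stabilizer_iff.1 (hH ▸ h.2)
      obtain ⟨k, hk, hkβ⟩ := hreg ((h : G) • β) fun e => hαβ
        (smul_left_cancel (h : G) (hhα.trans e.symm))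
      refine ⟨(⟨k, hk⟩, ⟨k⁻¹ * h, ?_, ?_⟩), Subtype.ext (mul_inv_cancel_left k (h : G))⟩
      · exact (hH ▸ (mul_mem (inv_mem (hNle hk)) h.2 : k⁻¹ * (h : G) ∈ H) :
          k⁻¹ * (h : G) ∈ stabilizer G α)
      · change (k⁻¹ * (h : G)) • β = β
        rw [mul_smul, ← hkβ, inv_smul_smul]
  refine ⟨{ N := N, ord_t := ht, ne := hαβ, tα := hα, tβ := hβ, Nle := hH ▸ hNle, cardN := hcN
            cyc := hcyc, norm := hH ▸ hnorm, free := hfree, reg := hreg
            card_stab := (congrArg (fun K : Subgroup G => Nat.card K) hH).symm.trans hcardH, cop := ?_, dcyc := ?_, inv := ?_, faith := ?_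
            count := by omega }⟩
  · have h1 := IsZGroup.coprime_commutator_index (G := H)
    have hc : Nat.card (commutator H) = Nat.card N :=
      Nat.card_congr ((commutator H).equivMapOfInjective H.subtype H.subtype_injective).toEquiv
    have h3 := (commutator H).card_mul_index
    rw [hc, hcN, hcardH] at h3
    rw [hc, hcN, Nat.eq_of_mul_eq_mul_left (by omega) h3] at h1
    exact h1
  · refine isCyclic_of_injective ((Abelianization.of).comp (Subgroup.inclusion hDH)) ?_
    rw [injective_iff_map_eq_one]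
    intro x hx
    rw [MonoidHom.comp_apply, ← MonoidHom.mem_ker, Abelianization.ker_of] at hx
    exact Subtype.ext (hND x ⟨_, hx, rfl⟩ x.2)
  · intro k hk
    obtain ⟨s, hs⟩ := b2.2 ⟨k, hk⟩
    have hk' : (s : G) * t = k := congrArg Subtype.val hs
    rw [← hk', mul_inv_rev, inv_eq_self_of_orderOf ht, inv_eq_self_of_orderOf s.2.1,
      mul_assoc, mul_assoc, mul_self_of_orderOf ht, mul_one]
  · intro x hx hcomm
    refine FaithfulSMul.eq_of_smul_eq_smul (α := Ω) fun z => ?_
    rw [one_smul]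
    by_cases hz : z = α
    · subst hz
      exact mem_stabilizer_iff.1 hx.1
    obtain ⟨k, hk, rfl⟩ := hreg z hz
    rw [← mul_smul, hcomm k hk, mul_smul, mem_stabilizer_iff.1 hx.2]

/-- Involutions with fixed points sending `x` to `y`. -/
noncomputable def swaps (G : Type u) {Ω : Type u} [Group G] [MulAction G Ω] (x y : Ω) : ℕ :=
  Nat.card {s : G // orderOf s = 2 ∧ (∃ z : Ω, s • z = z) ∧ s • x = y}

theorem swaps_smul (g : G) (x y : Ω) : swaps G (g • x) (g • y) = swaps G x y := by
  refine (Nat.card_congr (Equiv.subtypeEquiv (MulAut.conj g).toEquiv fun s => ?_)).symm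
  have h1 : orderOf (g * s * g⁻¹) = orderOf s :=
    orderOf_injective (MulAut.conj g).toMonoidHom (MulAut.conj g).injective s
  change _ ↔ orderOf (g * s * g⁻¹) = 2 ∧ _ ∧ (g * s * g⁻¹) • g • x = g • y
  rw [h1, mul_smul (g * s) g⁻¹, inv_smul_smul, mul_smul, smul_left_cancel_iff]
  refine and_congr_right fun _ => and_congr_left fun _ => ⟨?_, ?_⟩
  · rintro ⟨z, hz⟩
    refine ⟨g • z, ?_⟩
    change (g * s * g⁻¹) • g • z = g • z
    rw [mul_smul, inv_smul_smul, mul_smul, hz]
  · rintro ⟨z, hz⟩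
    refine ⟨g⁻¹ • z, ?_⟩
    change (g * s * g⁻¹) • z = z at hz
    rw [mul_smul, mul_smul, smul_eq_iff_eq_inv_smul] at hz
    exact hz

/-- Exactly `(n - 2) / 2` involutions with fixed points exchange two given points. -/
theorem two_mul_swaps (c : Ctx G Ω) (h2 : 2 < Nat.card Ω) {α β : Ω} {t : G}
    (E : Core G Ω α β t) : 2 + 2 * swaps G α β = Nat.card Ω := by
  classical
  haveI := Fintype.ofFinite Ω
  haveI := Fintype.ofFinite G
  haveI := pretransitive c
  obtain ⟨S, hS⟩ : ∃ S : Finset G, S =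
      Finset.univ.filter (fun s : G => orderOf s = 2 ∧ ∃ z : Ω, s • z = z) := ⟨_, rfl⟩
  have hmem : ∀ s, s ∈ S ↔ orderOf s = 2 ∧ ∃ z : Ω, s • z = z := fun s => by simp [hS]
  have hcount : ∀ x y : Ω, (S.filter fun s => s • x = y).card = swaps G x y := by
    intro x y
    rw [swaps, Nat.card_eq_fintype_card, Fintype.card_subtype, hS, Finset.filter_filter]
    simp only [and_assoc]
  have hdiag : ∀ x : Ω, swaps G x x = Nat.card Ω - 1 := by
    intro x
    obtain ⟨g, hg⟩ := exists_smul_eq G α x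
    rw [← hg, swaps_smul, ← E.count]
    exact Nat.card_congr (Equiv.subtypeEquivRight fun s =>
      ⟨fun h => ⟨h.1, h.2.2⟩, fun h => ⟨h.1, ⟨α, h.2⟩, h.2⟩⟩)
  have hoff : ∀ y : Ω, y ≠ α → swaps G α y = swaps G α β := by
    intro y hy
    obtain ⟨g, hg1, hg2⟩ := c.pair α β α y E.ne hy.symm
    conv_lhs => rw [← hg1, ← hg2]
    exact swaps_smul g α β
  have hfix : 2 * S.card = Nat.card Ω * (Nat.card Ω - 1) := by
    calc 2 * S.card = ∑ s ∈ S, (Finset.univ.filter fun x : Ω => s • x = x).card := by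
          rw [mul_comm, ← smul_eq_mul, ← Finset.sum_const]
          refine Finset.sum_congr rfl fun s hs => ?_
          obtain ⟨hs1, z, hz⟩ := (hmem s).1 hs
          rw [← fix_two c hs1 hz, ← Fintype.card_subtype, ← Nat.card_eq_fintype_card]
          exact Nat.card_congr (Equiv.refl _)
      _ = ∑ x : Ω, (S.filter fun s => s • x = x).card := by
          simp only [Finset.card_filter]
          exact Finset.sum_comm
      _ = Nat.card Ω * (Nat.card Ω - 1) := by
          simp only [hcount, hdiag, Finset.sum_const, Finset.card_univ, smul_eq_mul,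
            Nat.card_eq_fintype_card]
  have htot : S.card = (Nat.card Ω - 1) + (Nat.card Ω - 1) * swaps G α β := by
    rw [Finset.card_eq_sum_card_fiberwise (f := fun s => s • α) (t := Finset.univ)
      (fun s _ => Finset.mem_coe.2 (Finset.mem_univ _)),
      ← Finset.add_sum_erase _ _ (Finset.mem_univ α)]
    simp only [hcount]
    rw [hdiag, Finset.sum_congr rfl fun y hy => hoff y (Finset.ne_of_mem_erase hy),
      Finset.sum_const, Finset.card_erase_of_mem (Finset.mem_univ α), Finset.card_univ,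
      smul_eq_mul, Nat.card_eq_fintype_card]
  have : Nat.card Ω * (Nat.card Ω - 1) = (2 + 2 * swaps G α β) * (Nat.card Ω - 1) := by
    rw [← hfix, htot]; ring
  exact (Nat.eq_of_mul_eq_mul_right (by omega) this).symm

end CfsgLib.CycZ75
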