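import Mathlib
import Cfsg.Agent.CycZGroup75.Stab
import Cfsg.Agent.S0144
import Cfsg.Agent.ZassAbelian.PrimePlusOne
import Cfsg.Agent.ZassAbelian.Final

/-!
A nonsolvable group satisfying the hypotheses is `PGL₂(p)` on the projective line.
-/

set_option autoImplicit false
set_option linter.style.haveILetI false
set_option linter.unusedSectionVars false

namespace CfsgLib.CycZ75

open MulAction
open scoped MatrixGroups

universe u

/-- What is proved about such a group. -/
structure Shape (G : Type u) (Ω : Type u) [Group G] [MulAction G Ω] (p : ℕ) : Prop where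
  prime : p.Prime
  five : 5 ≤ p
  cardΩ : Nat.card Ω = p + 1
  cardG : Nat.card G = (p + 1) * p * (p - 1)
  iso : ∃ (K : Type) (_ : Field K) (_ : Fintype K), Fintype.card K = p ∧ Nonempty (G ≃* PGL(2, K))
  normal_sub : ∀ Y : Subgroup G, Y.Normal → ¬ Group.IsSolvable Y →
    Y.index ≤ 2 ∧ Nat.card (Sylow p Y) = p + 1 ∧
      ∀ x : Ω, ∃ P : Subgroup G, P ≤ Y ∧ Nat.card P = p ∧
        ∀ h ∈ stabilizer G x, ∀ z ∈ P, h * z * h⁻¹ ∈ P

variable {G : Type u} {Ω : Type u} [Group G] [MulAction G Ω] [Finite G] [Finite Ω]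
  {α β : Ω} {t : G}

/-- An involution exchanging two points inverts its product with another one. -/
theorem conj_swap_mul {w s : G} (hw : w * w = 1) (hs : s * s = 1) :
    w * (w * s) * w⁻¹ = (w * s)⁻¹ := by
  rw [mul_inv_rev, inv_eq_of_mul_eq_one_left hw, inv_eq_of_mul_eq_one_left hs, ← mul_assoc, hw,
    one_mul]

theorem swap_mul_mem {w s : G} (hw2 : w * w = 1) (hs2 : s * s = 1) (hw : w • α = β)
    (hs : s • α = β) : w * s ∈ stabilizer G α ⊓ stabilizer G β := by
  have hw' : w • β = α := by rw [← hw, ← mul_smul, hw2, one_smul]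
  have hs' : s • β = α := by rw [← hs, ← mul_smul, hs2, one_smul]
  exact ⟨by change (w * s) • α = α; rw [mul_smul, hs, hw'],
    by change (w * s) • β = β; rw [mul_smul, hs', hw]⟩

namespace Core

variable (E : Core G Ω α β t)

include E

theorem tD : t ∈ stabilizer G α ⊓ stabilizer G β := ⟨E.tα, E.tβ⟩

theorem two_dvd_D : 2 ∣ Nat.card ↥(stabilizer G α ⊓ stabilizer G β : Subgroup G) := by
  rw [← E.ord_t, ← Subgroup.orderOf_mk t E.tD]
  exact orderOf_dvd_natCard _

theorem exists_swapper (c : Ctx G Ω) (h2 : 2 < Nat.card Ω) :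
    ∃ w : G, orderOf w = 2 ∧ (∃ z : Ω, w • z = z) ∧ w • α = β := by
  have h := two_mul_swaps c h2 E
  have hpos : 0 < swaps G α β := by omega
  obtain ⟨⟨w, hw⟩⟩ := (Nat.card_pos_iff.1 hpos).1
  exact ⟨w, hw⟩

theorem swaps_le (c : Ctx G Ω) (h2 : 2 < Nat.card Ω) (T : Subgroup G)
    (hT : ∀ w s : G, orderOf w = 2 → orderOf s = 2 → (∃ z : Ω, w • z = z) → (∃ z : Ω, s • z = z) →
      w • α = β → s • α = β → w * s ∈ T) :
    swaps G α β ≤ Nat.card T := by
  obtain ⟨w, hw1, hw2, hw3⟩ := E.exists_swapper c h2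
  refine Nat.card_le_card_of_injective (fun s : {s : G // orderOf s = 2 ∧ (∃ z : Ω, s • z = z) ∧
    s • α = β} => (⟨w * s, hT w s hw1 s.2.1 hw2 s.2.2.1 hw3 s.2.2.2⟩ : T)) fun s s' e => ?_
  exact Subtype.ext (mul_left_cancel (congrArg Subtype.val e))

theorem prime_degree (c : Ctx G Ω) (h2 : 2 < Nat.card Ω) :
    (Nat.card Ω - 1).Prime ∧
      Nat.card ↥(stabilizer G α ⊓ stabilizer G β : Subgroup G) ∣ Nat.card Ω - 2 ∧
      Nat.card Ω - 2 ≤ 2 * Nat.card ↥(stabilizer G α ⊓ stabilizer G β : Subgroup G) := by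
  haveI := E.cyc
  haveI := E.dcyc
  obtain ⟨D, hD⟩ : ∃ D, D = stabilizer G α ⊓ stabilizer G β := ⟨_, rfl⟩
  rw [← hD]
  haveI : IsCyclic D := hD ▸ E.dcyc
  have hnorm : D ≤ Subgroup.normalizer (E.N : Set G) := by
    intro x hx
    rw [hD] at hx
    rw [Subgroup.mem_normalizer_iff]
    intro k
    refine ⟨fun hk => E.norm x hx.1 k hk, fun hk => ?_⟩
    have h := E.norm x⁻¹ (inv_mem hx.1) _ hk
    simpa [mul_assoc] using h
  obtain ⟨x, hx⟩ := (inferInstance : IsCyclic D).exists_generator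
  let φ : D →* (ZMod (Nat.card E.N))ˣ :=
    (IsCyclic.mulAutMulEquiv (G := E.N)).toMonoidHom.comp
      (E.N.normalizerMonoidHom.comp (Subgroup.inclusion hnorm))
  have hφ : Function.Injective φ := by
    refine (IsCyclic.mulAutMulEquiv (G := E.N)).injective.comp ?_
    rw [injective_iff_map_eq_one]
    intro y hy
    rw [MonoidHom.comp_apply, ← MonoidHom.mem_ker, Subgroup.normalizerMonoidHom_ker,
      Subgroup.mem_subgroupOf, Subgroup.mem_centralizer_iff] at hy
    exact Subtype.ext (E.faith _ (hD ▸ y.2) fun k hk => (hy k hk).symm)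
  have hord : orderOf (φ x) = Nat.card D := by
    rw [orderOf_injective φ hφ, orderOf_eq_card_of_forall_mem_zpowers hx]
  have hsw := two_mul_swaps c h2 E
  have hle : swaps G α β ≤ Nat.card D := by
    refine E.swaps_le c h2 D fun w s hw hs _ _ hwα hsα => ?_
    rw [hD]
    exact swap_mul_mem (mul_self_of_orderOf hw) (mul_self_of_orderOf hs) hwα hsα
  have hm : Odd (Nat.card Ω - 1) := by
    obtain ⟨r, hr⟩ := c.even
    exact ⟨r - 1, by omega⟩
  have hbig : Nat.card Ω - 1 - 1 ≤ 2 * Nat.card D := by omega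
  have hcop : Nat.Coprime (Nat.card D) (Nat.card Ω - 1) := by
    rw [hD]; exact E.cop.symm
  have hp : (Nat.card E.N).Prime := by
    refine prime_of_orderOf (E.cardN ▸ hm) ?_ (φ x) (by rw [hord, E.cardN]; exact hcop)
      (by rw [hord, E.cardN]; exact hbig)
    rw [E.cardN]
    obtain ⟨r, hr⟩ := c.even
    omega
  refine ⟨E.cardN ▸ hp, ?_, by omega⟩
  have h := Subgroup.card_dvd_of_injective φ hφ
  haveI : NeZero (Nat.card E.N) := ⟨hp.ne_zero⟩
  rw [Nat.card_eq_fintype_card (α := (ZMod (Nat.card E.N))ˣ), ZMod.card_units_eq_totient,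
    Nat.totient_prime hp, E.cardN] at h
  rwa [show Nat.card Ω - 1 - 1 = Nat.card Ω - 2 by omega] at h

theorem card_D (c : Ctx G Ω) (h2 : 2 < Nat.card Ω) :
    Nat.card ↥(stabilizer G α ⊓ stabilizer G β : Subgroup G) = Nat.card Ω - 2 := by
  classical
  obtain ⟨hp, hdvd, hbig⟩ := E.prime_degree c h2
  obtain ⟨D, hD⟩ : ∃ D, D = stabilizer G α ⊓ stabilizer G β := ⟨_, rfl⟩
  have h2D := E.two_dvd_D
  rw [← hD] at hdvd hbig h2D ⊢
  obtain ⟨q, hq⟩ := hdvd
  have hq2 : q ≤ 2 := by
    by_contra hlt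
    have : Nat.card D * 3 ≤ Nat.card D * q := Nat.mul_le_mul_left _ (by omega)
    have := Nat.card_pos (α := D)
    omega
  rcases (show q = 0 ∨ q = 1 ∨ q = 2 by omega) with rfl | rfl | rfl
  · omega
  · omega
  exfalso
  -- `n ≡ 2 (mod 4)`: the semiregular involution is odd and the others are even
  obtain ⟨r, hr⟩ := h2D
  have hn : Nat.card Ω = 2 * (2 * r + 1) := by omega
  have hv : (Nat.card Ω).factorization 2 = 1 := by
    rw [hn, Nat.factorization_mul two_ne_zero (by omega), Finsupp.add_apply,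
      Nat.factorization_eq_zero_of_not_dvd (show ¬ 2 ∣ 2 * r + 1 by omega),
      Nat.prime_two.factorization_self]
  obtain ⟨a, ha, hsemi⟩ := c.semi
  rw [hv, pow_one] at ha
  have hne : ∀ x : Ω, a • x ≠ x := fun x hx => by
    have h1 := hsemi 1 x (by rwa [pow_one])
    rw [pow_one] at h1
    rw [h1, orderOf_one] at ha
    omega
  have hsa : sgn G Ω a = -1 := by
    have h := sgn_of_period (Ω := Ω) (g := a) (k := 0) (m := 2 * r + 1)
      (by rw [zero_add, pow_one, pow_two, mul_self_of_orderOf ha])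
      (fun x hx => by simpa using hx)
      (by rw [Nat.card_congr (Equiv.subtypeUnivEquiv hne)]; omega)
    rw [h, Odd.neg_one_pow ⟨r, rfl⟩]
  have hsI : ∀ s : G, orderOf s = 2 → (∃ z : Ω, s • z = z) → sgn G Ω s = 1 := by
    rintro s hs ⟨z, hz⟩
    have h := card_fix_add_moved (Ω := Ω) s
    rw [fix_two c hs hz] at h
    have h' := sgn_of_period (Ω := Ω) (g := s) (k := 0) (m := 2 * r)
      (by rw [zero_add, pow_one, pow_two, mul_self_of_orderOf hs])
      (fun x hx => by simpa using hx) (by omega)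
    rw [h', pow_mul, neg_one_sq, one_pow]
  obtain ⟨K, hK⟩ : ∃ K, K = (sgn G Ω).ker := ⟨_, rfl⟩
  haveI hKn : K.Normal := hK ▸ inferInstance
  have htK : t ∈ K := hK ▸ hsI t E.ord_t ⟨α, E.tα⟩
  have hK1 : K ≠ ⊥ := fun e => by
    rw [e, Subgroup.mem_bot] at htK
    have := E.ord_t
    rw [htK, orderOf_one] at this
    omega
  obtain ⟨x, hxD, hxK⟩ : ∃ x ∈ D, x ∉ K := by
    by_contra hcon
    push Not at hcon
    have hNK : ∀ k ∈ E.N, k ∈ K := by
      intro k hk
      rw [hK, MonoidHom.mem_ker]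
      have h1 : k ^ (Nat.card Ω - 1) = 1 := by
        rw [← E.cardN]
        exact congrArg Subtype.val (pow_card_eq_one' (x := (⟨k, hk⟩ : E.N)))
      have h2 := congrArg (sgn G Ω) h1
      rw [map_pow, map_one, show Nat.card Ω - 1 = 2 * (2 * r) + 1 by omega, pow_succ, pow_mul,
        Int.units_sq, one_pow, one_mul] at h2
      exact h2
    obtain ⟨k, hk, hka⟩ := normal_transitive c hKn hK1 α (a • α)
    have hstab : k⁻¹ * a ∈ stabilizer G α := by
      change (k⁻¹ * a) • α = α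
      rw [mul_smul, ← hka, inv_smul_smul]
    have hzα : (k⁻¹ * a) • α = α := hstab
    obtain ⟨m, hm, hmβ⟩ := E.reg ((k⁻¹ * a) • β) fun e => E.ne
      (smul_left_cancel (k⁻¹ * a) (hzα.trans e.symm))
    have hxD : m⁻¹ * (k⁻¹ * a) ∈ D := by
      rw [hD]
      refine Subgroup.mem_inf.2 ⟨mul_mem (inv_mem (E.Nle hm)) hstab, ?_⟩
      change (m⁻¹ * (k⁻¹ * a)) • β = β
      rw [mul_smul, ← hmβ, inv_smul_smul]
    have haK : a ∈ K := by
      have := mul_mem hk (mul_mem (hNK m hm) (hcon _ hxD))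
      simpa using this
    rw [hK, MonoidHom.mem_ker, hsa] at haK
    exact absurd haK (by decide)
  have hlt : K ⊓ D < D := lt_of_le_of_ne inf_le_right fun e => hxK (inf_eq_right.1 e hxD)
  have hcard : 2 * Nat.card ↥(K ⊓ D) ≤ Nat.card D := by
    obtain ⟨b, hb⟩ := Subgroup.card_dvd_of_le hlt.le
    have hb2 : 2 ≤ b := by
      by_contra hlt'
      rcases (show b = 0 ∨ b = 1 by omega) with rfl | rfl
      · rw [mul_zero] at hb
        exact Nat.card_pos.ne' hb
      · exact hlt.ne (Subgroup.eq_of_le_of_card_ge hlt.le (by rw [hb, mul_one]))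
    rw [hb, mul_comm]
    exact Nat.mul_le_mul_left _ hb2
  have hsw := two_mul_swaps c h2 E
  have hle : swaps G α β ≤ Nat.card ↥(K ⊓ D) := by
    refine E.swaps_le c h2 _ fun w s hw hs hwf hsf hwα hsα => Subgroup.mem_inf.2 ⟨?_, ?_⟩
    · rw [hK, MonoidHom.mem_ker, map_mul, hsI w hw hwf, hsI s hs hsf, mul_one]
    · rw [hD]
      exact swap_mul_mem (mul_self_of_orderOf hw) (mul_self_of_orderOf hs) hwα hsα
  omega

theorem inverted (c : Ctx G Ω) (h2 : 2 < Nat.card Ω) :
    ∃ w : G, ∀ x ∈ stabilizer G α ⊓ stabilizer G β, w * x * w⁻¹ = x⁻¹ := by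
  classical
  obtain ⟨w, hw, -, hwα⟩ := E.exists_swapper c h2
  have hcd := E.card_D c h2
  obtain ⟨D, hD⟩ : ∃ D, D = stabilizer G α ⊓ stabilizer G β := ⟨_, rfl⟩
  haveI : IsCyclic D := hD ▸ E.dcyc
  rw [← hD] at hcd ⊢
  have hcomm : ∀ x ∈ D, ∀ y ∈ D, x * y = y * x := fun x hx y hy =>
    congrArg Subtype.val ((IsCyclic.commGroup (α := D)).mul_comm ⟨x, hx⟩ ⟨y, hy⟩)
  let I : Subgroup G :=
    { carrier := {x | x ∈ D ∧ w * x * w⁻¹ = x⁻¹}
      one_mem' := ⟨D.one_mem, by simp⟩
      mul_mem' := fun {x y} hx hy => ⟨D.mul_mem hx.1 hy.1, by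
        rw [← conj_mul, hx.2, hy.2, ← mul_inv_rev, hcomm y hy.1 x hx.1]⟩
      inv_mem' := fun {x} hx => ⟨D.inv_mem hx.1, by rw [← conj_inv, hx.2]⟩ }
  -- a fixed-point-free involution exchanging the two points
  obtain ⟨j, hj, hjfree, hjα⟩ : ∃ j : G, j * j = 1 ∧ (∀ z : Ω, j • z ≠ z) ∧ j • α = β := by
    obtain ⟨a, ha, hsemi⟩ := c.semi
    obtain ⟨v, hv⟩ : ∃ v, (Nat.card Ω).factorization 2 = v + 1 :=
      ⟨_, (Nat.sub_add_cancel ((Nat.prime_two.dvd_iff_one_le_factorization (by omega)).1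
        (even_iff_two_dvd.1 c.even))).symm⟩
    rw [hv] at ha
    have hne : a ^ 2 ^ v ≠ 1 := fun e => by
      have := Nat.le_of_dvd (by positivity) (orderOf_dvd_of_pow_eq_one e)
      rw [ha, pow_succ] at this
      have := Nat.two_pow_pos v
      omega
    obtain ⟨g, hg1, hg2⟩ := c.pair α (a ^ 2 ^ v • α) α β
      (fun e => hne (hsemi _ α e.symm)) E.ne
    refine ⟨g * a ^ 2 ^ v * g⁻¹, ?_, fun z hz => hne (hsemi _ (g⁻¹ • z) ?_), ?_⟩
    · rw [conj_mul, ← pow_add, ← two_mul, ← pow_succ', ← ha, pow_orderOf_eq_one, mul_one,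
        mul_inv_cancel]
    · rw [mul_smul, mul_smul, smul_eq_iff_eq_inv_smul] at hz
      exact hz
    · rw [mul_smul, inv_smul_eq_iff.2 hg1.symm, mul_smul, hg2]
  have hmemI : ∀ s : G, s * s = 1 → s • α = β → w * s ∈ I := fun s hs hsα =>
    ⟨by rw [hD]; exact swap_mul_mem (mul_self_of_orderOf hw) hs hwα hsα,
      conj_swap_mul (mul_self_of_orderOf hw) hs⟩
  have hcardI : swaps G α β + 1 ≤ Nat.card I := by
    rw [swaps, ← Finite.card_option]
    refine Nat.card_le_card_of_injective (fun o => match o with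
      | none => (⟨w * j, hmemI j hj hjα⟩ : I)
      | some s => (⟨w * (s : G), hmemI s (mul_self_of_orderOf s.2.1) s.2.2.2⟩ : I)) ?_
    intro o o' e
    match o, o' with
    | none, none => rfl
    | some s, some s' =>
      exact congrArg some (Subtype.ext (mul_left_cancel (congrArg Subtype.val e)))
    | none, some s =>
      obtain ⟨z, hz⟩ := s.2.2.1
      rw [← mul_left_cancel (congrArg Subtype.val e)] at hz
      exact absurd hz (hjfree z)
    | some s, none =>
      obtain ⟨z, hz⟩ := s.2.2.1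
      rw [mul_left_cancel (congrArg Subtype.val e)] at hz
      exact absurd hz (hjfree z)
  have hle : I ≤ D := fun x hx => hx.1
  have hsw := two_mul_swaps c h2 E
  have hID : I = D := by
    refine Subgroup.eq_of_le_of_card_ge hle ?_
    obtain ⟨b, hb⟩ := Subgroup.card_dvd_of_le hle
    by_contra hlt
    push Not at hlt
    have hb2 : 2 ≤ b := by
      by_contra hb'
      rcases (show b = 0 ∨ b = 1 by omega) with rfl | rfl <;> simp at hb <;> omega
    have := Nat.mul_le_mul_left (Nat.card I) hb2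
    omega
  exact ⟨w, fun x hx => (hID ▸ hx : x ∈ I).2⟩

end Core

theorem exists_shape (c : Ctx G Ω) (hns : ¬ Group.IsSolvable G) : ∃ p, Shape G Ω p := by
  classical
  have h2 := two_lt c hns
  haveI := c.faith
  haveI := pretransitive c
  haveI : Fact (Nat.Prime 2) := ⟨Nat.prime_two⟩
  obtain ⟨α⟩ : Nonempty Ω := (Nat.card_pos_iff.1 (by omega)).1
  obtain ⟨t₀, ht₀⟩ := exists_prime_orderOf_dvd_card' (G := ↥(stabilizer G α)) 2
    (two_dvd_stabilizer c h2 α)
  obtain ⟨t, hte⟩ : ∃ t : G, t = (t₀ : G) := ⟨_, rfl⟩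
  have ht : orderOf t = 2 := by rw [hte, Subgroup.orderOf_coe, ht₀]
  have hα : t • α = α := hte ▸ t₀.2
  obtain ⟨β, hαβ, hβ, -⟩ := exists_other_fix c ht hα
  obtain ⟨E⟩ := exists_core c h2 ht hα hβ hαβ
  obtain ⟨p, hpdef⟩ : ∃ p, p = Nat.card Ω - 1 := ⟨_, rfl⟩
  have hp : p.Prime := hpdef ▸ (E.prime_degree c h2).1
  haveI := Fact.mk hp
  have hΩ : Nat.card Ω = p + 1 := by omega
  have hd : Nat.card ↥(stabilizer G α ⊓ stabilizer G β : Subgroup G) = p - 1 := by
    rw [E.card_D c h2]; omega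
  have hH : Nat.card ↥(stabilizer G α) = p * (p - 1) := by rw [E.card_stab, hd, hpdef]
  have hG : Nat.card G = (p + 1) * p * (p - 1) := by
    rw [card_eq c α, hH, hΩ, mul_assoc]
  have hN : Nat.card E.N = p := by rw [E.cardN, hpdef]
  have hp5 : 5 ≤ p := by
    have h2p := hp.two_le
    by_contra hlt
    have hp2 : p ≠ 2 := fun e => by
      have := c.even
      rw [hΩ, e] at this
      exact absurd this (by decide)
    have hp4 : p ≠ 4 := fun e => absurd (e ▸ hp) (by norm_num)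
    obtain rfl : p = 3 := by omega
    exact hns (Cfsg.Agent.S0144.result 2 3 3 1 Nat.prime_two Nat.prime_three (by rw [hG]; norm_num))
  refine ⟨p, hp, hp5, hΩ, hG, ?_, ?_⟩
  · obtain ⟨D, hDF, hDH⟩ := ZassAbelian.exists_setting_prime_add_one (G := G) (Ω := Ω) hp hΩ hG
      (by omega)
    obtain ⟨g, hg1, hg2⟩ := c.pair α β D.i D.o hαβ D.io
    haveI := E.dcyc
    have hcomm : ∀ a ∈ D.H, ∀ b ∈ D.H, a * b = b * a := by
      intro a ha b hb
      rw [ZassAbelian.Setting.mem_H] at ha hb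
      have key : ∀ z : G, (z • D.i = D.i ∧ z • D.o = D.o) →
          g⁻¹ * z * g ∈ stabilizer G α ⊓ stabilizer G β := fun z hz =>
        ⟨by change (g⁻¹ * z * g) • α = α; rw [mul_smul, hg1, mul_smul, hz.1, ← hg1, inv_smul_smul],
          by change (g⁻¹ * z * g) • β = β; rw [mul_smul, hg2, mul_smul, hz.2, ← hg2, inv_smul_smul]⟩
      have h := congrArg Subtype.val (IsCyclic.commGroup.mul_comm
        (⟨_, key a ha⟩ : ↥(stabilizer G α ⊓ stabilizer G β : Subgroup G)) ⟨_, key b hb⟩)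
      have h' : (g⁻¹ * a * g) * (g⁻¹ * b * g) = (g⁻¹ * b * g) * (g⁻¹ * a * g) := h
      calc a * b = g * ((g⁻¹ * a * g) * (g⁻¹ * b * g)) * g⁻¹ := by group
        _ = g * ((g⁻¹ * b * g) * (g⁻¹ * a * g)) * g⁻¹ := by rw [h']
        _ = b * a := by group
    obtain ⟨K, iF, iT, hK, hiso⟩ := ZassAbelian.pgl_of_commutative D (by rw [hDH, hDF]) hcomm
    exact ⟨K, iF, iT, hK.trans hDF, hiso⟩
  intro Y hY hYns
  -- `N ≤ Y`
  have hprimeN : ∀ z ∈ E.N, z ≠ 1 → Subgroup.zpowers z = E.N := fun z hz hz1 => by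
    have hle : Subgroup.zpowers z ≤ E.N := Subgroup.zpowers_le.2 hz
    refine Subgroup.eq_of_le_of_card_ge hle ?_
    rw [hN, Nat.card_zpowers]
    have hdvd : orderOf z ∣ p := by
      rw [← Nat.card_zpowers, ← hN]
      exact Subgroup.card_dvd_of_le hle
    rcases (Nat.dvd_prime hp).1 hdvd with h | h
    · exact absurd (orderOf_eq_one_iff.1 h) hz1
    · exact h.ge
  have hNY : E.N ≤ Y := by
    by_contra hnle
    have hint : ∀ z ∈ E.N, z ∈ Y → z = 1 := fun z hz hzY => by
      by_contra hz1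
      exact hnle (hprimeN z hz hz1 ▸ Subgroup.zpowers_le.2 hzY)
    have hreg : ∀ z ∈ Y, z • α = α → z = 1 := by
      intro z hzY hzα
      have hc : ∀ k ∈ E.N, z * k = k * z := fun k hk => by
        have h1 : z * k * z⁻¹ * k⁻¹ ∈ E.N := mul_mem (E.norm z hzα k hk) (inv_mem hk)
        have h2 : z * k * z⁻¹ * k⁻¹ ∈ Y := by
          rw [show z * k * z⁻¹ * k⁻¹ = z * (k * z⁻¹ * k⁻¹) by group]
          exact mul_mem hzY (hY.conj_mem _ (inv_mem hzY) k)
        exact mul_inv_eq_iff_eq_mul.1 (mul_inv_eq_one.1 (hint _ h1 h2))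
      obtain ⟨k, hk, hkβ⟩ := E.reg (z • β) fun e =>
        hαβ (smul_left_cancel z (hzα.trans e.symm))
      haveI := E.cyc
      have hx : k⁻¹ * z ∈ stabilizer G α ⊓ stabilizer G β :=
        Subgroup.mem_inf.2 ⟨mul_mem (inv_mem (E.Nle hk)) (show z ∈ stabilizer G α from hzα),
          by change (k⁻¹ * z) • β = β; rw [mul_smul, ← hkβ, inv_smul_smul]⟩
      have hx1 := E.faith _ hx fun m hm => by
        have e : k * m = m * k := congrArg Subtype.val
          ((IsCyclic.commGroup (α := E.N)).mul_comm ⟨k, hk⟩ ⟨m, hm⟩)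
        have e' : k⁻¹ * m = m * k⁻¹ :=
          (inv_mul_eq_iff_eq_mul.2 (by rw [← mul_assoc, e, mul_inv_cancel_right])).trans rfl
        rw [mul_assoc, hc m hm, ← mul_assoc, e', mul_assoc]
      rw [inv_mul_eq_one] at hx1
      exact hint z (hx1 ▸ hk) hzY
    -- so all non-trivial elements of `Y` are conjugate
    have hY1 : Y ≠ ⊥ := fun e => hYns (by
      subst e
      exact Group.isSolvable_of_comm fun a b => Subsingleton.elim _ _)
    obtain ⟨q, hq, hqd⟩ := Nat.exists_prime_and_dvd (n := Nat.card Y)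
      (fun e => hY1 (Subgroup.eq_bot_of_card_eq Y e))
    haveI := Fact.mk hq
    obtain ⟨u, hu⟩ := exists_prime_orderOf_dvd_card' (G := ↥Y) q hqd
    refine hYns ?_
    haveI : Group.IsNilpotent ↥Y := by
      refine IsPGroup.isNilpotent (p := q) fun v => ?_
      by_cases hv : v = 1
      · exact ⟨0, by rw [hv, one_pow]⟩
      refine ⟨1, ?_⟩
      have hu1 : u ≠ 1 := fun e => by
        rw [e, orderOf_one] at hu
        exact hq.one_lt.ne hu
      have hne : ∀ z : ↥Y, z ≠ 1 → (z : G) • α ≠ α := fun z hz e =>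
        hz (Subtype.ext (hreg z z.2 e))
      obtain ⟨g, hg1, hg2⟩ := c.pair α ((v : G) • α) α ((u : G) • α) (hne v hv).symm
        (hne u hu1).symm
      have h3 : g * (v : G) * g⁻¹ = u := by
        have h4 := hreg ((u : G)⁻¹ * (g * (v : G) * g⁻¹))
          (mul_mem (inv_mem u.2) (hY.conj_mem _ v.2 g))
          (by rw [mul_smul, mul_smul, inv_smul_eq_iff.2 hg1.symm, mul_smul, hg2, inv_smul_smul])
        exact (inv_mul_eq_one.1 h4).symm
      rw [pow_one]
      apply Subtype.ext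
      have h5 : orderOf (v : G) = q := by
        rw [← hu, ← Subgroup.orderOf_coe, ← h3]
        exact (orderOf_injective (MulAut.conj g).toMonoidHom (MulAut.conj g).injective _).symm
      rw [SubmonoidClass.coe_pow, OneMemClass.coe_one, ← h5, pow_orderOf_eq_one]
    infer_instance
  -- Sylow subgroups
  have hfac : (Nat.card G).factorization p = 1 := by
    rw [hG, mul_comm (p + 1) p, mul_assoc, Nat.factorization_mul hp.ne_zero (by
      have := hp.two_le
      exact Nat.mul_ne_zero (by omega) (by omega)), Finsupp.add_apply, hp.factorization_self,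
      Nat.factorization_eq_zero_of_not_dvd]
    rw [hp.dvd_mul]
    rintro (h | h) <;> obtain ⟨q, hq⟩ := h
    · have : q ≤ 1 := by
        by_contra hlt
        have := Nat.mul_le_mul_left p (show 2 ≤ q by omega)
        omega
      rcases (show q = 0 ∨ q = 1 by omega) with rfl | rfl <;> omega
    · rcases Nat.eq_zero_or_pos q with rfl | hq0
      · omega
      · have := Nat.le_mul_of_pos_right p hq0
        omega
  let P₀ : Sylow p G := Sylow.ofCard E.N (by rw [hN, hfac, pow_one])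
  have hP₀ : (P₀ : Subgroup G) = E.N := rfl
  have hnorm : Subgroup.normalizer ((P₀ : Subgroup G) : Set G) = stabilizer G α := by
    rw [hP₀]
    refine le_antisymm (fun g hg => ?_) (fun g hg => ?_)
    · by_contra hgα
      obtain ⟨k, hk, hk1⟩ : ∃ k ∈ E.N, k ≠ 1 := E.N.bot_or_exists_ne_one.resolve_left fun e => by
        rw [e, Subgroup.card_bot] at hN
        omega
      refine hk1 (E.free k hk (g • α) hgα ?_)
      have h := mem_stabilizer_iff.1 (E.Nle ((Subgroup.mem_normalizer_iff.1 (inv_mem hg) k).1 hk))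
      rw [inv_inv, mul_smul, mul_smul, inv_smul_eq_iff] at h
      exact h
    · rw [Subgroup.mem_normalizer_iff]
      intro k
      refine ⟨fun hk => E.norm g hg k hk, fun hk => ?_⟩
      have h := E.norm g⁻¹ (inv_mem hg) _ hk
      simpa [mul_assoc] using h
  have hsyl : Nat.card (Sylow p G) = p + 1 := by
    have h9 := P₀.card_eq_index_normalizer
    rw [show (P₀ : Set G) = ((P₀ : Subgroup G) : Set G) from rfl, hnorm,
      index_stabilizer_of_transitive, hΩ] at h9
    exact h9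
  have hall : ∀ P : Sylow p G, (P : Subgroup G) ≤ Y := by
    intro P
    obtain ⟨g, rfl⟩ := exists_smul_eq G P₀ P
    rw [Sylow.coe_subgroup_smul]
    rintro _ ⟨z, hz, rfl⟩
    exact hY.conj_mem z (hNY hz) g
  have hsylY : Nat.card (Sylow p ↥Y) = p + 1 := by
    rw [← hsyl]
    refine (Nat.card_eq_of_bijective (fun P : Sylow p G => P.subtype (hall P)) ⟨?_, ?_⟩).symm
    · exact fun P Q e => Sylow.subtype_injective e
    · intro Q
      obtain ⟨P, hP⟩ := (Q.2.map Y.subtype).exists_le_sylow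
      exact ⟨P, Sylow.ext (Q.3 (P.subtype (hall P)).2 fun z hz => hP ⟨z, hz, rfl⟩)⟩
  refine ⟨?_, hsylY, fun x => ?_⟩
  · obtain ⟨w, hw⟩ := E.inverted c h2
    haveI := E.dcyc
    obtain ⟨g, hg⟩ := (inferInstance :
      IsCyclic ↥(stabilizer G α ⊓ stabilizer G β : Subgroup G)).exists_generator
    have hsurj : ∀ q : G ⧸ Y, q ∈ Subgroup.zpowers ((g : G) : G ⧸ Y) := by
      intro q
      obtain ⟨z, rfl⟩ := QuotientGroup.mk_surjective q
      obtain ⟨y, hy, hyα⟩ := normal_transitive c hY (fun e => hYns (by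
        subst e
        exact Group.isSolvable_of_comm fun a b => Subsingleton.elim _ _)) α (z • α)
      have hzα : (y⁻¹ * z) • α = α := by rw [mul_smul, ← hyα, inv_smul_smul]
      obtain ⟨k, hk, hkβ⟩ := E.reg ((y⁻¹ * z) • β) fun e =>
        hαβ (smul_left_cancel (y⁻¹ * z) (hzα.trans e.symm))
      have hxD : k⁻¹ * (y⁻¹ * z) ∈ stabilizer G α ⊓ stabilizer G β :=
        Subgroup.mem_inf.2 ⟨mul_mem (inv_mem (E.Nle hk)) (show y⁻¹ * z ∈ stabilizer G α from hzα),
          by change (k⁻¹ * (y⁻¹ * z)) • β = β; rw [mul_smul, ← hkβ, inv_smul_smul]⟩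
      obtain ⟨i, hi⟩ := Subgroup.mem_zpowers_iff.1 (hg ⟨_, hxD⟩)
      refine Subgroup.mem_zpowers_iff.2 ⟨i, ?_⟩
      rw [← QuotientGroup.mk_zpow, show (g : G) ^ i = k⁻¹ * (y⁻¹ * z) from congrArg Subtype.val hi,
        QuotientGroup.mk_mul, QuotientGroup.mk_mul,
        (QuotientGroup.eq_one_iff _).2 (inv_mem (hNY hk)),
        (QuotientGroup.eq_one_iff _).2 (inv_mem hy), one_mul, one_mul]
    have hcomm : ∀ a b : G ⧸ Y, a * b = b * a := fun a b => by
      obtain ⟨i, rfl⟩ := Subgroup.mem_zpowers_iff.1 (hsurj a)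
      obtain ⟨j, rfl⟩ := Subgroup.mem_zpowers_iff.1 (hsurj b)
      exact (Commute.zpow_zpow_self _ i j).eq
    have hsq : ((g : G) : G ⧸ Y) * ((g : G) : G ⧸ Y) = 1 := by
      have h := congrArg (QuotientGroup.mk : G → G ⧸ Y) (hw g g.2)
      simp only [QuotientGroup.mk_mul, QuotientGroup.mk_inv] at h
      rw [hcomm (w : G ⧸ Y), mul_inv_cancel_right, eq_inv_iff_mul_eq_one] at h
      exact h
    rw [Subgroup.index, ← orderOf_eq_card_of_forall_mem_zpowers hsurj]
    exact Nat.le_of_dvd two_pos (orderOf_dvd_of_pow_eq_one (by rw [pow_two, hsq]))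
  · obtain ⟨g, hg⟩ := exists_smul_eq G α x
    refine ⟨E.N.map (MulAut.conj g).toMonoidHom, ?_, ?_, ?_⟩
    · rintro _ ⟨z, hz, rfl⟩
      exact hY.conj_mem z (hNY hz) g
    · rw [Subgroup.card_map_of_injective (MulAut.conj g).injective, hN]
    · rintro h hh _ ⟨z, hz, rfl⟩
      have hmem : g⁻¹ * h * g ∈ stabilizer G α := by
        change (g⁻¹ * h * g) • α = α
        rw [mul_smul, hg, mul_smul, mem_stabilizer_iff.1 hh, ← hg, inv_smul_smul]
      exact ⟨_, E.norm _ hmem z hz, by simp [mul_assoc]⟩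

end CfsgLib.CycZ75
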